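import Mathlib
import Cfsg.Agent.H319.One.Weights
import Cfsg.Agent.OddOrderLocal.FrobRep
import Cfsg.Agent.H161.G2Elems
import Cfsg.Agent.Lib.FinFast
import Cfsg.Agent.Prune
set_option linter.all false

section
prune_inst 0x7f00000000000000000000000000000000000000000000000000000000000000000000000000000000000000000000000000000000000000000000000000000000000000000000000000000000000000003fffffffffffffffffffffffffffbeffbdffffffff

section
prune_inst 0xfbadfbfdfce9dfdfff7feda69ecdfdfbbb1fffe4dffdcbffe0e9ff2b9f63828de7639d8be010fc1eb6c21410aa7803ff7eeeffe06fdc7ffffd5ff45ffbee4fe5f7bd0851d68c340fbc0ff703f0678e7f000000000000000000000000000000000200000000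

-- part: H420/PG/G2Oct
section
prune_inst 0x40000000000000000000000000000000000000000000000000000000000000000000000000000000000000000000000000000000000000000000000000000000000000000000000000000000000000000000000000
set_option linter.all false
open scoped Cfsg.Agent.FastGrp

-- part: H420/PG/G2Wt
section
/-!
# Fixed spaces of elementary abelian `3`-groups; common eigenvectors (helper420)

* `fx f` : the fixed vectors of an endomorphism;
* `dim3` : `3 ∑_{a ∈ A} dim V^a = |A| (dim V + 2 dim V^A)` for a finite abelian group `A` of exponent `3` acting on `V` in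
  characteristic `≠ 3`;
* `exists_eigen` : a common eigenvector of a commutative group in an invariant subspace.
-/

set_option autoImplicit false
set_option linter.unusedSectionVars false

namespace Cfsg.Agent.H420.PG.G2

open Module

section Fx

variable {𝕜 V : Type*} [Field 𝕜] [AddCommGroup V] [Module 𝕜 V]

/-- the fixed vectors of an endomorphism -/
def fx (f : Module.End 𝕜 V) : Submodule 𝕜 V := LinearMap.ker (f - 1)

theorem mem_fx {f : Module.End 𝕜 V} {v : V} : v ∈ fx f ↔ f v = v := by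
  rw [fx, LinearMap.mem_ker, LinearMap.sub_apply, Module.End.one_apply, sub_eq_zero]

theorem fx_one : fx (1 : Module.End 𝕜 V) = ⊤ := by
  rw [eq_top_iff]
  intro v _
  rw [mem_fx]; rfl

/-- conjugate endomorphisms -/
theorem finrank_conj {f g h h' : Module.End 𝕜 V} (hh : h * h' = 1) (hh' : h' * h = 1) (e : h * f = g * h) :
    finrank 𝕜 (fx f) = finrank 𝕜 (fx g) := by
  have a1 : ∀ v, h' (h v) = v := fun v => by
    rw [← Module.End.mul_apply, hh']; rfl
  have a2 : ∀ v, h (h' v) = v := fun v => by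
    rw [← Module.End.mul_apply, hh]; rfl
  have e1 : ∀ v, h (f v) = g (h v) := fun v => by
    rw [← Module.End.mul_apply, e]; rfl
  let E : V ≃ₗ[𝕜] V := LinearEquiv.ofLinearMap h h' (LinearMap.ext a2) (LinearMap.ext a1)
  have hE : (fx f).map E.toLinearMap = fx g := by
    ext v
    constructor
    · rintro ⟨w, hw, rfl⟩
      rw [SetLike.mem_coe, mem_fx] at hw
      rw [mem_fx]
      show g (h w) = h w
      rw [← e1, hw]
    · intro hv
      rw [mem_fx] at hv
      refine ⟨h' v, ?_, a2 v⟩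
      rw [SetLike.mem_coe, mem_fx]
      have h3 : h (f (h' v)) = h (h' v) := by rw [e1, a2, hv]
      have h4 := congrArg h' h3
      rw [a1, a1] at h4
      exact h4
  rw [← hE]
  exact (E.submoduleMap (fx f)).finrank_eq

end Fx

section D3

variable {𝕜 V : Type*} [Field 𝕜] [IsAlgClosed 𝕜] [AddCommGroup V] [Module 𝕜 V] [FiniteDimensional 𝕜 V]

open Cfsg.Agent.H319.One.Weights in
theorem dim3_mul {P : Type*} [CommGroup P] [Fintype P] (hexp : ∀ x : P, x ^ 3 = 1) (hP : (Fintype.card P : 𝕜) ≠ 0)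
    (R : P →* Module.End 𝕜 V) :
    3 * ∑ x : P, finrank 𝕜 (fx (R x)) = Fintype.card P * (finrank 𝕜 V + 2 * finrank 𝕜 (fixS R ⊤)) := by
  classical
  have := finite_dual hP
  have : Fintype (P →* 𝕜ˣ) := Fintype.ofFinite _
  set m : (P →* 𝕜ˣ) → ℕ := fun χ => finrank 𝕜 ↥(wt R χ) with hm
  have hV : finrank 𝕜 V = ∑ χ, m χ := by
    have h1 := finrank_eq_sum R hP ⊤ (fun _ _ _ => Submodule.mem_top)
    rw [finrank_top] at h1
    rw [h1]
    refine Finset.sum_congr rfl fun χ _ => ?_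
    rw [top_inf_eq]
  have hfx : ∀ x : P, fx (R x) = fixS R (Subgroup.zpowers x) := by
    intro x
    ext v
    rw [mem_fx, mem_fixS]
    constructor
    · rintro hv y ⟨k, rfl⟩
      have key : ∀ n : ℕ, R (x ^ n) v = v := by
        intro n
        induction n with
        | zero => rw [pow_zero, map_one]; rfl
        | succ n ih => rw [pow_succ, map_mul, Module.End.mul_apply, hv, ih]
      obtain ⟨n, hn⟩ : ∃ n : ℕ, x ^ k = x ^ n := by
        obtain ⟨n, hn⟩ : ∃ n : ℕ, (n : ℤ) = k % 3 := ⟨(k % 3).toNat, by omega⟩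
        refine ⟨n, ?_⟩
        have h3 : x ^ (3 : ℤ) = 1 := by exact_mod_cast hexp x
        conv_lhs => rw [← Int.emod_add_mul_ediv k 3, zpow_add, zpow_mul, h3, one_zpow, mul_one, ← hn, zpow_natCast]
      show R (x ^ k) v = v
      rw [hn, key]
    · intro hv
      exact hv x (Subgroup.mem_zpowers x)
  have h1 : ∑ x : P, finrank 𝕜 (fx (R x)) = ∑ χ, m χ * Fintype.card {x : P // χ x = 1} := by
    have h2 : ∀ x : P, finrank 𝕜 (fx (R x)) = ∑ χ : P →* 𝕜ˣ, if χ x = 1 then m χ else 0 := by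
      intro x
      rw [hfx, finrank_fixS R hP]
      refine Finset.sum_congr rfl fun χ _ => ?_
      have h3 : Subgroup.zpowers (x : P) ≤ χ.ker ↔ χ (x : P) = 1 := by
        rw [Subgroup.zpowers_le, MonoidHom.mem_ker]
      by_cases h4 : χ (x : P) = 1
      · rw [if_pos (h3.2 h4), if_pos h4]
      · rw [if_neg (fun h5 => h4 (h3.1 h5)), if_neg h4]
    simp_rw [h2]
    rw [Finset.sum_comm]
    refine Finset.sum_congr rfl fun χ _ => ?_
    rw [← Finset.sum_filter, Finset.sum_const, smul_eq_mul, mul_comm, Fintype.card_subtype]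
  rw [h1, finrank_fixS R hP, hV, Finset.mul_sum, mul_add, Finset.mul_sum, Finset.mul_sum, Finset.mul_sum,
    ← Finset.sum_add_distrib]
  refine Finset.sum_congr rfl fun χ _ => ?_
  have hcard : Fintype.card {x : P // χ x = 1} = Nat.card χ.ker := by
    rw [Nat.card_eq_fintype_card]
    exact Fintype.card_congr (Equiv.subtypeEquivRight fun x => (MonoidHom.mem_ker).symm)
  by_cases h : (⊤ : Subgroup P) ≤ χ.ker
  · rw [if_pos h, hcard, top_le_iff.1 h, Subgroup.card_top, Nat.card_eq_fintype_card]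
    ring
  · rw [if_neg h, hcard, mul_zero, mul_zero, add_zero]
    have h5 : Nat.card χ.ker * Nat.card χ.range = Fintype.card P := by
      rw [← Nat.card_eq_fintype_card, ← Nat.card_congr (QuotientGroup.quotientKerEquivRange χ).toEquiv, mul_comm]
      exact (Subgroup.card_eq_card_quotient_mul_card_subgroup χ.ker).symm
    have hfr : Finite χ.range := Finite.of_surjective χ.rangeRestrict χ.rangeRestrict_surjective
    have h4 : IsCyclic χ.range := inferInstance
    have h6 : Nat.card χ.range ∣ 3 := by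
      obtain ⟨g, hg⟩ := h4.exists_generator
      rw [← orderOf_eq_card_of_forall_mem_zpowers hg]
      apply orderOf_dvd_of_pow_eq_one
      obtain ⟨y, hy⟩ := g.2
      apply Subtype.ext
      show (g : 𝕜ˣ) ^ 3 = 1
      rw [← hy, ← map_pow, hexp, map_one]
    have h7 : Nat.card χ.range ≠ 1 := by
      intro h8
      apply h
      intro x _
      have h9 := (Subgroup.card_eq_one.1 h8)
      have h10 : χ x ∈ χ.range := ⟨_, rfl⟩
      rw [h9, Subgroup.mem_bot] at h10
      exact h10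
    rcases (Nat.dvd_prime Nat.prime_three).1 h6 with h8 | h8
    · exact absurd h8 h7
    · rw [h8] at h5
      rw [← h5]
      ring

/-- **The dimension formula.** -/
theorem dim3 {A : Type*} [AddCommGroup A] [Fintype A] (h3 : ∀ a : A, a + a + a = 0) (hA : (Fintype.card A : 𝕜) ≠ 0)
    (R : A → Module.End 𝕜 V) (h0 : R 0 = 1) (hadd : ∀ a b, R (a + b) = R a * R b) {M : Submodule 𝕜 V}
    (hM : ∀ v, v ∈ M ↔ ∀ a, R a v = v) :
    3 * ∑ a : A, finrank 𝕜 (fx (R a)) = Fintype.card A * (finrank 𝕜 V + 2 * finrank 𝕜 M) := by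
  let R' : Multiplicative A →* Module.End 𝕜 V :=
    { toFun := fun a => R (Multiplicative.toAdd a)
      map_one' := h0
      map_mul' := fun a b => hadd _ _ }
  have h := dim3_mul (P := Multiplicative A) (𝕜 := 𝕜) (V := V) (fun x => by
    rw [pow_succ, pow_two]
    exact h3 (Multiplicative.toAdd x)) (by rw [Fintype.card_multiplicative]; exact hA) R'
  rw [Fintype.card_multiplicative] at h
  have hM' : Cfsg.Agent.H319.One.Weights.fixS R' ⊤ = M := by
    ext v
    rw [hM, Cfsg.Agent.H319.One.Weights.mem_fixS]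
    constructor
    · intro hv a
      exact hv (Multiplicative.ofAdd a) trivial
    · intro hv x _
      exact hv (Multiplicative.toAdd x)
  rw [hM'] at h
  rw [← h]
  congr 1
  exact Fintype.sum_equiv Multiplicative.ofAdd _ _ fun a => rfl

end D3

/-- a common eigenvector in an invariant subspace -/
theorem exists_eigen {𝕜 V : Type*} [Field 𝕜] [IsAlgClosed 𝕜] [AddCommGroup V] [Module 𝕜 V] [FiniteDimensional 𝕜 V]
    {P : Type*} [CommGroup P] (R : P →* Module.End 𝕜 V) {M : Submodule 𝕜 V} (hM : M ≠ ⊥)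
    (hR : ∀ p, ∀ v ∈ M, R p v ∈ M) : ∃ v ∈ M, v ≠ 0 ∧ ∃ μ : P →* 𝕜, ∀ p, R p v = μ p • v := by
  have hwf : WellFounded ((· < ·) : Submodule 𝕜 V → Submodule 𝕜 V → Prop) := wellFounded_lt
  let s : Set (Submodule 𝕜 V) := {U | U ≠ ⊥ ∧ U ≤ M ∧ ∀ a, ∀ v ∈ U, R a v ∈ U}
  have hs : s.Nonempty := ⟨M, hM, le_refl _, hR⟩
  obtain ⟨U, ⟨hU0, hUM, hUA⟩, hUmin⟩ := hwf.has_min s hs
  have hscal : ∀ a, ∃ c : 𝕜, ∀ v ∈ U, R a v = c • v := by
    intro a
    have : Nontrivial U := Submodule.nontrivial_iff_ne_bot.2 hU0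
    obtain ⟨c, hc⟩ := Module.End.exists_eigenvalue ((R a).restrict (hUA a))
    obtain ⟨u, hu⟩ := hc.exists_hasEigenvector
    refine ⟨c, ?_⟩
    have hU' : U ⊓ Module.End.eigenspace (R a) c ∈ s := by
      refine ⟨?_, inf_le_left.trans hUM, ?_⟩
      · intro h
        apply hu.2
        have h1 : (u : V) ∈ U ⊓ Module.End.eigenspace (R a) c := by
          refine ⟨u.2, ?_⟩
          rw [SetLike.mem_coe, Module.End.mem_eigenspace_iff]
          have := hu.1
          rw [Module.End.mem_eigenspace_iff] at this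
          exact congrArg Subtype.val this
        rw [h, Submodule.mem_bot] at h1
        exact Subtype.ext h1
      · rintro b v ⟨hv1, hv2⟩
        refine ⟨hUA b v hv1, ?_⟩
        rw [SetLike.mem_coe, Module.End.mem_eigenspace_iff] at hv2 ⊢
        calc R a (R b v) = R (a * b) v := by rw [map_mul]; rfl
          _ = R b (R a v) := by rw [mul_comm, map_mul]; rfl
          _ = c • R b v := by rw [hv2, map_smul]
    have h2 : ¬ U ⊓ Module.End.eigenspace (R a) c < U := hUmin _ hU'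
    have h3 : U ⊓ Module.End.eigenspace (R a) c = U := by
      by_contra h
      exact h2 (lt_of_le_of_ne inf_le_left h)
    intro v hv
    rw [← h3] at hv
    exact Module.End.mem_eigenspace_iff.1 hv.2
  obtain ⟨v, hv, hv0⟩ := Submodule.exists_mem_ne_zero_of_ne_bot hU0
  choose c hc using hscal
  refine ⟨v, hUM hv, hv0, ⟨⟨c, ?_⟩, ?_⟩, fun p => hc p v hv⟩
  · have h1 := hc 1 v hv
    rw [map_one, Module.End.one_apply] at h1
    have h2 : (1 - c 1) • v = 0 := by rw [sub_smul, one_smul, ← h1, sub_self]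
    exact (sub_eq_zero.1 ((smul_eq_zero.1 h2).resolve_right hv0)).symm
  · intro a b
    have h1 := hc (a * b) v hv
    rw [map_mul, Module.End.mul_apply, hc b v hv, map_smul, hc a v hv, smul_smul] at h1
    have h2 : (c b * c a - c (a * b)) • v = 0 := by rw [sub_smul, h1, sub_self]
    show c (a * b) = c a * c b
    rw [mul_comm (c a)]
    exact (sub_eq_zero.1 ((smul_eq_zero.1 h2).resolve_right hv0)).symm

end Cfsg.Agent.H420.PG.G2
end

-- part: H420/PG/G2SL
section
/-!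
# Explicit elements of `SL₃` (helper420)

* `u a b c` : the upper unitriangular matrix with entries `a = (1,2)`, `b = (2,3)`, `c = (1,3)`;
* `D (a, b)` : the diagonal matrix `diag(a, b, (ab)⁻¹)`;
* `n1`, `n2` : the reflections;
* `cellA`, `cellB`, `cellC` : the Bruhat cells of the rotations and of the longest element.
-/

set_option autoImplicit false
set_option linter.unusedSimpArgs false

namespace Cfsg.Agent.H420.PG.G2

open Matrix

variable {F : Type*} [Field F]

theorem eqM {M N : Matrix.SpecialLinearGroup (Fin 3) F} (h : (M : Matrix (Fin 3) (Fin 3) F) = (N : Matrix (Fin 3) (Fin 3) F)) :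
    M = N := Subtype.ext h

/-- unitriangular matrices -/
def u (a b c : F) : Matrix.SpecialLinearGroup (Fin 3) F :=
  ⟨!![1, a, c; 0, 1, b; 0, 0, 1], by rw [det_fin_three]; simp⟩

theorem u_coe (a b c : F) : (u a b c : Matrix (Fin 3) (Fin 3) F) = !![1, a, c; 0, 1, b; 0, 0, 1] := rfl

theorem u_mul (a b c a' b' c' : F) : u a b c * u a' b' c' = u (a + a') (b + b') (c + c' + a * b') := by
  apply eqM
  rw [Matrix.SpecialLinearGroup.coe_mul, u_coe, u_coe, u_coe]
  ext i j
  (revert i j; simp only [Matrix.mul_apply, Fin.sum_univ_succ, _root_.Fin.forall_fin_succ, _root_.Matrix.of_apply, _root_.Matrix.cons_val', _root_.Matrix.cons_val_fin_one, Fin.isValue, _root_.Matrix.cons_val_zero, _root_.Matrix.cons_val_succ, _root_.Finset.univ_unique, _root_.Fin.default_eq_zero, _root_.Finset.sum_const, _root_.Finset.card_singleton, _root_.one_smul, _root_.mul_one, _root_.MulZeroClass.mul_zero, _root_.add_zero, _root_.forall_const, _root_.true_and, _root_.one_mul,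 _root_.add_eq_right, _root_.mul_eq_zero, _root_.true_or, _root_.MulZeroClass.zero_mul, _root_.zero_add, _root_.and_self, _root_.implies_true, _root_.and_true]) <;> (repeat' with_reducible apply And.intro) <;> ring

theorem u_zero : u (0 : F) 0 0 = 1 := by
  apply eqM
  rw [Matrix.SpecialLinearGroup.coe_one, u_coe]
  ext i j
  (revert i j; simp only [_root_.Fin.forall_fin_succ, _root_.Matrix.of_apply, _root_.Matrix.cons_val', _root_.Matrix.cons_val_fin_one, Fin.isValue, _root_.Matrix.cons_val_zero, _root_.Matrix.cons_val_succ, _root_.IsEmpty.forall_iff, _root_.and_true, _root_.Matrix.one_apply_eq, Nat.reduceAdd, _root_.Fin.succ_zero_eq_one, _root_.ne_eq, _root_.zero_ne_one, _root_.not_false_eq_true, _root_.Matrix.one_apply_ne, _root_.Fin.succ_one_eq_two, Fin.reduceEq, _root_.and_self, _root_.Fin.succ_ne_zero, _root_.true_and])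

/-- diagonal matrices -/
def D : Fˣ × Fˣ →* Matrix.SpecialLinearGroup (Fin 3) F where
  toFun p := ⟨!![(p.1 : F), 0, 0; 0, p.2, 0; 0, 0, ((p.1 * p.2)⁻¹ : Fˣ)], by
    rw [det_fin_three]
    simp only [Matrix.of_apply, Matrix.cons_val', Matrix.cons_val_zero, Matrix.cons_val_one, Matrix.cons_val,
      mul_zero, zero_mul, sub_zero, add_zero]
    rw [← Units.val_mul, ← Units.val_mul, mul_inv_cancel, Units.val_one]⟩
  map_one' := by
    apply eqM
    rw [Matrix.SpecialLinearGroup.coe_one, Matrix.SpecialLinearGroup.coe_mk]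
    ext i j
    (revert i j; simp only [_root_.Fin.forall_fin_succ, _root_.Prod.fst_one, _root_.Units.val_one, _root_.Prod.snd_one, _root_.mul_one, _root_.inv_one, _root_.Matrix.of_apply, _root_.Matrix.cons_val', _root_.Matrix.cons_val_fin_one, Fin.isValue, _root_.Matrix.cons_val_zero, _root_.Matrix.cons_val_succ, _root_.IsEmpty.forall_iff, _root_.and_true, _root_.Matrix.one_apply_eq, Nat.reduceAdd, _root_.Fin.succ_zero_eq_one, _root_.ne_eq, _root_.zero_ne_one, _root_.not_false_eq_true, _root_.Matrix.one_apply_ne, _root_.Fin.succ_one_eq_two, Fin.reduceEq, _root_.and_self, _root_.Fin.succ_ne_zero, _root_.true_and])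
  map_mul' p q := by
    apply eqM
    show _ = (_ : Matrix (Fin 3) (Fin 3) F) * (_ : Matrix (Fin 3) (Fin 3) F)
    ext i j
    (revert i j; simp only [Matrix.mul_apply, Fin.sum_univ_succ, _root_.Fin.forall_fin_succ, _root_.Prod.fst_mul, _root_.Units.val_mul, _root_.Prod.snd_mul, _root_.mul_inv_rev, _root_.Units.val_inv_eq_inv_val, _root_.Matrix.of_apply, _root_.Matrix.cons_val', _root_.Matrix.cons_val_fin_one, Fin.isValue, _root_.Matrix.cons_val_zero, _root_.Matrix.cons_val_succ, _root_.Finset.univ_unique, _root_.Fin.default_eq_zero, _root_.Finset.sum_const, _root_.Finset.card_singleton, _root_.one_smul, _root_.MulZeroClass.mul_zero, _root_.add_zero, _root_.zero_add, _root_.forall_const, _root_.MulZeroClass.zero_mul, _root_.and_true, _root_.true_and]) <;> (repeat' with_reducible apply And.intro); ring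

theorem D_coe (p : Fˣ × Fˣ) : (D p : Matrix (Fin 3) (Fin 3) F) =
    !![(p.1 : F), 0, 0; 0, p.2, 0; 0, 0, ((p.1 * p.2)⁻¹ : Fˣ)] := rfl

/-- the action of `D` on `U` -/
theorem D_mul_u (p : Fˣ × Fˣ) (a b c : F) : D p * u a b c =
    u (p.1 * (p.2 : F)⁻¹ * a) (p.1 * p.2 ^ 2 * b) (p.1 ^ 2 * p.2 * c) * D p := by
  obtain ⟨x, y⟩ := p
  apply eqM
  rw [Matrix.SpecialLinearGroup.coe_mul, Matrix.SpecialLinearGroup.coe_mul, D_coe, u_coe, u_coe]
  have hx := x.ne_zero
  have hy := y.ne_zero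
  ext i j
  (revert i j; simp only [Matrix.mul_apply, Fin.sum_univ_succ, _root_.Fin.forall_fin_succ, _root_.mul_inv_rev, _root_.Units.val_mul, _root_.Units.val_inv_eq_inv_val, _root_.Matrix.of_apply, _root_.Matrix.cons_val', _root_.Matrix.cons_val_fin_one, Fin.isValue, _root_.Matrix.cons_val_zero, _root_.Matrix.cons_val_succ, _root_.Finset.univ_unique, _root_.Fin.default_eq_zero, _root_.Finset.sum_const, _root_.Finset.card_singleton, _root_.one_smul, _root_.mul_one, _root_.MulZeroClass.mul_zero, _root_.add_zero, _root_.zero_add, _root_.forall_const, _root_.one_mul, _root_.MulZeroClass.zero_mul, _root_.true_and, _root_.and_self, _root_.implies_true, _root_.and_true]) <;> (repeat' with_reducible apply And.intro) <;> field_simp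

/-- the first reflection -/
def n1 : Matrix.SpecialLinearGroup (Fin 3) F := ⟨!![0, 1, 0; -1, 0, 0; 0, 0, 1], by rw [det_fin_three]; simp⟩

/-- the second reflection -/
def n2 : Matrix.SpecialLinearGroup (Fin 3) F := ⟨!![1, 0, 0; 0, 0, 1; 0, -1, 0], by rw [det_fin_three]; simp⟩

theorem n1_coe : ((n1 : Matrix.SpecialLinearGroup (Fin 3) F) : Matrix (Fin 3) (Fin 3) F) = !![0, 1, 0; -1, 0, 0; 0, 0, 1] := rfl
theorem n2_coe : ((n2 : Matrix.SpecialLinearGroup (Fin 3) F) : Matrix (Fin 3) (Fin 3) F) = !![1, 0, 0; 0, 0, 1; 0, -1, 0] := rfl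

theorem n1_mul_n1 : (n1 : Matrix.SpecialLinearGroup (Fin 3) F) * n1 = D (-1, -1) := by
  apply eqM
  rw [Matrix.SpecialLinearGroup.coe_mul, n1_coe, D_coe]
  ext i j
  (revert i j; simp only [Matrix.mul_apply, Fin.sum_univ_succ, _root_.Fin.forall_fin_succ, _root_.Matrix.of_apply, _root_.Matrix.cons_val', _root_.Matrix.cons_val_fin_one, Fin.isValue, _root_.Matrix.cons_val_zero, _root_.Matrix.cons_val_succ, _root_.Finset.univ_unique, _root_.Fin.default_eq_zero, _root_.Finset.sum_const, _root_.Finset.card_singleton, _root_.one_smul, _root_.Units.val_neg, _root_.Units.val_one, _root_.mul_neg, _root_.mul_one, _root_.neg_neg, _root_.inv_one, _root_.MulZeroClass.mul_zero, _root_.add_zero, _root_.zero_add, _root_.implies_true, _root_.and_self, _root_.and_true, _root_.neg_zero])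

theorem n1_u (b c : F) : (n1 : Matrix.SpecialLinearGroup (Fin 3) F) * u 0 b c = u 0 (-c) b * n1 := by
  apply eqM
  rw [Matrix.SpecialLinearGroup.coe_mul, Matrix.SpecialLinearGroup.coe_mul, n1_coe, u_coe, u_coe]
  ext i j
  (revert i j; simp only [Matrix.mul_apply, Fin.sum_univ_succ, _root_.Fin.forall_fin_succ, _root_.Matrix.of_apply, _root_.Matrix.cons_val', _root_.Matrix.cons_val_fin_one, Fin.isValue, _root_.Matrix.cons_val_zero, _root_.Matrix.cons_val_succ, _root_.Finset.univ_unique, _root_.Fin.default_eq_zero, _root_.Finset.sum_const, _root_.Finset.card_singleton, _root_.one_smul, _root_.mul_one, _root_.MulZeroClass.mul_zero, _root_.add_zero, _root_.mul_neg, _root_.zero_add, _root_.forall_const, _root_.true_and, _root_.neg_zero, _root_.MulZeroClass.zero_mul, _root_.one_mul, _root_.and_self, _root_.neg_mul, _root_.implies_true])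

theorem n2_u (a c : F) : (n2 : Matrix.SpecialLinearGroup (Fin 3) F) * u a 0 c = u c 0 (-a) * n2 := by
  apply eqM
  rw [Matrix.SpecialLinearGroup.coe_mul, Matrix.SpecialLinearGroup.coe_mul, n2_coe, u_coe, u_coe]
  ext i j
  (revert i j; simp only [Matrix.mul_apply, Fin.sum_univ_succ, _root_.Fin.forall_fin_succ, _root_.Matrix.of_apply, _root_.Matrix.cons_val', _root_.Matrix.cons_val_fin_one, Fin.isValue, _root_.Matrix.cons_val_zero, _root_.Matrix.cons_val_succ, _root_.Finset.univ_unique, _root_.Fin.default_eq_zero, _root_.Finset.sum_const, _root_.Finset.card_singleton, _root_.one_smul, _root_.mul_one, _root_.MulZeroClass.mul_zero, _root_.add_zero, _root_.mul_neg, _root_.zero_add, _root_.forall_const, _root_.true_and, _root_.one_mul, _root_.neg_neg, _root_.and_self, _root_.add_eq_right, _root_.mul_eq_zero, _root_.MulZeroClass.zero_mul, _root_.neg_zero, _root_.true_or, _root_.implies_true])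

/-- `n₁ x₁₂(t) n₁` in the big cell of the first rank one group -/
theorem n1_u_n1 (t : Fˣ) : (n1 : Matrix.SpecialLinearGroup (Fin 3) F) * u (t : F) 0 0 * n1 =
    u (-(t : F)⁻¹) 0 0 * D (-t⁻¹, -t) * (n1 * u (-(t : F)⁻¹) 0 0) := by
  apply eqM
  have ht := t.ne_zero
  simp only [Matrix.SpecialLinearGroup.coe_mul, n1_coe, D_coe, u_coe]
  ext i j
  (revert i j; simp only [Matrix.mul_apply, Fin.sum_univ_succ, ht, _root_.Fin.forall_fin_succ, _root_.Matrix.cons_mul, _root_.Nat.succ_eq_add_one, Nat.reduceAdd, _root_.Matrix.vecMul_cons, _root_.Matrix.head_cons, _root_.zero_smul, _root_.Matrix.tail_cons, _root_.one_smul, _root_.Matrix.empty_vecMul, _root_.add_zero, _root_.zero_add, _root_.neg_smul, _root_.Matrix.neg_cons, _root_.neg_zero, _root_.Matrix.neg_empty, _root_.Matrix.empty_mul, _root_.Equiv.symm_apply_apply, _root_.Matrix.of_apply, _root_.Matrix.cons_val', _root_.Matrix.cons_val_fin_one, Fin.isValue, _root_.Matrix.cons_val_zero, _root_.Matrix.cons_val_succ,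 _root_.Finset.univ_unique, _root_.Fin.default_eq_zero, _root_.Finset.sum_const, _root_.Finset.card_singleton, _root_.Units.val_neg, _root_.Units.val_inv_eq_inv_val, _root_.mul_neg, _root_.neg_mul, _root_.inv_mul_cancel, _root_.neg_neg, _root_.inv_one, _root_.Units.val_one, _root_.Matrix.smul_cons, _root_.smul_eq_mul, _root_.MulZeroClass.mul_zero, _root_.ne_eq, _root_.not_false_eq_true, _root_.inv_mul_cancel₀, _root_.Matrix.smul_empty, _root_.Matrix.add_cons, _root_.Matrix.empty_add_empty, _root_.mul_one, _root_.implies_true, _root_.and_true, _root_.true_and, _root_.one_mul, _root_.neg_add_cancel, _root_.mul_inv_cancel₀, _root_.MulZeroClass.zero_mul, _root_.and_self])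

theorem n1_D (p : Fˣ × Fˣ) : (n1 : Matrix.SpecialLinearGroup (Fin 3) F) * D p = D (p.2, p.1) * n1 := by
  obtain ⟨x, y⟩ := p
  apply eqM
  rw [Matrix.SpecialLinearGroup.coe_mul, Matrix.SpecialLinearGroup.coe_mul, n1_coe, D_coe, D_coe]
  ext i j
  (revert i j; simp only [Matrix.mul_apply, Fin.sum_univ_succ, mul_comm, _root_.Fin.forall_fin_succ, _root_.mul_inv_rev, _root_.Units.val_mul, _root_.Units.val_inv_eq_inv_val, _root_.Matrix.of_apply, _root_.Matrix.cons_val', _root_.Matrix.cons_val_fin_one, Fin.isValue, _root_.Matrix.cons_val_zero, _root_.Matrix.cons_val_succ, _root_.Finset.univ_unique, _root_.Fin.default_eq_zero, _root_.Finset.sum_const, _root_.Finset.card_singleton, _root_.one_smul, _root_.MulZeroClass.zero_mul, _root_.add_zero, _root_.neg_mul, _root_.one_mul, _root_.zero_add, _root_.forall_const, _root_.MulZeroClass.mul_zero, _root_.neg_zero, _root_.mul_one, _root_.and_self, _root_.mul_neg, _root_.implies_true])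

theorem n2_D (p : Fˣ × Fˣ) : (n2 : Matrix.SpecialLinearGroup (Fin 3) F) * D p = D (p.1, (p.1 * p.2)⁻¹) * n2 := by
  obtain ⟨x, y⟩ := p
  apply eqM
  rw [Matrix.SpecialLinearGroup.coe_mul, Matrix.SpecialLinearGroup.coe_mul, n2_coe, D_coe, D_coe]
  ext i j
  (revert i j; simp only [Matrix.mul_apply, Fin.sum_univ_succ, _root_.Fin.forall_fin_succ, _root_.mul_inv_rev, _root_.Units.val_mul, _root_.Units.val_inv_eq_inv_val, _root_.Matrix.of_apply, _root_.Matrix.cons_val', _root_.Matrix.cons_val_fin_one, Fin.isValue, _root_.Matrix.cons_val_zero, _root_.Matrix.cons_val_succ, _root_.Finset.univ_unique, _root_.Fin.default_eq_zero, _root_.Finset.sum_const, _root_.Finset.card_singleton, _root_.one_smul, _root_.mul_inv_cancel_comm_assoc, _root_.inv_inv, _root_.MulZeroClass.mul_zero, _root_.add_zero, _root_.mul_one, _root_.zero_add, _root_.mul_neg, _root_.forall_const, _root_.one_mul, _root_.MulZeroClass.zero_mul, _root_.neg_zero, _root_.and_self, _root_.neg_mul,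 _root_.implies_true])

theorem eq_of_entries {M N : Matrix.SpecialLinearGroup (Fin 3) F} (h : ∀ i j, M.1 i j = N.1 i j) : M = N :=
  Subtype.ext (Matrix.ext h)

theorem det_eq (M : Matrix.SpecialLinearGroup (Fin 3) F) :
    M.1 0 0 * M.1 1 1 * M.1 2 2 - M.1 0 0 * M.1 1 2 * M.1 2 1 - M.1 0 1 * M.1 1 0 * M.1 2 2 +
      M.1 0 1 * M.1 1 2 * M.1 2 0 + M.1 0 2 * M.1 1 0 * M.1 2 1 - M.1 0 2 * M.1 1 1 * M.1 2 0 = 1 := by
  have h := M.2
  rw [det_fin_three] at h
  exact h

private theorem ent3 {M : Matrix (Fin 3) (Fin 3) F} {a b c d e f g h k : F} (h1 : M 0 0 = a) (h2 : M 0 1 = b)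
    (h3 : M 0 2 = c) (h4 : M 1 0 = d) (h5 : M 1 1 = e) (h6 : M 1 2 = f) (h7 : M 2 0 = g) (h8 : M 2 1 = h)
    (h9 : M 2 2 = k) (i j : Fin 3) : M i j = !![a, b, c; d, e, f; g, h, k] i j := by
  rw [← h1, ← h2, ← h3, ← h4, ← h5, ← h6, ← h7, ← h8, ← h9]
  exact congrFun (congrFun (Matrix.eta_fin_three M) i) j

/-- type `C` : the big cell -/
theorem cellC (M : Matrix.SpecialLinearGroup (Fin 3) F) (h1 : M.1 2 0 ≠ 0)
    (h2 : M.1 1 0 * M.1 2 1 - M.1 1 1 * M.1 2 0 ≠ 0) :
    ∃ a b c a' b' c' : F, ∃ p : Fˣ × Fˣ, M = u a b c * (n1 * n2 * n1) * D p * u a' b' c' := by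
  have hd := det_eq M
  set m00 := M.1 0 0
  set m01 := M.1 0 1
  set m02 := M.1 0 2
  set m10 := M.1 1 0
  set m11 := M.1 1 1
  set m12 := M.1 1 2
  set m20 := M.1 2 0
  set m21 := M.1 2 1
  set m22 := M.1 2 2
  have h3 : m11 - m10 / m20 * m21 ≠ 0 := by
    intro h
    apply h2
    field_simp at h
    linear_combination -h
  set y := m11 - m10 / m20 * m21 with hy
  have hyu : -y ≠ 0 := neg_ne_zero.2 h3
  refine ⟨(m01 - m00 / m20 * m21) / y, m10 / m20, m00 / m20, m21 / m20, (m12 - m10 * m22 / m20) / y, m22 / m20,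
    (Units.mk0 m20 h1, Units.mk0 (-y) hyu), eq_of_entries ?_⟩
  have hy' : y * m20 = m11 * m20 - m10 * m21 := by
    rw [hy]; field_simp
  have hx : -(m20 * y) * (m02 - (m01 - m00 / m20 * m21) / y * (m12 - m10 * m22 / m20) - m00 / m20 * m22) = 1 := by
    have e : -(m20 * y) * (m02 - (m01 - m00 / m20 * m21) / y * (m12 - m10 * m22 / m20) - m00 / m20 * m22) =
        -(m20 * y) * m02 + m20 * (m01 - m00 / m20 * m21) * (m12 - m10 * m22 / m20) + y * m00 * m22 := by
      field_simp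
      ring
    rw [e, hy]
    field_simp
    linear_combination (m20) * hd
  have hz : ((Units.mk0 m20 h1 * Units.mk0 (-y) hyu : Fˣ)⁻¹ : F) =
      m02 - (m01 - m00 / m20 * m21) / y * (m12 - m10 * m22 / m20) - m00 / m20 * m22 := by
    rw [Units.val_mul, Units.val_mk0, Units.val_mk0]
    rw [show m20 * -y = -(m20 * y) by ring]
    exact (eq_inv_of_mul_eq_one_right hx).symm
  simp only [Matrix.SpecialLinearGroup.coe_mul, n1_coe, n2_coe, D_coe, u_coe, Units.val_inv_eq_inv_val]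
  rw [hz]
  simp only [Matrix.mul_fin_three, Units.val_mk0, mul_zero, zero_mul, add_zero, zero_add, mul_one, one_mul, mul_neg,
    neg_mul, neg_zero, neg_neg]
  refine ent3 ?_ ?_ ?_ ?_ ?_ ?_ ?_ ?_ ?_
  · show m00 = _
    first | rfl | (field_simp; done) | (field_simp; ring)
  · show m01 = _
    first | rfl | (field_simp; done) | (field_simp; ring)
  · show m02 = _
    first | rfl | (field_simp; done) | (field_simp; ring)
  · show m10 = _
    first | rfl | (field_simp; done) | (field_simp; ring)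
  · show m11 = _
    rw [hy]
    first | rfl | (field_simp; done) | (field_simp; ring)
  · show m12 = _
    first | rfl | (field_simp; done) | (field_simp; ring)
  · show m20 = _
    first | rfl | (field_simp; done) | (field_simp; ring)
  · show m21 = _
    first | rfl | (field_simp; done) | (field_simp; ring)
  · show m22 = _
    first | rfl | (field_simp; done) | (field_simp; ring)

/-- type `A` -/
theorem cellA (M : Matrix.SpecialLinearGroup (Fin 3) F) (h0 : M.1 2 0 = 0) (h1 : M.1 1 0 ≠ 0) (h2 : M.1 2 1 ≠ 0) :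
    ∃ a b c a' b' c' : F, ∃ p : Fˣ × Fˣ, M = u a b c * (n1 * n2) * D p * u a' b' c' := by
  have hd := det_eq M
  set m00 := M.1 0 0
  set m01 := M.1 0 1
  set m02 := M.1 0 2
  set m10 := M.1 1 0
  set m11 := M.1 1 1
  set m12 := M.1 1 2
  set m20 := M.1 2 0
  set m21 := M.1 2 1
  set m22 := M.1 2 2
  refine ⟨m00 / m10, 0, (m01 - m00 / m10 * m11) / m21, m11 / m10, m22 / m21, m12 / m10,
    (Units.mk0 (-m10) (neg_ne_zero.2 h1), Units.mk0 (-m21) (neg_ne_zero.2 h2)), eq_of_entries ?_⟩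
  have hx : (m10 * m21) * (m02 - m00 / m10 * m12 - (m01 - m00 / m10 * m11) / m21 * m22) = 1 := by
    field_simp
    rw [h0] at hd
    linear_combination hd
  have hz : ((Units.mk0 (-m10) (neg_ne_zero.2 h1) * Units.mk0 (-m21) (neg_ne_zero.2 h2) : Fˣ)⁻¹ : F) =
      m02 - m00 / m10 * m12 - (m01 - m00 / m10 * m11) / m21 * m22 := by
    rw [Units.val_mul, Units.val_mk0, Units.val_mk0, neg_mul_neg]
    exact (eq_inv_of_mul_eq_one_right hx).symm
  simp only [Matrix.SpecialLinearGroup.coe_mul, n1_coe, n2_coe, D_coe, u_coe, Units.val_inv_eq_inv_val]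
  rw [hz]
  simp only [Matrix.mul_fin_three, Units.val_mk0, mul_zero, zero_mul, add_zero, zero_add, mul_one, one_mul, mul_neg,
    neg_mul, neg_zero, neg_neg]
  refine ent3 ?_ ?_ ?_ ?_ ?_ ?_ ?_ ?_ ?_
  · show m00 = _
    first | rfl | (field_simp; done) | (field_simp; ring)
  · show m01 = _
    first | rfl | (field_simp; done) | (field_simp; ring)
  · show m02 = _
    first | rfl | (field_simp; done) | (field_simp; ring)
  · show m10 = _
    first | rfl | (field_simp; done) | (field_simp; ring)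
  · show m11 = _
    first | rfl | (field_simp; done) | (field_simp; ring)
  · show m12 = _
    first | rfl | (field_simp; done) | (field_simp; ring)
  · exact h0
  · show m21 = _
    first | rfl | (field_simp; done) | (field_simp; ring)
  · show m22 = _
    first | rfl | (field_simp; done) | (field_simp; ring)

/-- type `B` -/
theorem cellB (M : Matrix.SpecialLinearGroup (Fin 3) F) (h1 : M.1 2 0 ≠ 0)
    (h2 : M.1 1 0 * M.1 2 1 - M.1 1 1 * M.1 2 0 = 0) :
    ∃ a b c a' b' c' : F, ∃ p : Fˣ × Fˣ, M = u a b c * (n2 * n1) * D p * u a' b' c' := by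
  have hd := det_eq M
  set m00 := M.1 0 0
  set m01 := M.1 0 1
  set m02 := M.1 0 2
  set m10 := M.1 1 0
  set m11 := M.1 1 1
  set m12 := M.1 1 2
  set m20 := M.1 2 0
  set m21 := M.1 2 1
  set m22 := M.1 2 2
  have hm11 : m11 = m10 / m20 * m21 := by
    field_simp
    linear_combination -h2
  have hx : (m20 * (m01 - m00 / m20 * m21)) * (m12 - m10 / m20 * m22) = 1 := by
    field_simp
    linear_combination m20 * hd - m02 * h2 * m20 + m00 * m22 * h2
  have hx0 : m01 - m00 / m20 * m21 ≠ 0 := by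
    intro h
    rw [h, mul_zero, zero_mul] at hx
    exact zero_ne_one hx
  set x := m01 - m00 / m20 * m21 with hxd
  refine ⟨0, m10 / m20, m00 / m20, m21 / m20, (m02 - m00 / m20 * m22) / x, m22 / m20,
    (Units.mk0 m20 h1, Units.mk0 x hx0), eq_of_entries ?_⟩
  have hz : ((Units.mk0 m20 h1 * Units.mk0 x hx0 : Fˣ)⁻¹ : F) = m12 - m10 / m20 * m22 := by
    rw [Units.val_mul, Units.val_mk0, Units.val_mk0]
    exact (eq_inv_of_mul_eq_one_right hx).symm
  simp only [Matrix.SpecialLinearGroup.coe_mul, n1_coe, n2_coe, D_coe, u_coe, Units.val_inv_eq_inv_val]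
  rw [hz]
  simp only [Matrix.mul_fin_three, Units.val_mk0, mul_zero, zero_mul, add_zero, zero_add, mul_one, one_mul, mul_neg,
    neg_mul, neg_zero, neg_neg]
  refine ent3 ?_ ?_ ?_ ?_ ?_ ?_ ?_ ?_ ?_
  · show m00 = _
    first | rfl | (field_simp; done) | (field_simp; ring)
  · show m01 = _
    rw [hxd]
    first | rfl | (field_simp; done) | (field_simp; ring)
  · show m02 = _
    first | rfl | (field_simp; done) | (field_simp; ring)
  · show m10 = _
    first | rfl | (field_simp; done) | (field_simp; ring)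
  · show m11 = _
    rw [hm11]
    first | rfl | (field_simp; done) | (field_simp; ring)
  · show m12 = _
    first | rfl | (field_simp; done) | (field_simp; ring)
  · show m20 = _
    first | rfl | (field_simp; done) | (field_simp; ring)
  · show m21 = _
    first | rfl | (field_simp; done) | (field_simp; ring)
  · show m22 = _
    first | rfl | (field_simp; done) | (field_simp; ring)

end Cfsg.Agent.H420.PG.G2
end

-- part: H420/PG/G2Tor
section
/-!
# The Singer torus of `SL₃(q)`, `q` a power of three, and its Frobenius automorphism (helper420)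

`E / F` is an extension of degree three of finite fields of characteristic three.
* `exists_basis` : a basis `1, b, c` of `E` over `F` in which the Frobenius automorphism has the matrix `u 1 1 0`;
* `Tor F E` : the elements of norm one, `psi e : Tor F E →* SL₃(F)`;
* `regular_pt`, `regular_ln` : no element `≠ 1` fixes a point or a line;
* `card_tor`, `card_A` : the orders.
-/

set_option autoImplicit false
set_option linter.unusedSectionVars false

namespace Cfsg.Agent.H420.PG.G2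

open Matrix Module FiniteField

variable {F E : Type*} [Field F] [Fintype F] [CharP F 3] [Field E] [Fintype E] [Algebra F E]

theorem cube_eq_one {K : Type*} [Field K] [CharP K 3] {c : K} (h : c ^ 3 = 1) : c = 1 := by
  have h30 : (3 : K) = 0 := by exact_mod_cast CharP.cast_eq_zero K 3
  have h1 : (c - 1) ^ 3 = 0 := by
    linear_combination h + (c - c ^ 2) * h30
  exact sub_eq_zero.1 (pow_eq_zero_iff (by norm_num) |>.1 h1)

theorem charE (F E : Type*) [Field F] [CharP F 3] [Field E] [Algebra F E] : CharP E 3 :=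
  charP_of_injective_algebraMap (algebraMap F E).injective 3

/-- the Frobenius automorphism -/
noncomputable def phi (F E : Type*) [Field F] [Fintype F] [Field E] [Fintype E] [Algebra F E] : Gal(E/F) :=
  frobeniusAlgEquivOfAlgebraic F E

theorem phi_apply (x : E) : phi F E x = x ^ Fintype.card F := rfl

theorem trace_eq (h3 : finrank F E = 3) (x : E) : algebraMap F E (Algebra.trace F E x) =
    x + phi F E x + phi F E (phi F E x) := by
  rw [algebraMap_trace_eq_sum_pow, h3, Finset.sum_range_succ, Finset.sum_range_succ, Finset.sum_range_succ,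
    Finset.sum_range_zero, zero_add, pow_zero, pow_one, pow_one, Nat.card_eq_fintype_card, phi_apply, phi_apply, pow_two,
    pow_mul]

/-- the basis -/
theorem exists_basis (h3 : finrank F E = 3) : ∃ e : Basis (Fin 3) F E, e 0 = 1 ∧ phi F E (e 1) = e 0 + e 1 ∧
    phi F E (e 2) = e 1 + e 2 := by
  have hE : CharP E 3 := charE F E
  obtain ⟨z, hz⟩ := Algebra.trace_surjective F E 1
  have hz1 := trace_eq h3 z
  rw [hz, map_one] at hz1
  set P := phi F E with hP
  have h30 : (3 : E) = 0 := by exact_mod_cast CharP.cast_eq_zero E 3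
  set y := P z - z with hy
  have hy1 : P y = 1 + y := by
    rw [hy, map_sub]
    linear_combination -hz1 - (P z) * h30
  have hli : LinearIndependent F ![(1 : E), y, z] := by
    rw [Fintype.linearIndependent_iff]
    intro g hg
    rw [Fin.sum_univ_three] at hg
    simp only [Matrix.cons_val_zero, Matrix.cons_val_one, Matrix.cons_val] at hg
    have h1 : g 1 • (1 : E) + g 2 • y = 0 := by
      have h2 := congrArg P hg
      rw [map_zero, map_add, map_add, map_smul, map_smul, map_smul, map_one, hy1,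
        show P z = y + z by rw [hy]; ring] at h2
      have h3 : g 1 • (1 : E) + g 2 • y = (g 0 • (1 : E) + g 1 • (1 + y) + g 2 • (y + z)) -
          (g 0 • (1 : E) + g 1 • y + g 2 • z) := by
        rw [smul_add, smul_add]; abel
      rw [h3, h2, hg, sub_self]
    have h4 : g 2 • (1 : E) = 0 := by
      have h2 := congrArg P h1
      rw [map_zero, map_add, map_smul, map_smul, map_one, hy1] at h2
      have h3 : g 2 • (1 : E) = (g 1 • (1 : E) + g 2 • (1 + y)) - (g 1 • (1 : E) + g 2 • y) := by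
        rw [smul_add]; abel
      rw [h3, h2, h1, sub_self]
    have h5 : g 2 = 0 := (smul_eq_zero.1 h4).resolve_right one_ne_zero
    rw [h5, zero_smul, add_zero] at h1
    have h6 : g 1 = 0 := (smul_eq_zero.1 h1).resolve_right one_ne_zero
    rw [h5, h6, zero_smul, zero_smul, add_zero, add_zero] at hg
    have h7 : g 0 = 0 := (smul_eq_zero.1 hg).resolve_right one_ne_zero
    intro i
    fin_cases i
    · exact h7
    · exact h6
    · exact h5
  refine ⟨basisOfLinearIndependentOfCardEqFinrank hli (by rw [Fintype.card_fin, h3]), ?_, ?_, ?_⟩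
  · rw [coe_basisOfLinearIndependentOfCardEqFinrank]; rfl
  · rw [coe_basisOfLinearIndependentOfCardEqFinrank]
    exact hy1
  · rw [coe_basisOfLinearIndependentOfCardEqFinrank]
    show P z = y + z
    rw [hy]; ring

/-- the elements of norm one -/
noncomputable def Tor (F E : Type*) [Field F] [Field E] [Algebra F E] : Subgroup Eˣ :=
  (Units.map (Algebra.norm F : E →* F)).ker

theorem mem_tor {t : Eˣ} : t ∈ Tor F E ↔ Algebra.norm F (t : E) = 1 := by
  rw [Tor, MonoidHom.mem_ker, Units.ext_iff]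
  rfl

theorem card_tor (h3 : finrank F E = 3) : Nat.card (Tor F E) = Fintype.card F ^ 2 + Fintype.card F + 1 := by
  have h1 := Subgroup.card_eq_card_quotient_mul_card_subgroup (Tor F E)
  have h2 : Nat.card (Eˣ ⧸ Tor F E) = Nat.card Fˣ := by
    have h4 := QuotientGroup.quotientKerEquivOfSurjective (Units.map (Algebra.norm F : E →* F))
      (unitsMap_norm_surjective F E)
    exact Nat.card_congr h4.toEquiv
  rw [h2, Nat.card_units, Nat.card_units, Nat.card_eq_fintype_card, Nat.card_eq_fintype_card,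
    Module.card_eq_pow_finrank (K := F) (V := E), h3] at h1
  have hq : 1 < Fintype.card F := Fintype.one_lt_card
  obtain ⟨k, hk⟩ : ∃ k, Fintype.card F = k + 1 := ⟨Fintype.card F - 1, by omega⟩
  rw [hk] at h1 ⊢
  rw [Nat.add_sub_cancel] at h1
  have h5 : (k + 1) ^ 3 - 1 = k * ((k + 1) ^ 2 + (k + 1) + 1) := by
    have : (k + 1) ^ 3 = k * ((k + 1) ^ 2 + (k + 1) + 1) + 1 := by ring
    omega
  rw [h5] at h1
  exact (Nat.eq_of_mul_eq_mul_left (by omega) h1).symm

section Basis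

variable (e : Basis (Fin 3) F E)

/-- the matrices of the multiplications -/
noncomputable def psi : Tor F E →* Matrix.SpecialLinearGroup (Fin 3) F where
  toFun t := ⟨Algebra.leftMulMatrix e ((t : Eˣ) : E), by
    rw [← Algebra.norm_eq_matrix_det]
    exact mem_tor.1 t.2⟩
  map_one' := by
    apply eqM
    show Algebra.leftMulMatrix e (1 : E) = 1
    rw [map_one]
  map_mul' s t := by
    apply eqM
    show Algebra.leftMulMatrix e (((s : Eˣ) : E) * ((t : Eˣ) : E)) = Algebra.leftMulMatrix e ((s : Eˣ) : E) *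
      Algebra.leftMulMatrix e ((t : Eˣ) : E)
    rw [map_mul]

theorem psi_apply (t : Tor F E) (i j : Fin 3) : (psi e t).1 i j = e.repr (((t : Eˣ) : E) * e j) i := by
  show Algebra.leftMulMatrix e ((t : Eˣ) : E) i j = _
  rw [Algebra.leftMulMatrix_eq_repr_mul]

theorem eq_one_of_algebraMap {t : Tor F E} (h3 : finrank F E = 3) {c : F} (h : ((t : Eˣ) : E) = algebraMap F E c) : t = 1 := by
  have h1 := mem_tor.1 t.2
  rw [h, Algebra.norm_algebraMap, h3] at h1
  have h2 := cube_eq_one h1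
  apply Subtype.ext
  apply Units.ext
  rw [h, h2, map_one]
  rfl

/-- no fixed points -/
theorem regular_pt (h3 : finrank F E = 3) {t : Tor F E} (ht : t ≠ 1) (h : (psi e t).1 1 0 = 0) : (psi e t).1 2 0 ≠ 0 := by
  intro h2
  rw [psi_apply] at h h2
  apply ht
  have h4 : ((t : Eˣ) : E) * e 0 = e.repr (((t : Eˣ) : E) * e 0) 0 • e 0 := by
    conv_lhs => rw [← e.sum_repr (((t : Eˣ) : E) * e 0)]
    rw [Fin.sum_univ_three, h, h2, zero_smul, zero_smul, add_zero, add_zero]
  rw [Algebra.smul_def] at h4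
  exact eq_one_of_algebraMap h3 (mul_right_cancel₀ (e.ne_zero 0) h4)

/-- no fixed lines -/
theorem regular_ln (h3 : finrank F E = 3) {t : Tor F E} (ht : t ≠ 1) (h : (psi e t).1 2 0 = 0) : (psi e t).1 2 1 ≠ 0 := by
  intro h2
  apply ht
  set c := (psi e t).1 2 2 with hc
  have h4 : Algebra.norm F (((t : Eˣ) : E) - algebraMap F E c) = 0 := by
    rw [Algebra.norm_eq_matrix_det e]
    apply Matrix.det_eq_zero_of_row_eq_zero 2
    intro j
    rw [map_sub, Matrix.sub_apply]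
    have h5 : Algebra.leftMulMatrix e (algebraMap F E c) = Matrix.scalar (Fin 3) c := by
      rw [AlgHom.commutes]; rfl
    rw [h5]
    have h6 : Algebra.leftMulMatrix e ((t : Eˣ) : E) 2 j = (psi e t).1 2 j := rfl
    rw [h6]
    fin_cases j
    · simpa only [_root_.Fin.isValue, _root_.Fin.zero_eta, _root_.Matrix.scalar_apply, _root_.ne_eq, _root_.Fin.reduceEq, _root_.not_false_eq_true, _root_.Matrix.diagonal_apply_ne, _root_.sub_zero] using h
    · simpa using h2
    · simp [← hc]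
  rw [Algebra.norm_eq_zero_iff, sub_eq_zero] at h4
  exact eq_one_of_algebraMap h3 h4

theorem psi_inv (t : Tor F E) : (psi e t⁻¹).1 2 0 = (psi e t).1 1 0 * (psi e t).1 2 1 - (psi e t).1 1 1 * (psi e t).1 2 0 := by
  rw [map_inv]
  show (Matrix.adjugate (psi e t).1) 2 0 = _
  rw [Matrix.adjugate_fin_three]
  simp only [_root_.Fin.isValue, _root_.Matrix.of_apply, _root_.Matrix.cons_val', _root_.Matrix.cons_val_zero, _root_.Matrix.cons_val_fin_one, _root_.Matrix.cons_val, _root_.Matrix.cons_val_one]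

/-! ### The automorphisms -/

/-- the action of the Galois group on the torus -/
noncomputable def act : Gal(E/F) →* MulAut (Tor F E) where
  toFun g :=
    { toFun := fun t => ⟨Units.map (g : E →* E) t.1, by
        rw [mem_tor]
        show Algebra.norm F (g ((t : Eˣ) : E)) = 1
        rw [Algebra.norm_eq_of_algEquiv]
        exact mem_tor.1 t.2⟩
      invFun := fun t => ⟨Units.map (g.symm : E →* E) t.1, by
        rw [mem_tor]
        show Algebra.norm F (g.symm ((t : Eˣ) : E)) = 1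
        rw [Algebra.norm_eq_of_algEquiv]
        exact mem_tor.1 t.2⟩
      left_inv := fun t => by
        apply Subtype.ext
        apply Units.ext
        exact g.symm_apply_apply _
      right_inv := fun t => by
        apply Subtype.ext
        apply Units.ext
        exact g.apply_symm_apply _
      map_mul' := fun s t => by
        apply Subtype.ext
        apply Units.ext
        exact map_mul g _ _ }
  map_one' := by
    ext t
    rfl
  map_mul' g h := by
    ext t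
    rfl

theorem act_coe (g : Gal(E/F)) (t : Tor F E) : ((act g t : Eˣ) : E) = g ((t : Eˣ) : E) := rfl

/-- the matrices of the automorphisms -/
noncomputable def sgm (h3 : finrank F E = 3) : Gal(E/F) →* Matrix.SpecialLinearGroup (Fin 3) F where
  toFun g := ⟨LinearMap.toMatrix e e g.toLinearMap, by
    have h1 : g ^ 3 = 1 := by
      have h2 : Nat.card Gal(E/F) = 3 := by rw [IsGalois.card_aut_eq_finrank, h3]
      rw [← h2]
      exact pow_card_eq_one'
    have h2 : (LinearMap.toMatrix e e g.toLinearMap) ^ 3 = 1 := by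
      rw [pow_succ, pow_two, ← LinearMap.toMatrix_comp, ← LinearMap.toMatrix_comp, ← LinearMap.toMatrix_id (v₁ := e)]
      congr 1
      ext x
      have h3 := congrArg (fun f : Gal(E/F) => f x) h1
      exact h3
    have h4 := congrArg Matrix.det h2
    rw [Matrix.det_pow, Matrix.det_one] at h4
    exact cube_eq_one h4⟩
  map_one' := by
    apply eqM
    show LinearMap.toMatrix e e _ = 1
    rw [← LinearMap.toMatrix_id (v₁ := e)]
    rfl
  map_mul' g h := by
    apply eqM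
    show LinearMap.toMatrix e e _ = LinearMap.toMatrix e e _ * LinearMap.toMatrix e e _
    rw [← LinearMap.toMatrix_comp]
    rfl

theorem sgm_psi (h3 : finrank F E = 3) (g : Gal(E/F)) (t : Tor F E) :
    sgm e h3 g * psi e t = psi e (act g t) * sgm e h3 g := by
  apply eqM
  show LinearMap.toMatrix e e g.toLinearMap * Algebra.leftMulMatrix e ((t : Eˣ) : E) =
    Algebra.leftMulMatrix e (g ((t : Eˣ) : E)) * LinearMap.toMatrix e e g.toLinearMap
  rw [Algebra.leftMulMatrix_apply, Algebra.leftMulMatrix_apply, ← LinearMap.toMatrix_comp, ← LinearMap.toMatrix_comp]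
  congr 1
  ext x
  show g (((t : Eˣ) : E) * x) = g ((t : Eˣ) : E) * g x
  rw [map_mul]

theorem sgm_phi (h3 : finrank F E = 3) (h0 : e 0 = 1) (h1 : phi F E (e 1) = e 0 + e 1)
    (h2 : phi F E (e 2) = e 1 + e 2) : sgm e h3 (phi F E) = u 1 1 0 := by
  apply eqM
  rw [u_coe]
  show LinearMap.toMatrix e e (phi F E).toLinearMap = _
  ext i j
  rw [LinearMap.toMatrix_apply]
  show e.repr (phi F E (e j)) i = _
  have h0' : phi F E (e 0) = e 0 := by rw [h0, map_one]
  fin_cases j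
  · show e.repr (phi F E (e 0)) i = _
    rw [h0']
    (revert i; simp only [_root_.Fin.forall_fin_succ, Fin.isValue, _root_.Module.Basis.repr_self, _root_.Fin.zero_eta, _root_.Matrix.of_apply, _root_.Matrix.cons_val', _root_.Matrix.cons_val_zero, _root_.Matrix.cons_val_fin_one, _root_.Finsupp.single_eq_same, _root_.ne_eq, _root_.Fin.succ_ne_zero, _root_.not_false_eq_true, _root_.Finsupp.single_eq_of_ne, _root_.Matrix.cons_val_succ, _root_.implies_true, _root_.and_self])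
  · show e.repr (phi F E (e 1)) i = _
    rw [h1]
    (revert i; simp only [_root_.Fin.forall_fin_succ, Fin.isValue, _root_.map_add, _root_.Module.Basis.repr_self, _root_.Finsupp.coe_add, _root_.Pi.add_apply, _root_.Fin.mk_one, _root_.Matrix.of_apply, _root_.Matrix.cons_val', _root_.Matrix.cons_val_one, _root_.Matrix.cons_val_zero, _root_.Matrix.cons_val_fin_one, _root_.Finsupp.single_eq_same, _root_.ne_eq, _root_.zero_ne_one, _root_.not_false_eq_true, _root_.Finsupp.single_eq_of_ne, _root_.add_zero, _root_.Fin.succ_ne_zero, _root_.zero_add, _root_.Matrix.cons_val_succ, _root_.Fin.succ_zero_eq_one, _root_.Fin.succ_one_eq_two, Fin.reduceEq, _root_.IsEmpty.forall_iff, _root_.and_self])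
  · show e.repr (phi F E (e 2)) i = _
    rw [h2]
    (revert i; simp only [_root_.Fin.forall_fin_succ, Fin.isValue, _root_.map_add, _root_.Module.Basis.repr_self, _root_.Finsupp.coe_add, _root_.Pi.add_apply, Fin.reduceFinMk, _root_.Matrix.of_apply, _root_.Matrix.cons_val', _root_.Matrix.cons_val, _root_.Matrix.cons_val_fin_one, _root_.ne_eq, _root_.zero_ne_one, _root_.not_false_eq_true, _root_.Finsupp.single_eq_of_ne, Fin.reduceEq, _root_.add_zero, _root_.Matrix.cons_val_zero, _root_.Matrix.cons_val_succ, _root_.Fin.succ_zero_eq_one, _root_.Finsupp.single_eq_same, _root_.Fin.succ_one_eq_two, _root_.zero_add, _root_.IsEmpty.forall_iff, _root_.and_self])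

theorem act_free (h3 : finrank F E = 3) (g : Gal(E/F)) (hg : g ≠ 1) (t : Tor F E) (ht : act g t = t) : t = 1 := by
  have hc : Nat.card Gal(E/F) = 3 := by rw [IsGalois.card_aut_eq_finrank, h3]
  have h1 : ∀ h : Gal(E/F), h ((t : Eˣ) : E) = ((t : Eˣ) : E) := by
    intro h
    have : Fact (Nat.Prime 3) := ⟨Nat.prime_three⟩
    have h2 : ∀ n : ℕ, (g ^ n) ((t : Eˣ) : E) = ((t : Eˣ) : E) := by
      intro n
      induction n with
      | zero => rfl
      | succ n ih =>
        rw [pow_succ, AlgEquiv.mul_apply]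
        have h4 : g ((t : Eˣ) : E) = ((t : Eˣ) : E) := by
          rw [← act_coe, ht]
        rw [h4, ih]
    have h5 : ∃ m : ℕ, g ^ m = h := by
      have h6 : h ∈ Submonoid.powers g := mem_powers_of_prime_card hc hg
      exact h6
    obtain ⟨m, hm⟩ := h5
    rw [← hm, h2]
  have h2 : ((t : Eˣ) : E) ∈ Set.range (algebraMap F E) := by
    rw [IsGalois.mem_range_algebraMap_iff_fixed]
    exact h1
  obtain ⟨c, hc'⟩ := h2
  exact eq_one_of_algebraMap h3 hc'.symm

/-! ### Counting -/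

theorem exists_cube (c : F) : ∃ d : F, d ^ 3 = c := by
  have h1 : Function.Injective (frobenius F 3) := (frobenius F 3).injective
  have h2 : Function.Surjective (frobenius F 3) := Finite.surjective_of_injective h1
  exact h2 c

theorem card_A (h3 : finrank F E = 3) (h0 : e 0 = 1) :
    Nat.card {t : Tor F E // (psi e t).1 2 0 = 0} = Fintype.card F + 1 := by
  classical
  -- the nonzero vectors of the line
  let L := {y : E // y ≠ 0 ∧ e.repr y 2 = 0}
  have hL : Nat.card L = Fintype.card F ^ 2 - 1 := by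
    let f : L ≃ {x : F × F // x ≠ 0} :=
      { toFun := fun y => ⟨(e.repr y.1 0, e.repr y.1 1), by
          intro h
          have ha := congrArg Prod.fst h
          have hb := congrArg Prod.snd h
          apply y.2.1
          rw [← e.sum_repr y.1, Fin.sum_univ_three, y.2.2]
          show e.repr y.1 0 • e 0 + e.repr y.1 1 • e 1 + _ = 0
          rw [show e.repr y.1 0 = 0 from ha, show e.repr y.1 1 = 0 from hb, zero_smul, zero_smul, zero_smul, add_zero,
            add_zero]⟩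
        invFun := fun x => ⟨x.1.1 • e 0 + x.1.2 • e 1, by
          constructor
          · intro h
            apply x.2
            have ha := congrArg (fun z => e.repr z 0) h
            have hb := congrArg (fun z => e.repr z 1) h
            apply Prod.ext
            · simpa using ha
            · simpa using hb
          · simp only [_root_.ne_eq, _root_.Fin.isValue, _root_.map_add, _root_.map_smul, _root_.Module.Basis.repr_self, _root_.Finsupp.smul_single, _root_.smul_eq_mul, _root_.mul_one, _root_.Finsupp.coe_add, _root_.Pi.add_apply, _root_.Fin.reduceEq, _root_.not_false_eq_true, _root_.Finsupp.single_eq_of_ne, _root_.add_zero]⟩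
        left_inv := by
          intro y
          apply Subtype.ext
          show e.repr y.1 0 • e 0 + e.repr y.1 1 • e 1 = y.1
          conv_rhs => rw [← e.sum_repr y.1, Fin.sum_univ_three, y.2.2, zero_smul, add_zero]
        right_inv := by
          intro x
          apply Subtype.ext
          apply Prod.ext
          · simp
          · simp }
    rw [Nat.card_congr f, Nat.card_eq_fintype_card, Fintype.card_subtype_compl, Fintype.card_prod]
    rw [Fintype.card_subtype_eq, pow_two]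
  have hx : ∀ (x : E) (c : F), e.repr (algebraMap F E c * x) 2 = c * e.repr x 2 := by
    intro x c
    rw [← Algebra.smul_def, map_smul]
    rfl
  have hM : ∀ t : Tor F E, (psi e t).1 2 0 = e.repr ((t : Eˣ) : E) 2 := by
    intro t
    rw [psi_apply, h0, mul_one]
  let g : (Fˣ × {t : Tor F E // (psi e t).1 2 0 = 0}) → L := fun p =>
    ⟨algebraMap F E (p.1 : F) * ((p.2.1 : Eˣ) : E), by
      constructor
      · exact mul_ne_zero ((map_ne_zero _).2 p.1.ne_zero) (p.2.1 : Eˣ).ne_zero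
      · rw [hx, ← hM, p.2.2, mul_zero]⟩
  have hg : Function.Bijective g := by
    constructor
    · rintro ⟨c, t⟩ ⟨c', t'⟩ h
      have h1 : algebraMap F E (c : F) * ((t.1 : Eˣ) : E) = algebraMap F E (c' : F) * ((t'.1 : Eˣ) : E) :=
        congrArg Subtype.val h
      have h2 : (((t.1 * t'.1⁻¹ : Tor F E) : Eˣ) : E) = algebraMap F E ((c' : F) * (c : F)⁻¹) := by
        have hc : algebraMap F E (c : F) ≠ 0 := (map_ne_zero _).2 c.ne_zero
        have ht : ((t'.1 : Eˣ) : E) ≠ 0 := (t'.1 : Eˣ).ne_zero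
        rw [Subgroup.coe_mul, Units.val_mul, Subgroup.coe_inv, Units.val_inv_eq_inv_val, map_mul, map_inv₀]
        field_simp
        linear_combination h1
      have h4 := eq_one_of_algebraMap h3 h2
      have h5 : t.1 = t'.1 := mul_inv_eq_one.1 h4
      rw [h5] at h1
      have h6 := (algebraMap F E).injective (mul_right_cancel₀ (t'.1 : Eˣ).ne_zero h1)
      exact Prod.ext (Units.ext h6) (Subtype.ext h5)
    · rintro ⟨y, hy0, hy2⟩
      obtain ⟨c, hc⟩ := exists_cube (Algebra.norm F y)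
      have hN : Algebra.norm F y ≠ 0 := fun h => hy0 (Algebra.norm_eq_zero_iff.1 h)
      have hc0 : c ≠ 0 := by
        rintro rfl
        apply hN
        rw [← hc]
        ring
      have hc1 : algebraMap F E c ≠ 0 := (map_ne_zero _).2 hc0
      have ht : Units.mk0 (algebraMap F E c⁻¹ * y) (mul_ne_zero ((map_ne_zero _).2 (inv_ne_zero hc0)) hy0) ∈ Tor F E := by
        rw [mem_tor, Units.val_mk0, map_mul, Algebra.norm_algebraMap, h3, ← hc, inv_pow, inv_mul_cancel₀ (pow_ne_zero 3 hc0)]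
      refine ⟨(Units.mk0 c hc0, ⟨⟨_, ht⟩, ?_⟩), ?_⟩
      · rw [hM]
        show e.repr (algebraMap F E c⁻¹ * y) 2 = 0
        rw [hx, hy2, mul_zero]
      · apply Subtype.ext
        show algebraMap F E c * (algebraMap F E c⁻¹ * y) = y
        rw [← mul_assoc, ← map_mul, mul_inv_cancel₀ hc0, map_one, one_mul]
  have h5 := Nat.card_congr (Equiv.ofBijective g hg)
  rw [Nat.card_prod, Nat.card_units, Nat.card_eq_fintype_card, hL] at h5
  have hq : 1 < Fintype.card F := Fintype.one_lt_card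
  obtain ⟨k, hk⟩ : ∃ k, Fintype.card F = k + 1 := ⟨Fintype.card F - 1, by omega⟩
  rw [hk] at h5 ⊢
  rw [Nat.add_sub_cancel] at h5
  have h6 : (k + 1) ^ 2 - 1 = k * (k + 1 + 1) := by
    have : (k + 1) ^ 2 = k * (k + 1 + 1) + 1 := by ring
    omega
  rw [h6] at h5
  exact Nat.eq_of_mul_eq_mul_left (by omega) h5

/-- the sum over the torus of a function depending on the Bruhat cell only -/
theorem sum_cells (h3 : finrank F E = 3) (h0 : e 0 = 1) {W : Type*} [AddCommGroup W] [Fintype (Tor F E)] (f : Tor F E → W) (v X Y Z : W)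
    (hv : f 1 = v) (hX : ∀ t, t ≠ 1 → (psi e t).1 2 0 = 0 → f t = X)
    (hY : ∀ t, t ≠ 1 → (psi e t).1 1 0 * (psi e t).1 2 1 - (psi e t).1 1 1 * (psi e t).1 2 0 = 0 → f t = Y)
    (hZ : ∀ t, t ≠ 1 → (psi e t).1 2 0 ≠ 0 → (psi e t).1 1 0 * (psi e t).1 2 1 - (psi e t).1 1 1 * (psi e t).1 2 0 ≠ 0 →
      f t = Z) :
    ∑ t, f t = v + Fintype.card F • X + Fintype.card F • Y + (Fintype.card F ^ 2 - Fintype.card F) • Z := by
  classical
  have hone : (psi e (1 : Tor F E)).1 2 0 = 0 := by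
    rw [map_one]
    rfl
  set A : Finset (Tor F E) := Finset.univ.filter fun t => (psi e t).1 2 0 = 0 with hA
  set B : Finset (Tor F E) := Finset.univ.filter fun t => (psi e t⁻¹).1 2 0 = 0 with hB
  have hAc : A.card = Fintype.card F + 1 := by
    rw [← card_A e h3 h0, Nat.card_eq_fintype_card, Fintype.card_subtype]
  have hBc : B.card = Fintype.card F + 1 := by
    rw [← hAc]
    refine Finset.card_bij (fun t _ => t⁻¹) (fun t ht => ?_) (fun a _ b _ h => inv_injective h) (fun t ht => ?_)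
    · rw [hB, Finset.mem_filter] at ht
      rw [hA, Finset.mem_filter]
      exact ⟨Finset.mem_univ _, ht.2⟩
    · refine ⟨t⁻¹, ?_, inv_inv t⟩
      rw [hA, Finset.mem_filter] at ht
      rw [hB, Finset.mem_filter, inv_inv]
      exact ⟨Finset.mem_univ _, ht.2⟩
  have h1A : (1 : Tor F E) ∈ A := by
    rw [hA, Finset.mem_filter]; exact ⟨Finset.mem_univ _, hone⟩
  have h1B : (1 : Tor F E) ∈ B := by
    rw [hB, Finset.mem_filter, inv_one]; exact ⟨Finset.mem_univ _, hone⟩
  set A' := A.erase 1 with hA'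
  set B' := B.erase 1 with hB'
  have hA'c : A'.card = Fintype.card F := by rw [hA', Finset.card_erase_of_mem h1A, hAc]; omega
  have hB'c : B'.card = Fintype.card F := by rw [hB', Finset.card_erase_of_mem h1B, hBc]; omega
  have hd1 : (1 : Tor F E) ∉ A' ∪ B' := by
    rw [Finset.mem_union, hA', hB']
    simp only [_root_.Finset.mem_erase, _root_.ne_eq, _root_.not_true_eq_false, _root_.false_and, _root_.or_self, _root_.not_false_eq_true]
  have hAB : Disjoint A' B' := by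
    rw [Finset.disjoint_left]
    intro t ht ht'
    rw [hA', Finset.mem_erase, hA, Finset.mem_filter] at ht
    rw [hB', Finset.mem_erase, hB, Finset.mem_filter, psi_inv, ht.2.2, mul_zero, sub_zero] at ht'
    rcases mul_eq_zero.1 ht'.2.2 with h | h
    · exact regular_pt e h3 ht.1 h ht.2.2
    · exact regular_ln e h3 ht.1 ht.2.2 h
  set C := (insert 1 (A' ∪ B'))ᶜ with hC
  have hCc : C.card = Fintype.card F ^ 2 - Fintype.card F := by
    rw [hC, Finset.card_compl, Finset.card_insert_of_notMem hd1, Finset.card_union_of_disjoint hAB, hA'c, hB'c,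
      ← Nat.card_eq_fintype_card, card_tor h3]
    (clear * -; omega)
  rw [← Finset.sum_add_sum_compl (insert 1 (A' ∪ B')) f, ← hC, Finset.sum_insert hd1, Finset.sum_union hAB, hv]
  have e1 : ∑ x ∈ A', f x = Fintype.card F • X := by
    rw [Finset.sum_congr rfl (g := fun _ => X), Finset.sum_const, hA'c]
    intro t ht
    rw [hA', Finset.mem_erase, hA, Finset.mem_filter] at ht
    exact hX t ht.1 ht.2.2
  have e2 : ∑ x ∈ B', f x = Fintype.card F • Y := by
    rw [Finset.sum_congr rfl (g := fun _ => Y), Finset.sum_const, hB'c]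
    intro t ht
    rw [hB', Finset.mem_erase, hB, Finset.mem_filter, psi_inv] at ht
    exact hY t ht.1 ht.2.2
  have e3 : ∑ x ∈ C, f x = (Fintype.card F ^ 2 - Fintype.card F) • Z := by
    rw [Finset.sum_congr rfl (g := fun _ => Z), Finset.sum_const, hCc]
    intro t ht
    rw [hC, Finset.mem_compl, Finset.mem_insert, Finset.mem_union, not_or, not_or] at ht
    obtain ⟨ht1, ht2, ht3⟩ := ht
    apply hZ t ht1
    · intro h
      apply ht2
      rw [hA', Finset.mem_erase, hA, Finset.mem_filter]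
      exact ⟨ht1, Finset.mem_univ _, h⟩
    · intro h
      apply ht3
      rw [hB', Finset.mem_erase, hB, Finset.mem_filter, psi_inv]
      exact ⟨ht1, Finset.mem_univ _, h⟩
  rw [e1, e2, e3]
  abel

end Basis

end Cfsg.Agent.H420.PG.G2
end

-- part: H420/PG/G2Mod
section
/-!
# Modules of `SL₃(q)`, `q` a power of three, in cross characteristic: fixed points of subgroups of `U` (helper420)

`S` a representation of `SL₃(F)`, `|F|` a power of three, in characteristic `≠ 3`, such that the Singer torus has no fixed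
points (`hsum`).
* `frob` : `dim V = 3 dim V^x`, `x` regular unipotent;
* `exists_fix_Z` : the centre of `U` has fixed points;
* `exists_fix_R` : one of the two elation groups `R'`, `R''` has fixed points;
* `exists_fix_U` : if `R'` has fixed points then so has `U`.
-/

set_option autoImplicit false
set_option linter.unusedSectionVars false

namespace Cfsg.Agent.H420.PG.G2

open Matrix Module

section Mod

variable {F E 𝕜 V : Type*} [Field F] [Fintype F] [CharP F 3] [Field E] [Fintype E] [Algebra F E] [Field 𝕜]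
  [AddCommGroup V] [Module 𝕜 V] (S : Matrix.SpecialLinearGroup (Fin 3) F →* Module.End 𝕜 V)

theorem S_apply (g h : Matrix.SpecialLinearGroup (Fin 3) F) (v : V) : S (g * h) v = S g (S h v) := by
  rw [map_mul]; rfl

theorem S_inv (g : Matrix.SpecialLinearGroup (Fin 3) F) (v : V) : S g⁻¹ (S g v) = v := by
  rw [← S_apply, inv_mul_cancel, map_one]; rfl

theorem S_inv' (g : Matrix.SpecialLinearGroup (Fin 3) F) (v : V) : S g (S g⁻¹ v) = v := by
  rw [← S_apply, mul_inv_cancel, map_one]; rfl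

theorem S_one (v : V) : S 1 v = v := by
  rw [map_one]; rfl

section Frob

variable [FiniteDimensional 𝕜 V] (e : Basis (Fin 3) F E) [Fintype (Tor F E)]

theorem frob (h3 : finrank F E = 3) (h0 : e 0 = 1) (h1 : phi F E (e 1) = e 0 + e 1)
    (h2 : phi F E (e 2) = e 1 + e 2) (hT : ((Fintype.card F ^ 2 + Fintype.card F + 1 : ℕ) : 𝕜) ≠ 0)
    (hsum : ∀ v, ∑ t : Tor F E, S (psi e t) v = 0) : finrank 𝕜 V = 3 * finrank 𝕜 (fx (S (u 1 1 0))) := by
  have hc : Nat.card Gal(E/F) = 3 := by rw [IsGalois.card_aut_eq_finrank, h3]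
  have hTc : ((Nat.card (Tor F E) : ℕ) : 𝕜) ≠ 0 := by rw [card_tor h3]; exact hT
  let ρ : Representation 𝕜 (Tor F E) V := S.comp (psi e)
  let τ : Representation 𝕜 Gal(E/F) V := S.comp (sgm e h3)
  have h := (Cfsg.Agent.OddOrderLocal.FrobRep.finrank_eq (F := 𝕜) (K := Tor F E) (R := Gal(E/F)) (V := V) hTc ρ τ
    (act (F := F) (E := E)) (fun r k v => by
      show S (sgm e h3 r) (S (psi e k) v) = S (psi e (act r k)) (S (sgm e h3 r) v)
      rw [← S_apply, ← S_apply, sgm_psi]) (fun v hv => by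
      have h4 := hsum v
      have h5 : ∀ t : Tor F E, S (psi e t) v = v := hv
      simp_rw [h5] at h4
      rw [Finset.sum_const, Finset.card_univ, ← Nat.cast_smul_eq_nsmul 𝕜, ← Nat.card_eq_fintype_card] at h4
      exact (smul_eq_zero.1 h4).resolve_left hTc) (fun r hr k hk => act_free h3 r hr k hk)).1
  have h6 : Representation.invariants τ = fx (S (u 1 1 0)) := by
    ext v
    rw [Representation.mem_invariants, mem_fx, ← sgm_phi e h3 h0 h1 h2]
    constructor
    · intro hv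
      exact hv (phi F E)
    · intro hv g
      obtain ⟨n, hn⟩ := (FiniteField.bijective_frobeniusAlgEquivOfAlgebraic_pow F E).2 g
      have h7 : ∀ n : ℕ, τ (phi F E ^ n) v = v := by
        intro n
        induction n with
        | zero => rw [pow_zero, map_one]; rfl
        | succ n ih =>
          rw [pow_succ, map_mul, Module.End.mul_apply]
          have h8 : τ (phi F E) v = v := hv
          rw [h8, ih]
      rw [← hn]
      exact h7 _
  rw [h, hc, h6]

end Frob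

/-! ### Fixed points of the centre of `U` -/

theorem u_a_b (a b : F) : u 0 b 0 * u a 0 0 * u 0 (-b) 0 = u a 0 0 * u 0 0 (-(a * b)) := by
  rw [u_mul, u_mul, u_mul]
  congr 1 <;> ring

theorem exists_fix_Z [Nontrivial V] (hq : (Fintype.card F : 𝕜) ≠ 0) : ∃ v : V, v ≠ 0 ∧ ∀ c, S (u 0 0 c) v = v := by
  classical
  by_contra hcon
  push Not at hcon
  have h1 : ∀ v : V, (∀ c, S (u 0 0 c) v = v) → v = 0 := by
    intro v hv
    by_contra h
    obtain ⟨c, hc⟩ := hcon v h
    exact hc (hv c)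
  have h2 : ∀ v : V, ∑ c, S (u 0 0 c) v = 0 := by
    intro v
    apply h1
    intro c
    rw [map_sum]
    refine Fintype.sum_equiv (Equiv.addLeft c) _ _ fun x => ?_
    rw [← S_apply, u_mul]
    congr 2
    show _ = u 0 0 (c + x)
    congr 1 <;> ring
  have h3 : ∀ v : V, ∑ a, S (u a 0 0) v = 0 := by
    intro v
    have h4 : ∀ a, S (u a 0 0) v = S n2 (S (u 0 0 a) (S n2⁻¹ v)) := by
      intro a
      rw [← S_apply, n2_u, neg_zero, S_apply, S_inv']
    simp_rw [h4]
    rw [← map_sum, h2, map_zero]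
  obtain ⟨v, hv⟩ := exists_ne (0 : V)
  apply hv
  have h5 : ∑ b, S (u 0 b 0) (∑ a, S (u a 0 0) (S (u 0 (-b) 0) v)) = (Fintype.card F : 𝕜) • v := by
    have h6 : ∀ a, ∑ b, S (u a 0 0) (S (u 0 0 (-(a * b))) v) = if a = 0 then (Fintype.card F : 𝕜) • v else 0 := by
      intro a
      split_ifs with h
      · subst h
        simp only [zero_mul, neg_zero, u_zero, S_one]
        rw [Finset.sum_const, Finset.card_univ, ← Nat.cast_smul_eq_nsmul 𝕜]
      · rw [← map_sum]
        have h7 : ∑ b, S (u 0 0 (-(a * b))) v = ∑ c, S (u 0 0 c) v :=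
          Fintype.sum_equiv ((Equiv.mulLeft₀ a h).trans (Equiv.neg F)) _ _ fun x => rfl
        rw [h7, h2, map_zero]
    have h8 : ∀ b, S (u 0 b 0) (∑ a, S (u a 0 0) (S (u 0 (-b) 0) v)) = ∑ a, S (u a 0 0) (S (u 0 0 (-(a * b))) v) := by
      intro b
      rw [map_sum]
      refine Finset.sum_congr rfl fun a _ => ?_
      rw [← S_apply, ← S_apply, ← S_apply, u_a_b]
    simp_rw [h8]
    rw [Finset.sum_comm]
    simp_rw [h6]
    rw [Finset.sum_ite_eq' Finset.univ (0 : F), if_pos (Finset.mem_univ _)]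
  have h9 : ∑ b, S (u 0 b 0) (∑ a, S (u a 0 0) (S (u 0 (-b) 0) v)) = 0 := by
    refine Finset.sum_eq_zero fun b _ => ?_
    rw [h3, map_zero]
  rw [h9] at h5
  exact (smul_eq_zero.1 h5.symm).resolve_left hq

/-! ### Conjugation of the regular unipotent elements -/

theorem exists_conj {a b : F} (ha : a ≠ 0) (hb : b ≠ 0) (c : F) : ∃ g, g * u (1 : F) 1 0 = u a b c * g := by
  obtain ⟨y, hy⟩ := exists_cube (b / a)
  have hy0 : y ≠ 0 := by
    rintro rfl
    have : b / a ≠ 0 := div_ne_zero hb ha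
    apply this
    rw [← hy]; ring
  have hD := D_mul_u (Units.mk0 a ha * Units.mk0 y hy0, Units.mk0 y hy0) 1 1 0
  have e1 : ((Units.mk0 a ha * Units.mk0 y hy0 : Fˣ) : F) = a * y := rfl
  simp only [e1, Units.val_mk0] at hD
  have e2 : a * y * y⁻¹ * 1 = a := by
    field_simp
  have e3 : a * y * y ^ 2 * 1 = b := by
    have : a * y * y ^ 2 * 1 = a * y ^ 3 := by ring
    rw [this, hy]
    field_simp
  rw [e2, e3, mul_zero] at hD
  refine ⟨u (c / b) 0 0 * D (Units.mk0 a ha * Units.mk0 y hy0, Units.mk0 y hy0), ?_⟩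
  rw [mul_assoc, hD, ← mul_assoc, ← mul_assoc, u_mul, u_mul]
  congr 2
  · ring
  · ring
  · field_simp
    ring

theorem finrank_reg {a b : F} (ha : a ≠ 0) (hb : b ≠ 0) (c : F) :
    finrank 𝕜 (fx (S (u a b c))) = finrank 𝕜 (fx (S (u 1 1 0))) := by
  obtain ⟨g, hg⟩ := exists_conj ha hb c
  refine (finrank_conj (h := S g) (h' := S g⁻¹) ?_ ?_ ?_).symm
  · rw [← map_mul, mul_inv_cancel, map_one]
  · rw [← map_mul, inv_mul_cancel, map_one]
  · rw [← map_mul, ← map_mul, hg]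

/-! ### The fixed points of the centre as a module of `U / Z` -/

/-- the fixed points of the centre of `U` -/
def V0 : Submodule 𝕜 V where
  carrier := {v | ∀ c, S (u 0 0 c) v = v}
  add_mem' := by
    intro v w hv hw c
    rw [map_add, hv, hw]
  zero_mem' := by
    intro c
    rw [map_zero]
  smul_mem' := by
    intro k v hv c
    rw [map_smul, hv]

theorem u_V0 (a b c : F) {v : V} (hv : v ∈ V0 S) : S (u a b c) v ∈ V0 S := by
  intro d
  have h1 : u 0 0 d * u a b c = u a b c * u 0 0 d := by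
    rw [u_mul, u_mul]
    congr 1 <;> ring
  rw [← S_apply, h1, S_apply, hv d]

theorem u_V0_apply (a b c : F) {v : V} (hv : v ∈ V0 S) : S (u a b c) v = S (u a b 0) v := by
  have h1 : u a b c = u a b 0 * u 0 0 c := by
    rw [u_mul]
    congr 1 <;> ring
  rw [h1, S_apply, hv c]

/-- the action of `U / Z` -/
def R0 (p : F × F) : Module.End 𝕜 (V0 S) := (S (u p.1 p.2 0)).restrict fun _ hv => u_V0 S p.1 p.2 0 hv

theorem R0_coe (p : F × F) (v : V0 S) : ((R0 S p v : V0 S) : V) = S (u p.1 p.2 0) v := rfl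

theorem R0_zero : R0 S (0 : F × F) = 1 := by
  ext v
  rw [R0_coe]
  show S (u 0 0 0) (v : V) = v
  rw [u_zero, S_one]

theorem R0_add (p p' : F × F) : R0 S (p + p') = R0 S p * R0 S p' := by
  ext v
  rw [Module.End.mul_apply, R0_coe, R0_coe, R0_coe, ← S_apply, u_mul, ← u_V0_apply S _ _ (0 + 0 + p.1 * p'.2) v.2]
  rfl

theorem card3_ne (hq : (Fintype.card F : 𝕜) ≠ 0) : ((3 : ℕ) : 𝕜) ≠ 0 := by
  obtain ⟨n, hp, hn⟩ := FiniteField.card F 3
  intro h
  apply hq
  rw [hn, Nat.cast_pow, h, zero_pow n.ne_zero]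

variable [IsAlgClosed 𝕜] [FiniteDimensional 𝕜 V]

theorem three_add (a : F) : a + a + a = 0 := by
  have h : (3 : F) = 0 := by exact_mod_cast CharP.cast_eq_zero F 3
  linear_combination a * h

/-- `dim V₀ = 3 dim V₀^g` for the regular elements `g` of `U / Z` -/
theorem finrank_R0 (hq : (Fintype.card F : 𝕜) ≠ 0) (hfr : finrank 𝕜 V = 3 * finrank 𝕜 (fx (S (u 1 1 0))))
    {a b : F} (ha : a ≠ 0) (hb : b ≠ 0) : finrank 𝕜 (V0 S) = 3 * finrank 𝕜 (fx (R0 S (a, b))) := by
  classical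
  have hM : ∃ M : Submodule 𝕜 V, ∀ v, v ∈ M ↔ v ∈ V0 S ∧ S (u a b 0) v = v :=
    ⟨V0 S ⊓ fx (S (u a b 0)), fun v => by rw [Submodule.mem_inf, mem_fx]⟩
  obtain ⟨M, hM⟩ := hM
  have hMf : finrank 𝕜 M = finrank 𝕜 (fx (R0 S (a, b))) := by
    have h1 : M ≤ V0 S := fun v hv => ((hM v).1 hv).1
    have h2 : fx (R0 S (a, b)) = M.comap (V0 S).subtype := by
      ext v
      rw [mem_fx, Submodule.mem_comap, hM]
      constructor
      · intro h
        exact ⟨v.2, congrArg Subtype.val h⟩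
      · intro h
        exact Subtype.ext h.2
    rw [h2]
    exact (Submodule.comapSubtypeEquivOfLe h1).finrank_eq.symm
  have h3 := card3_ne hq
  -- the formula for `Z`
  have hZ := dim3 (A := F) (𝕜 := 𝕜) (V := V) three_add hq (fun c => S (u 0 0 c)) (by
    show S (u 0 0 0) = 1
    rw [u_zero, map_one]) (fun c d => by
    rw [← map_mul, u_mul]
    congr 2 <;> ring) (M := V0 S) (fun v => Iff.rfl)
  -- the formula for `Z × ⟨g⟩`
  have h30 : (3 : F) = 0 := by exact_mod_cast CharP.cast_eq_zero F 3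
  let κ : ZMod 3 →+* F := ZMod.castHom (dvd_refl 3) F
  have hκ : ∀ i : ZMod 3, i ≠ 0 → κ i ≠ 0 := fun i hi h => hi (κ.injective (by rw [h, map_zero]))
  have hZx := dim3 (A := ZMod 3 × F) (𝕜 := 𝕜) (V := V) (fun x => by
      apply Prod.ext
      · show x.1 + x.1 + x.1 = 0
        generalize x.1 = y
        revert y
        decide
      · exact three_add _) (by
      rw [Fintype.card_prod, ZMod.card, Nat.cast_mul]
      exact mul_ne_zero h3 hq)
    (fun x => S (u (κ x.1 * a) (κ x.1 * b) (x.2 - (κ x.1) ^ 2 * (a * b)))) (by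
      show S (u (κ 0 * a) (κ 0 * b) (0 - (κ 0) ^ 2 * (a * b))) = 1
      rw [map_zero, ← map_one S, ← u_zero]
      congr 2 <;> ring) (fun x y => by
      rw [← map_mul, u_mul]
      show S (u (κ (x.1 + y.1) * a) (κ (x.1 + y.1) * b) (x.2 + y.2 - (κ (x.1 + y.1)) ^ 2 * (a * b))) = _
      rw [map_add]
      congr 2
      · ring
      · ring
      · linear_combination -(κ x.1 * κ y.1 * a * b) * h30) (M := M) (fun v => by
      rw [hM]
      constructor
      · rintro ⟨hv, hg⟩ ⟨i, z⟩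
        show S (u (κ i * a) (κ i * b) (z - (κ i) ^ 2 * (a * b))) v = v
        rw [u_V0_apply S _ _ _ hv]
        have hi : i = 0 ∨ i = 1 ∨ i = 2 := by
          revert i
          decide
        rcases hi with rfl | rfl | rfl
        · rw [map_zero, zero_mul, zero_mul, u_zero, S_one]
        · rw [map_one, one_mul, one_mul, hg]
        · have h4 : κ 2 = 1 + 1 := by
            rw [← map_one κ, ← map_add]
            rfl
          have h5 := S_apply S (u a b 0) (u a b 0) v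
          rw [u_mul, u_V0_apply S _ _ _ hv, hg, hg] at h5
          rw [h4, show (1 + 1 : F) * a = a + a by ring, show (1 + 1 : F) * b = b + b by ring]
          exact h5
      · intro h
        constructor
        · intro c
          have h4 := h (0, c)
          simp only [map_zero, zero_mul] at h4
          rw [show c - (0 : F) ^ 2 * (a * b) = c by ring] at h4
          exact h4
        · have h4 := h (1, a * b)
          simp only [map_one, one_mul] at h4
          rw [show a * b - (1 : F) ^ 2 * (a * b) = 0 by ring] at h4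
          exact h4)
  rw [Fintype.card_prod, ZMod.card, Fintype.sum_prod_type] at hZx
  have hsum3 : ∀ f : ZMod 3 → ℕ, ∑ i, f i = f 0 + f 1 + f 2 := by
    intro f
    exact Fin.sum_univ_three f
  rw [hsum3] at hZx
  have e0 : ∑ z : F, finrank 𝕜 (fx (S (u (κ ((0 : ZMod 3), z).1 * a) (κ ((0 : ZMod 3), z).1 * b)
      (((0 : ZMod 3), z).2 - (κ ((0 : ZMod 3), z).1) ^ 2 * (a * b))))) = ∑ z : F, finrank 𝕜 (fx (S (u 0 0 z))) := by
    refine Finset.sum_congr rfl fun z _ => ?_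
    have h4 : u (κ 0 * a) (κ 0 * b) (z - (κ 0) ^ 2 * (a * b)) = u 0 0 z := by
      rw [map_zero]
      congr 1 <;> ring
    show finrank 𝕜 (fx (S (u (κ 0 * a) (κ 0 * b) (z - (κ 0) ^ 2 * (a * b))))) = _
    rw [h4]
  have e1 : ∀ i : ZMod 3, i ≠ 0 → ∑ z : F, finrank 𝕜 (fx (S (u (κ (i, z).1 * a) (κ (i, z).1 * b)
      ((i, z).2 - (κ (i, z).1) ^ 2 * (a * b))))) = Fintype.card F * finrank 𝕜 (fx (S (u 1 1 0))) := by
    intro i hi
    rw [Finset.sum_congr rfl (g := fun _ => finrank 𝕜 (fx (S (u 1 1 0)))), Finset.sum_const, Finset.card_univ, smul_eq_mul]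
    intro z _
    exact finrank_reg S (mul_ne_zero (hκ i hi) ha) (mul_ne_zero (hκ i hi) hb) _
  rw [e0, e1 1 (by decide), e1 2 (by decide)] at hZx
  rw [← hMf]
  set σ := ∑ z : F, finrank 𝕜 (fx (S (u 0 0 z)))
  set m := finrank 𝕜 M
  set n0 := finrank 𝕜 (V0 S)
  set f := finrank 𝕜 (fx (S (u 1 1 0)))
  rw [hfr] at hZ hZx
  have hqpos : 0 < Fintype.card F := Fintype.card_pos
  have h7 : Fintype.card F * n0 = Fintype.card F * (3 * m) := by linarith only [hZ, hZx]
  exact Nat.eq_of_mul_eq_mul_left hqpos h7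

/-- **One of the two elation groups has fixed points.** -/
theorem exists_fix_R [Nontrivial V] (hq : (Fintype.card F : 𝕜) ≠ 0)
    (hfr : finrank 𝕜 V = 3 * finrank 𝕜 (fx (S (u 1 1 0)))) :
    (∃ v : V, v ≠ 0 ∧ ∀ a c, S (u a 0 c) v = v) ∨ ∃ v : V, v ≠ 0 ∧ ∀ b c, S (u 0 b c) v = v := by
  classical
  by_contra hcon
  push Not at hcon
  obtain ⟨hA, hB⟩ := hcon
  have hA' : ∀ v : V, (∀ a c, S (u a 0 c) v = v) → v = 0 := by
    intro v hv
    by_contra h
    obtain ⟨a, c, hac⟩ := hA v h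
    exact hac (hv a c)
  have hB' : ∀ v : V, (∀ b c, S (u 0 b c) v = v) → v = 0 := by
    intro v hv
    by_contra h
    obtain ⟨b, c, hbc⟩ := hB v h
    exact hbc (hv b c)
  have hq2 : (Fintype.card (F × F) : 𝕜) ≠ 0 := by
    rw [Fintype.card_prod, Nat.cast_mul]
    exact mul_ne_zero hq hq
  -- the formula for `X_a`
  have h1 := dim3 (A := F) (𝕜 := 𝕜) (V := V0 S) three_add hq (fun a => R0 S (a, 0)) (R0_zero S) (fun a b => by
    rw [← R0_add, Prod.mk_add_mk, add_zero]) (M := ⊥) (fun v => by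
    rw [Submodule.mem_bot]
    constructor
    · rintro rfl a
      rw [map_zero]
    · intro hv
      apply Subtype.ext
      apply hA'
      intro a c
      rw [u_V0_apply S _ _ _ v.2]
      exact congrArg Subtype.val (hv a))
  have h2 := dim3 (A := F) (𝕜 := 𝕜) (V := V0 S) three_add hq (fun b => R0 S (0, b)) (R0_zero S) (fun a b => by
    rw [← R0_add, Prod.mk_add_mk, add_zero]) (M := ⊥) (fun v => by
    rw [Submodule.mem_bot]
    constructor
    · rintro rfl a
      rw [map_zero]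
    · intro hv
      apply Subtype.ext
      apply hB'
      intro a c
      rw [u_V0_apply S _ _ _ v.2]
      exact congrArg Subtype.val (hv a))
  have h3 := dim3 (A := F × F) (𝕜 := 𝕜) (V := V0 S) (fun x => Prod.ext (three_add _) (three_add _)) hq2 (R0 S) (R0_zero S)
    (R0_add S) (M := ⊥) (fun v => by
    rw [Submodule.mem_bot]
    constructor
    · rintro rfl a
      rw [map_zero]
    · intro hv
      apply Subtype.ext
      apply hA'
      intro a c
      rw [u_V0_apply S _ _ _ v.2]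
      exact congrArg Subtype.val (hv (a, 0)))
  rw [finrank_bot, mul_zero, add_zero] at h1 h2 h3
  rw [Fintype.card_prod, Fintype.sum_prod_type] at h3
  set g : F → F → ℕ := fun a b => finrank 𝕜 (fx (R0 S (a, b))) with hg
  set n0 := finrank 𝕜 (V0 S) with hn0
  have h4 : g 0 0 = n0 := by
    rw [hg]
    show finrank 𝕜 (fx (R0 S (0 : F × F))) = _
    rw [R0_zero, fx_one, finrank_top]
  have h5 : ∀ a b, a ≠ 0 → b ≠ 0 → 3 * g a b = n0 := fun a b ha hb => (finrank_R0 S hq hfr ha hb).symm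
  have h1' : 3 * ∑ a, g a 0 = Fintype.card F * n0 := h1
  have h2' : 3 * ∑ b, g 0 b = Fintype.card F * n0 := h2
  have h3' : 3 * ∑ a, ∑ b, g a b = Fintype.card F * Fintype.card F * n0 := h3
  -- the sum over the regular elements
  obtain ⟨k, hk⟩ : ∃ k, Fintype.card F = k + 1 := ⟨Fintype.card F - 1, by
    have := Fintype.card_pos (α := F); omega⟩
  have hec : (Finset.univ.erase (0 : F)).card = k := by
    rw [Finset.card_erase_of_mem (Finset.mem_univ _), Finset.card_univ, hk, Nat.add_sub_cancel]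
  have h6 : ∀ a : F, ∑ b, g a b = g a 0 + ∑ b ∈ Finset.univ.erase 0, g a b := fun a =>
    (Finset.add_sum_erase _ _ (Finset.mem_univ _)).symm
  have h7 : ∑ a, ∑ b, g a b = ∑ a, g a 0 + ∑ a, ∑ b ∈ Finset.univ.erase 0, g a b := by
    rw [← Finset.sum_add_distrib]
    exact Finset.sum_congr rfl fun a _ => h6 a
  have h8 : ∑ a, ∑ b ∈ Finset.univ.erase 0, g a b = ∑ b ∈ Finset.univ.erase 0, g 0 b +
      ∑ a ∈ Finset.univ.erase 0, ∑ b ∈ Finset.univ.erase 0, g a b :=
    (Finset.add_sum_erase _ _ (Finset.mem_univ _)).symm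
  have h9 : 3 * ∑ a ∈ Finset.univ.erase (0 : F), ∑ b ∈ Finset.univ.erase 0, g a b = k * (k * n0) := by
    rw [Finset.mul_sum, Finset.sum_congr rfl (g := fun _ => k * n0), Finset.sum_const, hec, smul_eq_mul]
    intro a ha
    rw [Finset.mul_sum, Finset.sum_congr rfl (g := fun _ => n0), Finset.sum_const, hec, smul_eq_mul]
    intro b hb
    exact h5 a b (Finset.mem_erase.1 ha).1 (Finset.mem_erase.1 hb).1
  have h10 := h6 0
  rw [h4] at h10
  rw [h7, h8] at h3'
  rw [hk] at h1' h2' h3'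
  have h11 : n0 = 0 := by linarith only [h1, h2, h3', h2', h9, h10]
  -- but `V₀ ≠ 0`
  obtain ⟨v, hv0, hv⟩ := exists_fix_Z S (V := V) hq
  have h12 : V0 S = ⊥ := Submodule.finrank_eq_zero.1 h11
  apply hv0
  have h13 : v ∈ V0 S := hv
  rw [h12, Submodule.mem_bot] at h13
  exact h13

end Mod

end Cfsg.Agent.H420.PG.G2
end

-- part: H420/PG/G2Modb
section
/-!
# Modules of `SL₃(q)`, `q` a power of three: fixed points of `U`, characters of the diagonal torus (helper420)

* `exists_fix_U` : if `R'` has fixed points then so has `U`;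
* `eigen` : on the fixed points of `U` all characters of the diagonal torus are trivial;
* `diag_trivial` : diagonal elements of order prime to the characteristic are trivial on the fixed points of `U`.
-/

set_option autoImplicit false
set_option linter.unusedSectionVars false

namespace Cfsg.Agent.H420.PG.G2

open Matrix Module

section Mod

variable {F E 𝕜 V : Type*} [Field F] [Fintype F] [CharP F 3] [Field E] [Fintype E] [Algebra F E] [Field 𝕜]
  [AddCommGroup V] [Module 𝕜 V] (S : Matrix.SpecialLinearGroup (Fin 3) F →* Module.End 𝕜 V)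

/-! ### The first step -/

/-- a block matrix -/
def gg (a b c d : F) (h : a * d - b * c = 1) : Matrix.SpecialLinearGroup (Fin 3) F :=
  ⟨!![1, 0, 0; 0, a, b; 0, c, d], by rw [det_fin_three]; simpa using h⟩

theorem gg_coe (a b c d : F) (h : a * d - b * c = 1) :
    (gg a b c d h : Matrix (Fin 3) (Fin 3) F) = !![1, 0, 0; 0, a, b; 0, c, d] := rfl

theorem u_gg (a b c d : F) (h : a * d - b * c = 1) (x y : F) :
    u x 0 y * gg a b c d h = gg a b c d h * u (x * a + y * c) 0 (x * b + y * d) := by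
  apply eqM
  rw [Matrix.SpecialLinearGroup.coe_mul, Matrix.SpecialLinearGroup.coe_mul, gg_coe, u_coe, u_coe]
  ext i j
  (revert i j; simp only [Matrix.mul_apply, Fin.sum_univ_succ, _root_.Fin.forall_fin_succ, _root_.Matrix.of_apply, _root_.Matrix.cons_val', _root_.Matrix.cons_val_fin_one, Fin.isValue, _root_.Matrix.cons_val_zero, _root_.Matrix.cons_val_succ, _root_.Finset.univ_unique, _root_.Fin.default_eq_zero, _root_.Finset.sum_const, _root_.Finset.card_singleton, _root_.one_smul, _root_.mul_one, _root_.MulZeroClass.mul_zero, _root_.add_zero, _root_.zero_add, _root_.forall_const, _root_.true_and, _root_.one_mul, _root_.and_self, _root_.MulZeroClass.zero_mul, _root_.implies_true])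

theorem exists_gg (M : Matrix.SpecialLinearGroup (Fin 3) F) (hM : M.1 1 0 = 0 → M.1 2 0 ≠ 0) :
    ∃ (a b c d : F) (h : a * d - b * c = 1) (N : Matrix.SpecialLinearGroup (Fin 3) F), M = gg a b c d h * N ∧
      N.1 1 0 = 1 ∧ N.1 2 0 = 0 := by
  by_cases h1 : M.1 1 0 = 0
  · have h2 := hM h1
    have hh : (0 : F) * 0 - (-(M.1 2 0)⁻¹) * (M.1 2 0) = 1 := by
      field_simp
      ring
    refine ⟨0, -(M.1 2 0)⁻¹, M.1 2 0, 0, hh, (gg 0 (-(M.1 2 0)⁻¹) (M.1 2 0) 0 hh)⁻¹ * M, ?_, ?_, ?_⟩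
    · rw [mul_inv_cancel_left]
    · show ((Matrix.adjugate _ * M.1 : Matrix (Fin 3) (Fin 3) F)) 1 0 = 1
      rw [gg_coe, Matrix.adjugate_fin_three]
      simp only [Matrix.mul_apply, Fin.sum_univ_succ, h1, h2, _root_.Fin.isValue, _root_.Matrix.of_apply, _root_.Matrix.cons_val', _root_.Matrix.cons_val_one, _root_.Matrix.cons_val_zero, _root_.Matrix.cons_val_fin_one, _root_.Matrix.cons_val, _root_.MulZeroClass.mul_zero, _root_.neg_mul, _root_.ne_eq, _root_.not_false_eq_true, _root_.inv_mul_cancel₀, _root_.sub_neg_eq_add, _root_.zero_add, _root_.neg_zero, _root_.MulZeroClass.zero_mul, _root_.add_zero, _root_.mul_neg, _root_.sub_self, _root_.one_mul, _root_.neg_neg, _root_.Matrix.cons_val_succ, _root_.Fin.succ_zero_eq_one, _root_.Finset.univ_unique, _root_.Fin.default_eq_zero, _root_.Finset.sum_singleton, _root_.Fin.succ_one_eq_two]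
    · show ((Matrix.adjugate _ * M.1 : Matrix (Fin 3) (Fin 3) F)) 2 0 = 0
      rw [gg_coe, Matrix.adjugate_fin_three]
      simp only [Matrix.mul_apply, Fin.sum_univ_succ, h1, h2, _root_.Fin.isValue, _root_.Matrix.of_apply, _root_.Matrix.cons_val', _root_.Matrix.cons_val_one, _root_.Matrix.cons_val_zero, _root_.Matrix.cons_val_fin_one, _root_.Matrix.cons_val, _root_.MulZeroClass.mul_zero, _root_.neg_mul, _root_.ne_eq, _root_.not_false_eq_true, _root_.inv_mul_cancel₀, _root_.sub_neg_eq_add, _root_.zero_add, _root_.neg_zero, _root_.MulZeroClass.zero_mul, _root_.add_zero, _root_.mul_neg, _root_.sub_self, _root_.one_mul, _root_.neg_neg, _root_.Matrix.cons_val_succ, _root_.Fin.succ_zero_eq_one, _root_.Finset.univ_unique, _root_.Fin.default_eq_zero, _root_.Finset.sum_const_zero]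
  · have hh : M.1 1 0 * (M.1 1 0)⁻¹ - 0 * (M.1 2 0) = 1 := by
      field_simp
      ring
    refine ⟨M.1 1 0, 0, M.1 2 0, (M.1 1 0)⁻¹, hh, (gg (M.1 1 0) 0 (M.1 2 0) (M.1 1 0)⁻¹ hh)⁻¹ * M, ?_, ?_, ?_⟩
    · rw [mul_inv_cancel_left]
    · show ((Matrix.adjugate _ * M.1 : Matrix (Fin 3) (Fin 3) F)) 1 0 = 1
      rw [gg_coe, Matrix.adjugate_fin_three]
      simp only [Matrix.mul_apply, Fin.sum_univ_succ, h1, _root_.Fin.isValue, _root_.Matrix.of_apply, _root_.Matrix.cons_val', _root_.Matrix.cons_val_one, _root_.Matrix.cons_val_zero, _root_.Matrix.cons_val_fin_one, _root_.Matrix.cons_val, _root_.ne_eq, _root_.not_false_eq_true, _root_.mul_inv_cancel₀, _root_.MulZeroClass.zero_mul, _root_.sub_zero, _root_.neg_zero, _root_.add_zero, _root_.MulZeroClass.mul_zero, _root_.sub_self, _root_.one_mul, _root_.Matrix.cons_val_succ, _root_.Fin.succ_zero_eq_one, _root_.inv_mul_cancel₀, _root_.Finset.univ_unique, _root_.Fin.default_eq_zero, _root_.Finset.sum_const_zero,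 _root_.zero_add]
    · show ((Matrix.adjugate _ * M.1 : Matrix (Fin 3) (Fin 3) F)) 2 0 = 0
      rw [gg_coe, Matrix.adjugate_fin_three]
      simp only [Matrix.mul_apply, Fin.sum_univ_succ, _root_.Fin.isValue, _root_.Matrix.of_apply, _root_.Matrix.cons_val', _root_.Matrix.cons_val_one, _root_.Matrix.cons_val_zero, _root_.Matrix.cons_val_fin_one, _root_.Matrix.cons_val, _root_.MulZeroClass.zero_mul, _root_.sub_zero, _root_.neg_zero, _root_.add_zero, _root_.MulZeroClass.mul_zero, _root_.sub_self, _root_.one_mul, _root_.Matrix.cons_val_succ, _root_.Fin.succ_zero_eq_one, _root_.neg_mul, _root_.Finset.univ_unique, _root_.Fin.default_eq_zero, _root_.Finset.sum_singleton, _root_.Fin.succ_one_eq_two, _root_.zero_add]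
      ring

theorem u_N (N : Matrix.SpecialLinearGroup (Fin 3) F) (h1 : N.1 1 0 = 1) (h2 : N.1 2 0 = 0) (s : F) :
    u 0 s (s * N.1 0 0) * N = N * u (s * N.1 2 1) 0 (s * N.1 2 2) := by
  apply eqM
  rw [Matrix.SpecialLinearGroup.coe_mul, Matrix.SpecialLinearGroup.coe_mul, u_coe, u_coe]
  ext i j
  (revert i j; simp only [Matrix.mul_apply, Fin.sum_univ_succ, h1, h2, _root_.Fin.forall_fin_succ, Fin.isValue, _root_.Matrix.of_apply, _root_.Matrix.cons_val', _root_.Matrix.cons_val_fin_one, _root_.Matrix.cons_val_zero, _root_.Matrix.cons_val_succ, _root_.Fin.succ_zero_eq_one, _root_.Finset.univ_unique, _root_.Fin.default_eq_zero, _root_.Finset.sum_singleton, _root_.Fin.succ_one_eq_two, _root_.mul_one, _root_.MulZeroClass.mul_zero, _root_.add_zero, _root_.zero_add, _root_.IsEmpty.forall_iff, _root_.and_true, _root_.one_mul, _root_.MulZeroClass.zero_mul, _root_.true_and, _root_.and_self]) <;> (repeat' with_reducible apply And.intro) <;> ring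

/-- the sum over the elation group `R'` -/
noncomputable def ER : Module.End 𝕜 V := ∑ p : F × F, S (u p.1 0 p.2)

theorem ER_apply (v : V) : ER S v = ∑ p : F × F, S (u p.1 0 p.2) v := by
  rw [ER, LinearMap.sum_apply]

theorem ER_right (a c : F) (v : V) : ER S (S (u a 0 c) v) = ER S v := by
  rw [ER_apply, ER_apply]
  refine Fintype.sum_equiv (Equiv.addRight (a, c)) _ _ fun p => ?_
  rw [← S_apply, u_mul]
  congr 2
  show _ = u (p.1 + a) 0 (p.2 + c)
  congr 1 <;> ring

theorem ER_left (a c : F) (v : V) : S (u a 0 c) (ER S v) = ER S v := by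
  rw [ER_apply, map_sum]
  refine Fintype.sum_equiv (Equiv.addLeft (a, c)) _ _ fun p => ?_
  rw [← S_apply, u_mul]
  congr 2
  show _ = u (a + p.1) 0 (c + p.2)
  congr 1 <;> ring

theorem ER_mid (b : F) (v : V) : S (u 0 b 0) (ER S v) = ER S (S (u 0 b 0) v) := by
  rw [ER_apply, ER_apply, map_sum]
  refine Fintype.sum_bijective (fun p : F × F => (p.1, p.2 - p.1 * b)) ?_ _ _ fun p => ?_
  · constructor
    · intro p p' h
      have h1 := congrArg Prod.fst h
      have h2 := congrArg Prod.snd h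
      simp only at h1 h2
      rw [h1] at h2
      exact Prod.ext h1 (sub_left_injective h2)
    · intro p
      refine ⟨(p.1, p.2 + p.1 * b), ?_⟩
      apply Prod.ext
      · rfl
      · show p.2 + p.1 * b - p.1 * b = p.2
        ring
  · rw [← S_apply, ← S_apply, u_mul, u_mul]
    congr 2
    show _ = u (p.1 + 0) (0 + b) (p.2 - p.1 * b + 0 + p.1 * b)
    congr 1 <;> ring

theorem ER_gg (a b c d : F) (h : a * d - b * c = 1) (v : V) :
    ER S (S (gg a b c d h) v) = S (gg a b c d h) (ER S v) := by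
  rw [ER_apply, ER_apply, map_sum]
  refine Fintype.sum_bijective (fun p : F × F => (p.1 * a + p.2 * c, p.1 * b + p.2 * d)) ?_ _ _ fun p => ?_
  · constructor
    · intro p p' h'
      have h1 := congrArg Prod.fst h'
      have h2 := congrArg Prod.snd h'
      simp only at h1 h2
      apply Prod.ext
      · linear_combination d * h1 - c * h2 - (p.1 - p'.1) * h
      · linear_combination a * h2 - b * h1 - (p.2 - p'.2) * h
    · intro p
      refine ⟨(p.1 * d - p.2 * c, p.2 * a - p.1 * b), ?_⟩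
      apply Prod.ext
      · show (p.1 * d - p.2 * c) * a + (p.2 * a - p.1 * b) * c = p.1
        linear_combination p.1 * h
      · show (p.1 * d - p.2 * c) * b + (p.2 * a - p.1 * b) * d = p.2
        linear_combination p.2 * h
  · rw [← S_apply, ← S_apply, u_gg]

/-- **`U` has fixed points.** -/
theorem exists_fix_U (e : Basis (Fin 3) F E) [Fintype (Tor F E)] (h3 : finrank F E = 3) (hq : (Fintype.card F : 𝕜) ≠ 0)
    (hsum : ∀ v, ∑ t : Tor F E, S (psi e t) v = 0) (h : ∃ v : V, v ≠ 0 ∧ ∀ a c, S (u a 0 c) v = v) :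
    ∃ v : V, v ≠ 0 ∧ ∀ a b c, S (u a b c) v = v := by
  classical
  by_contra hcon
  push Not at hcon
  have hU : ∀ v : V, (∀ a b c, S (u a b c) v = v) → v = 0 := by
    intro v hv
    by_contra h
    obtain ⟨a, b, c, habc⟩ := hcon v h
    exact habc (hv a b c)
  obtain ⟨v, hv0, hv⟩ := h
  apply hv0
  have h4 := congrArg (ER S) (hsum v)
  rw [map_zero, map_sum, ← Finset.add_sum_erase _ _ (Finset.mem_univ (1 : Tor F E)), map_one, map_one,
    Module.End.one_apply, Finset.sum_eq_zero, add_zero] at h4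
  · have h5 : ER S v = ((Fintype.card (F × F) : ℕ) : 𝕜) • v := by
      rw [ER_apply, Finset.sum_congr rfl (g := fun _ => v) (fun p _ => hv p.1 p.2), Finset.sum_const, Finset.card_univ,
        Nat.cast_smul_eq_nsmul]
    rw [h5, Fintype.card_prod, Nat.cast_mul] at h4
    exact (smul_eq_zero.1 h4).resolve_left (mul_ne_zero hq hq)
  · intro t ht
    have ht1 : t ≠ 1 := (Finset.mem_erase.1 ht).1
    obtain ⟨a, b, c, d, hh, N, hN, hN1, hN2⟩ := exists_gg (psi e t) (regular_pt e h3 ht1)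
    rw [hN, S_apply, ER_gg]
    have h6 : ER S (S N v) = 0 := by
      apply hU
      intro x y z
      have h7 : u x y z = u x 0 (z - x * y) * u 0 y 0 := by
        rw [u_mul]
        congr 1 <;> ring
      rw [h7, S_apply, ER_mid]
      have h8 : ER S (S (u 0 y 0) (S N v)) = ER S (S N v) := by
        have h9 : u 0 y 0 = u 0 0 (-(y * N.1 0 0)) * u 0 y (y * N.1 0 0) := by
          rw [u_mul]
          congr 1 <;> ring
        rw [h9, S_apply, ER_right, ← S_apply, u_N N hN1 hN2, S_apply, hv]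
      rw [h8, ER_left]
    rw [h6, map_zero]

/-! ### The projection onto the fixed points of `U` -/

/-- the fixed points of `U` -/
def VU : Submodule 𝕜 V where
  carrier := {v | ∀ a b c, S (u a b c) v = v}
  add_mem' := by
    intro v w hv hw a b c
    rw [map_add, hv, hw]
  zero_mem' := by
    intro a b c
    rw [map_zero]
  smul_mem' := by
    intro k v hv a b c
    rw [map_smul, hv]

/-- the projection onto the fixed points of `U` -/
noncomputable def pr : Module.End 𝕜 V :=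
  ((Fintype.card F : 𝕜) ^ 3)⁻¹ • ∑ a : F, ∑ p : F × F, S (u a 0 0 * u 0 p.1 p.2)

theorem pr_apply (v : V) : pr S v = ((Fintype.card F : 𝕜) ^ 3)⁻¹ • ∑ a : F, ∑ p : F × F, S (u a 0 0) (S (u 0 p.1 p.2) v) := by
  rw [pr, LinearMap.smul_apply, LinearMap.sum_apply]
  congr 1
  refine Finset.sum_congr rfl fun a _ => ?_
  rw [LinearMap.sum_apply]
  refine Finset.sum_congr rfl fun p _ => ?_
  rw [S_apply]

theorem sum_left (a b c : F) (v : V) : S (u a b c) (∑ x : F, ∑ p : F × F, S (u x 0 0) (S (u 0 p.1 p.2) v)) =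
    ∑ x : F, ∑ p : F × F, S (u x 0 0) (S (u 0 p.1 p.2) v) := by
  rw [map_sum]
  refine Fintype.sum_equiv (Equiv.addLeft a) _ _ fun x => ?_
  rw [map_sum]
  refine Fintype.sum_equiv (Equiv.addLeft (b, c - (a + x) * b)) _ _ fun p => ?_
  rw [← S_apply, ← S_apply, ← S_apply, u_mul, u_mul, u_mul]
  congr 2
  show _ = u (a + x + 0) (0 + (b + p.1)) (0 + (c - (a + x) * b + p.2) + (a + x) * (b + p.1))
  congr 1 <;> ring

theorem sum_right (a b c : F) (v : V) : ∑ x : F, ∑ p : F × F, S (u x 0 0) (S (u 0 p.1 p.2) (S (u a b c) v)) =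
    ∑ x : F, ∑ p : F × F, S (u x 0 0) (S (u 0 p.1 p.2) v) := by
  refine Fintype.sum_equiv (Equiv.addRight a) _ _ fun x => ?_
  refine Fintype.sum_bijective (fun p : F × F => (p.1 + b, p.2 + c - a * p.1 - a * b)) ?_ _ _ fun p => ?_
  · constructor
    · intro p p' h
      have h1 := congrArg Prod.fst h
      have h2 := congrArg Prod.snd h
      simp only at h1 h2
      have h3 := add_right_cancel h1
      rw [h3] at h2
      exact Prod.ext h3 (by linear_combination h2)
    · intro p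
      refine ⟨(p.1 - b, p.2 - c + a * (p.1 - b) + a * b), ?_⟩
      apply Prod.ext
      · show p.1 - b + b = p.1
        ring
      · show p.2 - c + a * (p.1 - b) + a * b + c - a * (p.1 - b) - a * b = p.2
        ring
  · rw [← S_apply, ← S_apply, ← S_apply, u_mul, u_mul, u_mul]
    congr 2
    show _ = u (x + a + 0) (0 + (p.1 + b)) (0 + (p.2 + c - a * p.1 - a * b) + (x + a) * (p.1 + b))
    congr 1 <;> ring

theorem pr_mem (v : V) : pr S v ∈ VU S := by
  intro a b c
  rw [pr_apply, map_smul, sum_left]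

theorem pr_u (a b c : F) (v : V) : pr S (S (u a b c) v) = pr S v := by
  rw [pr_apply, pr_apply, sum_right]

theorem pr_of_mem (hq : (Fintype.card F : 𝕜) ≠ 0) {v : V} (hv : v ∈ VU S) : pr S v = v := by
  rw [pr_apply, Finset.sum_congr rfl (g := fun _ => ((Fintype.card (F × F) : ℕ) : 𝕜) • v), Finset.sum_const,
    Finset.card_univ, Fintype.card_prod, ← Nat.cast_smul_eq_nsmul 𝕜, smul_smul, smul_smul]
  · rw [Nat.cast_mul, show ((Fintype.card F : 𝕜) ^ 3)⁻¹ * (Fintype.card F : 𝕜) * ((Fintype.card F : 𝕜) * (Fintype.card F : 𝕜)) =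
      1 by field_simp, one_smul]
  · intro a _
    rw [Finset.sum_congr rfl (g := fun _ => v), Finset.sum_const, Finset.card_univ, Nat.cast_smul_eq_nsmul 𝕜]
    intro p _
    rw [hv, hv]

theorem D_mem (p : Fˣ × Fˣ) {v : V} (hv : v ∈ VU S) : S (D p) v ∈ VU S := by
  intro a b c
  have h1 : u a b c * D p = D p * u ((p.1 : F)⁻¹ * p.2 * a) ((p.1 : F)⁻¹ * ((p.2 : F) ^ 2)⁻¹ * b) (((p.1 : F) ^ 2)⁻¹ * (p.2 : F)⁻¹ * c) := by
    rw [D_mul_u]
    have hx := p.1.ne_zero
    have hy := p.2.ne_zero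
    congr 2
    · field_simp
    · field_simp
    · field_simp
  rw [← S_apply, h1, S_apply, hv]

/-- two projections with the same image and kernel -/
theorem pr_comm {f g : Module.End 𝕜 V} (hfg : ∀ v, g (f v) = v) (hq : (Fintype.card F : 𝕜) ≠ 0) (hmem : ∀ v ∈ VU S, f v ∈ VU S)
    (hpr : ∀ a b c, ∀ v, pr S (f (S (u a b c) (g v))) = pr S v) (v : V) : pr S (f v) = f (pr S v) := by
  have h1 : pr S (f (pr S v)) = f (pr S v) := pr_of_mem S hq (hmem _ (pr_mem S v))
  rw [← h1]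
  have h2 : ∀ a b c, pr S (f (S (u a b c) v)) = pr S (f v) := by
    intro a b c
    have := hpr a b c (f v)
    rwa [hfg] at this
  have h4 := pr_apply S v
  rw [h4, map_smul, map_smul, map_sum, map_sum]
  have h3 : ∀ a : F, pr S (f (∑ p : F × F, S (u a 0 0) (S (u 0 p.1 p.2) v))) = ((Fintype.card (F × F) : ℕ) : 𝕜) • pr S (f v) := by
    intro a
    rw [map_sum, map_sum, Finset.sum_congr rfl (g := fun _ => pr S (f v)), Finset.sum_const, Finset.card_univ,
      Nat.cast_smul_eq_nsmul 𝕜]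
    intro p _
    rw [← S_apply, u_mul, h2]
  simp_rw [h3]
  rw [Finset.sum_const, Finset.card_univ, Fintype.card_prod, ← Nat.cast_smul_eq_nsmul 𝕜, smul_smul, smul_smul,
    Nat.cast_mul, show ((Fintype.card F : 𝕜) ^ 3)⁻¹ * (Fintype.card F : 𝕜) * ((Fintype.card F : 𝕜) * (Fintype.card F : 𝕜)) =
      1 by field_simp, one_smul]

theorem pr_D (hq : (Fintype.card F : 𝕜) ≠ 0) (p : Fˣ × Fˣ) (v : V) : pr S (S (D p) v) = S (D p) (pr S v) := by
  refine pr_comm S (g := S (D p)⁻¹) (fun v => S_inv S _ v) hq (fun v hv => D_mem S p hv) (fun a b c v => ?_) v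
  rw [← S_apply, D_mul_u, S_apply, pr_u, S_inv']

/-! ### The rank one operators -/

theorem fix_n1 {v : V} (hv : v ∈ VU S) (b c : F) : S (u 0 b c) (S n1 v) = S n1 v := by
  have h := n1_u (F := F) c (-b)
  rw [neg_neg] at h
  rw [← S_apply, ← h, S_apply, hv]

theorem pr_n1 (hq : (Fintype.card F : 𝕜) ≠ 0) {v : V} (hv : v ∈ VU S) :
    (Fintype.card F : 𝕜) • pr S (S n1 v) = ∑ a : F, S (u a 0 0) (S n1 v) := by
  rw [pr_apply, smul_smul]
  have h1 : ∀ a : F, ∑ p : F × F, S (u a 0 0) (S (u 0 p.1 p.2) (S n1 v)) =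
      ((Fintype.card F : 𝕜) * (Fintype.card F : 𝕜)) • S (u a 0 0) (S n1 v) := by
    intro a
    rw [Finset.sum_congr rfl (g := fun _ => S (u a 0 0) (S n1 v)) (fun p _ => by rw [fix_n1 S hv]), Finset.sum_const,
      Finset.card_univ, Fintype.card_prod, ← Nat.cast_smul_eq_nsmul 𝕜, Nat.cast_mul]
  simp_rw [h1]
  rw [← Finset.smul_sum, smul_smul, show (Fintype.card F : 𝕜) * ((Fintype.card F : 𝕜) ^ 3)⁻¹ *
    ((Fintype.card F : 𝕜) * (Fintype.card F : 𝕜)) = 1 by field_simp, one_smul]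

theorem T1_inj (hq : (Fintype.card F : 𝕜) ≠ 0) {v : V} (hv : v ∈ VU S) (h : pr S (S n1 v) = 0) : v = 0 := by
  classical
  have h1 := pr_n1 S hq hv
  rw [h, smul_zero] at h1
  have h2 := congrArg (fun w => pr S (S n1 w)) h1
  simp only [map_zero, map_sum] at h2
  rw [← Finset.add_sum_erase _ _ (Finset.mem_univ (0 : F)), u_zero, S_one, ← S_apply, n1_mul_n1,
    pr_of_mem S hq (D_mem S _ hv), Finset.sum_eq_zero, add_zero] at h2
  · have h3 := congrArg (S (D (-1, -1))⁻¹) h2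
    rw [S_inv, map_zero] at h3
    exact h3.symm
  · intro a ha
    have ha0 : a ≠ 0 := (Finset.mem_erase.1 ha).1
    have h4 := n1_u_n1 (Units.mk0 a ha0)
    rw [Units.val_mk0] at h4
    rw [← S_apply, ← S_apply, h4, S_apply, S_apply, S_apply, pr_u, hv, pr_D S hq, h, map_zero]

theorem T1_sq (hq : (Fintype.card F : 𝕜) ≠ 0) {v : V} (hv : v ∈ VU S) (hD : ∀ p, S (D p) v = v) :
    (Fintype.card F : 𝕜) • pr S (S n1 (pr S (S n1 v))) = v + ((Fintype.card F : 𝕜) - 1) • pr S (S n1 v) := by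
  classical
  rw [← map_smul, ← map_smul, pr_n1 S hq hv, map_sum, map_sum, ← Finset.add_sum_erase _ _ (Finset.mem_univ (0 : F)), u_zero,
    S_one, ← S_apply, n1_mul_n1, hD, pr_of_mem S hq hv]
  congr 1
  rw [Finset.sum_congr rfl (g := fun _ => pr S (S n1 v)), Finset.sum_const, Finset.card_erase_of_mem (Finset.mem_univ _),
    Finset.card_univ, ← Nat.cast_smul_eq_nsmul 𝕜, Nat.cast_sub Fintype.card_pos, Nat.cast_one]
  intro a ha
  have ha0 : a ≠ 0 := (Finset.mem_erase.1 ha).1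
  have h4 := n1_u_n1 (Units.mk0 a ha0)
  rw [Units.val_mk0] at h4
  have h5 : ∀ p, S (D p) (S n1 v) = S n1 v := by
    intro p
    have h6 := n1_D (F := F) (p.2, p.1)
    rw [← S_apply, ← h6, S_apply, hD]
  rw [← S_apply, ← S_apply, h4, S_apply, S_apply, S_apply, pr_u, hv, h5]

/-- a projection in the middle -/
theorem pr_mid (hq : (Fintype.card F : 𝕜) ≠ 0) {g : Matrix.SpecialLinearGroup (Fin 3) F} {w : V}
    (h : ∀ a b c, pr S (S g (S (u a b c) w)) = pr S (S g w)) : pr S (S g (pr S w)) = pr S (S g w) := by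
  have h4 := pr_apply S w
  rw [h4, map_smul, map_smul, map_sum, map_sum]
  have h3 : ∀ a : F, pr S (S g (∑ p : F × F, S (u a 0 0) (S (u 0 p.1 p.2) w))) = ((Fintype.card (F × F) : ℕ) : 𝕜) •
      pr S (S g w) := by
    intro a
    rw [map_sum, map_sum, Finset.sum_congr rfl (g := fun _ => pr S (S g w)), Finset.sum_const, Finset.card_univ,
      Nat.cast_smul_eq_nsmul 𝕜]
    intro p _
    rw [← S_apply S (u a 0 0), u_mul, h]
  simp_rw [h3]
  rw [Finset.sum_const, Finset.card_univ, Fintype.card_prod, ← Nat.cast_smul_eq_nsmul 𝕜, smul_smul, smul_smul,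
    Nat.cast_mul, show ((Fintype.card F : 𝕜) ^ 3)⁻¹ * (Fintype.card F : 𝕜) * ((Fintype.card F : 𝕜) * (Fintype.card F : 𝕜)) =
      1 by field_simp, one_smul]

/-- `S n₁` in front -/
theorem pr_n1_mid (hq : (Fintype.card F : 𝕜) ≠ 0) {w : V} (h : ∀ a, S (u a 0 0) w = w) :
    pr S (S n1 (pr S w)) = pr S (S n1 w) := by
  refine pr_mid S hq fun a b c => ?_
  have h1 : u a b c = u 0 b c * u a 0 0 := by
    rw [u_mul]
    congr 1 <;> ring
  rw [h1, S_apply, h, ← S_apply, n1_u, S_apply, pr_u]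

/-- `S n₂` in front -/
theorem pr_n2_mid (hq : (Fintype.card F : 𝕜) ≠ 0) {w : V} (h : ∀ b, S (u 0 b 0) w = w) :
    pr S (S n2 (pr S w)) = pr S (S n2 w) := by
  refine pr_mid S hq fun a b c => ?_
  have h1 : u a b c = u a 0 (c - a * b) * u 0 b 0 := by
    rw [u_mul]
    congr 1 <;> ring
  rw [h1, S_apply, h, ← S_apply, n2_u, S_apply, pr_u]

theorem T1T2 (hq : (Fintype.card F : 𝕜) ≠ 0) {v : V} (hv : v ∈ VU S) :
    pr S (S n1 (pr S (S n2 v))) = pr S (S (n1 * n2) v) := by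
  rw [pr_n1_mid S hq, S_apply]
  intro a
  have h := n2_u (F := F) 0 a
  rw [neg_zero] at h
  rw [← S_apply, ← h, S_apply, hv]

theorem T2T1 (hq : (Fintype.card F : 𝕜) ≠ 0) {v : V} (hv : v ∈ VU S) :
    pr S (S n2 (pr S (S n1 v))) = pr S (S (n2 * n1) v) := by
  rw [pr_n2_mid S hq, S_apply]
  intro b
  exact fix_n1 S hv b 0

theorem T1T2T1 (hq : (Fintype.card F : 𝕜) ≠ 0) {v : V} (hv : v ∈ VU S) :
    pr S (S n1 (pr S (S n2 (pr S (S n1 v))))) = pr S (S (n1 * n2 * n1) v) := by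
  rw [T2T1 S hq hv, pr_n1_mid S hq, ← S_apply, mul_assoc]
  intro a
  have h := n2_u (F := F) 0 a
  rw [neg_zero] at h
  rw [S_apply, ← S_apply, ← h, S_apply, fix_n1 S hv]

/-! ### The characters of the diagonal torus on the fixed points of `U` -/

theorem D_pr {w : V} {χ : Fˣ × Fˣ → 𝕜} {g : Matrix.SpecialLinearGroup (Fin 3) F} (hq : (Fintype.card F : 𝕜) ≠ 0)
    (c : Fˣ × Fˣ → Fˣ × Fˣ) (hg : ∀ p, D p * g = g * D (c p)) (hw : ∀ p, S (D p) w = χ p • w) (p : Fˣ × Fˣ) :
    S (D p) (pr S (S g w)) = χ (c p) • pr S (S g w) := by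
  rw [← pr_D S hq, ← S_apply, hg, S_apply, hw, map_smul, map_smul]

theorem D_n1 (p : Fˣ × Fˣ) : D p * n1 = n1 * D (p.2, p.1) := (n1_D (p.2, p.1)).symm

theorem D_A (p : Fˣ × Fˣ) : D p * (n1 * n2) = n1 * n2 * D (p.2, (p.1 * p.2)⁻¹) := by
  rw [← mul_assoc, D_n1, mul_assoc, mul_assoc, n2_D]
  congr 3
  apply Prod.ext
  · rfl
  · show p.1 = (p.2 * (p.1 * p.2)⁻¹)⁻¹
    rw [_root_.mul_inv_rev, inv_inv, mul_assoc, mul_inv_cancel, mul_one]

theorem D_n2 (p : Fˣ × Fˣ) : D p * n2 = n2 * D (p.1, (p.1 * p.2)⁻¹) := by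
  rw [n2_D]
  congr 2
  apply Prod.ext
  · rfl
  · show p.2 = (p.1 * (p.1 * p.2)⁻¹)⁻¹
    rw [_root_.mul_inv_rev, inv_inv, mul_comm p.1 p.2, mul_assoc, mul_inv_cancel, mul_one]

theorem D_B (p : Fˣ × Fˣ) : D p * (n2 * n1) = n2 * n1 * D ((p.1 * p.2)⁻¹, p.1) := by
  rw [← mul_assoc, D_n2, mul_assoc, mul_assoc, n1_D]

theorem D_C (p : Fˣ × Fˣ) : D p * (n1 * n2 * n1) = n1 * n2 * n1 * D ((p.1 * p.2)⁻¹, p.2) := by
  rw [← mul_assoc, D_A, mul_assoc, mul_assoc (n1 * n2), n1_D]

theorem eigen_aux (e : Basis (Fin 3) F E) [Fintype (Tor F E)] (h3 : finrank F E = 3) (hq : (Fintype.card F : 𝕜) ≠ 0)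
    (hsum : ∀ v, ∑ t : Tor F E, S (psi e t) v = 0) {v : V} (hv : v ∈ VU S) (hv0 : v ≠ 0) {μ : Fˣ × Fˣ →* 𝕜}
    (hμ : ∀ p, S (D p) v = μ p • v) : (∀ p : Fˣ × Fˣ, μ (p.2, (p.1 * p.2)⁻¹) = μ p) ∨
      (∀ p : Fˣ × Fˣ, μ ((p.1 * p.2)⁻¹, p.1) = μ p) ∨ (∀ p : Fˣ × Fˣ, μ ((p.1 * p.2)⁻¹, p.2) = μ p) := by
  classical
  by_contra hcon
  push Not at hcon
  obtain ⟨⟨pA, hA⟩, ⟨pB, hB⟩, ⟨pC, hC⟩⟩ := hcon
  set f : Fˣ × Fˣ → 𝕜 → Module.End 𝕜 V := fun p c => S (D p) - c • 1 with hf
  have hfa : ∀ p c w (k : 𝕜), S (D p) w = k • w → f p c w = (k - c) • w := by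
    intro p c w k hw
    rw [hf]
    show S (D p) w - c • w = _
    rw [hw, sub_smul]
  set cA := μ (pA.2, (pA.1 * pA.2)⁻¹)
  set cB := μ ((pB.1 * pB.2)⁻¹, pB.1)
  set cC := μ ((pC.1 * pC.2)⁻¹, pC.2)
  have hP : ∀ (w : V) (χ : Fˣ × Fˣ → 𝕜), (∀ p, S (D p) w = χ p • w) →
      f pA cA (f pB cB (f pC cC w)) = ((χ pC - cC) * (χ pB - cB) * (χ pA - cA)) • w := by
    intro w χ hw
    rw [hfa pC cC w _ (hw pC), map_smul, map_smul, hfa pB cB w _ (hw pB), map_smul, hfa pA cA w _ (hw pA), smul_smul,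
      smul_smul, mul_assoc]
  have h1 := congrArg (pr S) (hsum v)
  rw [map_zero, map_sum, ← Finset.add_sum_erase _ _ (Finset.mem_univ (1 : Tor F E)), map_one, map_one,
    Module.End.one_apply, pr_of_mem S hq hv] at h1
  have h2 := congrArg (fun w => f pA cA (f pB cB (f pC cC w))) h1
  simp only [map_add, map_sum, map_zero] at h2
  rw [hP v μ hμ, Finset.sum_eq_zero, add_zero] at h2
  · have h5 := (smul_eq_zero.1 h2).resolve_right hv0
    rcases mul_eq_zero.1 h5 with h6 | h6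
    · rcases mul_eq_zero.1 h6 with h7 | h7
      · exact hC (sub_eq_zero.1 h7).symm
      · exact hB (sub_eq_zero.1 h7).symm
    · exact hA (sub_eq_zero.1 h6).symm
  · intro t ht
    have ht1 : t ≠ 1 := (Finset.mem_erase.1 ht).1
    by_cases h20 : (psi e t).1 2 0 = 0
    · -- type `A`
      have h10 : (psi e t).1 1 0 ≠ 0 := fun h => regular_pt e h3 ht1 h h20
      obtain ⟨a, b, c, a', b', c', p, hp⟩ := cellA (psi e t) h20 h10 (regular_ln e h3 ht1 h20)
      rw [hp, S_apply, S_apply, S_apply, pr_u, hv, hμ, map_smul, map_smul, map_smul, map_smul, map_smul,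
        hP _ _ (fun p => D_pr S hq (fun p => (p.2, (p.1 * p.2)⁻¹)) D_A hμ p)]
      show μ p • ((_ * _ * (cA - cA)) • _) = 0
      rw [sub_self, mul_zero, zero_smul, smul_zero]
    · by_cases hm : (psi e t).1 1 0 * (psi e t).1 2 1 - (psi e t).1 1 1 * (psi e t).1 2 0 = 0
      · obtain ⟨a, b, c, a', b', c', p, hp⟩ := cellB (psi e t) h20 hm
        rw [hp, S_apply, S_apply, S_apply, pr_u, hv, hμ, map_smul, map_smul, map_smul, map_smul, map_smul,
          hP _ _ (fun p => D_pr S hq (fun p => ((p.1 * p.2)⁻¹, p.1)) D_B hμ p)]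
        show μ p • ((_ * (cB - cB) * _) • _) = 0
        rw [sub_self, mul_zero, zero_mul, zero_smul, smul_zero]
      · obtain ⟨a, b, c, a', b', c', p, hp⟩ := cellC (psi e t) h20 hm
        rw [hp, S_apply, S_apply, S_apply, pr_u, hv, hμ, map_smul, map_smul, map_smul, map_smul, map_smul,
          hP _ _ (fun p => D_pr S hq (fun p => ((p.1 * p.2)⁻¹, p.2)) D_C hμ p)]
        show μ p • (((cC - cC) * _ * _) • _) = 0
        rw [sub_self, zero_mul, zero_mul, zero_smul, smul_zero]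

theorem exists_cube_unit (x : Fˣ) : ∃ y : Fˣ, y ^ 3 = x := by
  obtain ⟨y, hy⟩ := exists_cube (x : F)
  have hy0 : y ≠ 0 := by
    rintro rfl
    apply x.ne_zero
    rw [← hy]; ring
  exact ⟨Units.mk0 y hy0, Units.ext hy⟩

theorem eigen_one (e : Basis (Fin 3) F E) [Fintype (Tor F E)] (h3 : finrank F E = 3) (hq : (Fintype.card F : 𝕜) ≠ 0)
    (hsum : ∀ v, ∑ t : Tor F E, S (psi e t) v = 0) {v : V} (hv : v ∈ VU S) (hv0 : v ≠ 0) {μ : Fˣ × Fˣ →* 𝕜}
    (hμ : ∀ p, S (D p) v = μ p • v) (x : Fˣ) : μ (x, 1) = 1 := by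
  have hmul : ∀ a b c d : Fˣ, μ (a * c, b * d) = μ (a, b) * μ (c, d) := fun a b c d => map_mul μ (a, b) (c, d)
  have hone : μ (1, 1) = 1 := map_one μ
  rcases eigen_aux S e h3 hq hsum hv hv0 hμ with h | h | h
  · -- rotation
    have h4 : ∀ x : Fˣ, μ (x⁻¹, 1) = μ (x, x⁻¹) := by
      intro x
      have := h (x, x⁻¹)
      simp only [mul_inv_cancel, inv_one] at this
      exact this
    have h5 : ∀ x : Fˣ, μ (1, x) = μ (x⁻¹, 1) := by
      intro x
      have := h (x⁻¹, 1)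
      simp only [mul_one, inv_inv] at this
      exact this
    obtain ⟨y, rfl⟩ := exists_cube_unit x
    have h6 : μ (y⁻¹, 1) = μ (y, 1) * μ (y, 1) := by
      rw [h4]
      have h7 := hmul y 1 1 y⁻¹
      rw [mul_one, one_mul] at h7
      rw [h7, h5, inv_inv]
    have h8 := hmul y 1 y⁻¹ 1
    rw [mul_inv_cancel, mul_one, hone, h6] at h8
    have h9 : (y ^ 3, (1 : Fˣ)) = (y, 1) * (y, 1) * (y, 1) := by
      apply Prod.ext
      · show y ^ 3 = y * y * y
        rw [pow_succ, pow_two]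
      · show (1 : Fˣ) = 1 * 1 * 1
        rw [mul_one, mul_one]
    rw [h9, map_mul, map_mul, mul_assoc, ← h8]
  · have h4 : ∀ x : Fˣ, μ (x⁻¹, x) = μ (x, 1) := by
      intro x
      have := h (x, 1)
      simp only [mul_one] at this
      exact this
    have h5 : ∀ x : Fˣ, μ (x⁻¹, 1) = μ (1, x) := by
      intro x
      have := h (1, x)
      simp only [one_mul] at this
      exact this
    obtain ⟨y, rfl⟩ := exists_cube_unit x
    have h6 : μ (y, 1) = μ (y⁻¹, 1) * μ (y⁻¹, 1) := by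
      rw [← h4]
      have h7 := hmul y⁻¹ 1 1 y
      rw [mul_one, one_mul] at h7
      rw [h7, ← h5]
    have h8 := hmul y 1 y⁻¹ 1
    rw [mul_inv_cancel, mul_one, hone] at h8
    have h9 : μ (y⁻¹, 1) * μ (y⁻¹, 1) * μ (y⁻¹, 1) = 1 := by
      rw [← h6, ← h8]
    have h10 : (y ^ 3, (1 : Fˣ)) = (y, 1) * (y, 1) * (y, 1) := by
      apply Prod.ext
      · show y ^ 3 = y * y * y
        rw [pow_succ, pow_two]
      · show (1 : Fˣ) = 1 * 1 * 1
        rw [mul_one, mul_one]
    rw [h10, map_mul, map_mul]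
    have h11 : μ (y, 1) * μ (y, 1) * μ (y, 1) * (μ (y⁻¹, 1) * μ (y⁻¹, 1) * μ (y⁻¹, 1)) = 1 := by
      have e1 : μ (y, 1) * μ (y, 1) * μ (y, 1) * (μ (y⁻¹, 1) * μ (y⁻¹, 1) * μ (y⁻¹, 1)) =
        (μ (y, 1) * μ (y⁻¹, 1)) * (μ (y, 1) * μ (y⁻¹, 1)) * (μ (y, 1) * μ (y⁻¹, 1)) := by ring
      rw [e1, ← h8, mul_one, mul_one]
    rwa [h9, mul_one] at h11
  · have h4 := h (x, x⁻¹)
    simp only [mul_inv_cancel, inv_one] at h4
    have h5 := hmul 1 x⁻¹ 1 x
    rw [mul_one, inv_mul_cancel, hone] at h5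
    have h6 := hmul x x⁻¹ 1 x
    rw [mul_one, inv_mul_cancel] at h6
    rw [h6, ← h4, ← h5]

/-- **The characters of the diagonal torus are trivial.** -/
theorem eigen (e : Basis (Fin 3) F E) [Fintype (Tor F E)] (h3 : finrank F E = 3) (hq : (Fintype.card F : 𝕜) ≠ 0)
    (hsum : ∀ v, ∑ t : Tor F E, S (psi e t) v = 0) {v : V} (hv : v ∈ VU S) (hv0 : v ≠ 0) {μ : Fˣ × Fˣ →* 𝕜}
    (hμ : ∀ p, S (D p) v = μ p • v) (p : Fˣ × Fˣ) : S (D p) v = v := by
  have h1 := eigen_one S e h3 hq hsum hv hv0 hμ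
  -- the reflected character
  let μ' : Fˣ × Fˣ →* 𝕜 := μ.comp (MulEquiv.prodComm (M := Fˣ) (N := Fˣ)).toMonoidHom
  have h2 := eigen_one S e h3 hq hsum (v := pr S (S n1 v)) (pr_mem S _) (fun h => hv0 (T1_inj S hq hv h)) (μ := μ')
    (fun p => D_pr S hq (fun p => (p.2, p.1)) D_n1 hμ p)
  rw [hμ]
  have h4 : p = (p.1, 1) * (1, p.2) := by
    apply Prod.ext
    · show p.1 = p.1 * 1
      rw [mul_one]
    · show p.2 = 1 * p.2
      rw [one_mul]
  rw [h4, map_mul, h1]
  have h5 : μ (1, p.2) = 1 := h2 p.2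
  rw [h5, one_mul, one_smul]

/-- **Diagonal elements of order prime to the characteristic are trivial on the fixed points of `U`.** -/
theorem diag_trivial [IsAlgClosed 𝕜] [FiniteDimensional 𝕜 V] (e : Basis (Fin 3) F E) [Fintype (Tor F E)]
    (h3 : finrank F E = 3) (hq : (Fintype.card F : 𝕜) ≠ 0)
    (hsum : ∀ v, ∑ t : Tor F E, S (psi e t) v = 0) {p : Fˣ × Fˣ} {m : ℕ} (hp : p ^ m = 1) (hm : (m : 𝕜) ≠ 0)
    {v : V} (hv : v ∈ VU S) : S (D p) v = v := by
  by_contra hne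
  set f := S (D p) with hf
  have hfm : ∀ v : V, (f ^ m) v = v := by
    intro v
    rw [hf, ← map_pow, ← map_pow, hp, map_one, S_one]
  -- the kernel of `∑ f ^ i`
  let M : Submodule 𝕜 V := VU S ⊓ LinearMap.ker (∑ i ∈ Finset.range m, f ^ i)
  have hMmem : ∀ w, w ∈ M ↔ w ∈ VU S ∧ ∑ i ∈ Finset.range m, (f ^ i) w = 0 := by
    intro w
    rw [Submodule.mem_inf, LinearMap.mem_ker, LinearMap.sum_apply]
  have hM0 : M ≠ ⊥ := by
    intro h
    apply hne
    have h1 : f v - v ∈ M := by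
      rw [hMmem]
      refine ⟨(VU S).sub_mem (D_mem S p hv) hv, ?_⟩
      simp_rw [map_sub]
      rw [Finset.sum_sub_distrib]
      have h4 : ∀ i, (f ^ i) (f v) = (f ^ (i + 1)) v := fun i => by rw [pow_succ]; rfl
      simp_rw [h4]
      have h5 := Finset.sum_range_succ' (fun i => (f ^ i) v) m
      rw [Finset.sum_range_succ, hfm, pow_zero] at h5
      rw [sub_eq_zero]
      exact (add_right_cancel h5).symm
    rw [h, Submodule.mem_bot] at h1
    exact sub_eq_zero.1 h1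
  obtain ⟨w, hwM, hw0, μ, hμ⟩ := exists_eigen (S.comp (D : Fˣ × Fˣ →* _)) hM0 (fun p' w hw => by
    rw [hMmem] at hw ⊢
    refine ⟨D_mem S p' hw.1, ?_⟩
    have hcomm : ∀ i, (f ^ i) (S (D p') w) = S (D p') ((f ^ i) w) := by
      intro i
      rw [hf, ← map_pow, ← map_pow, ← S_apply, ← S_apply, ← map_mul, ← map_mul, mul_comm]
    show ∑ i ∈ Finset.range m, (f ^ i) (S (D p') w) = 0
    simp_rw [hcomm]
    rw [← map_sum, hw.2, map_zero])
  rw [hMmem] at hwM
  have h6 : f w = w := eigen S e h3 hq hsum hwM.1 hw0 (μ := μ) hμ p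
  have h7 : ∀ i, (f ^ i) w = w := by
    intro i
    induction i with
    | zero => rfl
    | succ i ih => rw [pow_succ, Module.End.mul_apply, h6, ih]
  have h8 := hwM.2
  simp_rw [h7] at h8
  rw [Finset.sum_const, Finset.card_range, ← Nat.cast_smul_eq_nsmul 𝕜] at h8
  exact hw0 ((smul_eq_zero.1 h8).resolve_left hm)

end Mod

end Cfsg.Agent.H420.PG.G2
end

-- part: H420/PG/G2Oct
section
/-!
# `G₂(q)`, `q` a power of three, in cross characteristic: short root elements (helper420)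

`AutO F` the automorphism group of the split octonions, `slA : SL₃(F) → AutO F`, `x1`, `x2`, `x3` the short root groups
of the weights `ε₁`, `ε₂`, `-ε₃`, `na` the reflection in `ε₂`.
-/

set_option autoImplicit false
set_option linter.unusedSectionVars false
set_option linter.unusedSimpArgs false

namespace Cfsg.Agent.H420.PG.G2

open Matrix Module Cfsg.Agent.H161.Oct

variable {F : Type*} [Field F]

/-- `SL₃(F) → AutO F` -/
noncomputable def slA : Matrix.SpecialLinearGroup (Fin 3) F →* AutO F where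
  toFun P := ⟨slM F P, slM_mem P⟩
  map_one' := Subtype.ext (map_one (slM F))
  map_mul' P Q := Subtype.ext (map_mul (slM F) P Q)

/-- `τ_p` -/
def ta (p : Fin 3 → F) : AutO F := ⟨tau p, tau_mem p⟩

/-- the exchange automorphism -/
def sw : AutO F := ⟨swp F, swp_mem⟩

theorem ext_app {f g : AutO F} (h : ∀ x, f.1 x = g.1 x) : f = g := Subtype.ext (LinearEquiv.ext h)

theorem mul_app (f g : AutO F) (x : Cfsg.Agent.H161.Oct.V F) : (f * g).1 x = f.1 (g.1 x) := rfl
theorem slA_app (P : Matrix.SpecialLinearGroup (Fin 3) F) (x : Cfsg.Agent.H161.Oct.V F) : (slA P).1 x = slF P.1 x := rfl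
theorem ta_app (p : Fin 3 → F) (x : Cfsg.Agent.H161.Oct.V F) : (ta p).1 x = tauF p x := rfl
theorem sw_app (x : Cfsg.Agent.H161.Oct.V F) : (sw : AutO F).1 x = swpF x := rfl

theorem sw_sw : (sw : AutO F) * sw = 1 := by
  apply ext_app
  intro x
  rw [mul_app, sw_app, sw_app]
  apply ext8 <;> simp only [swpF0, swpF1, swpF2, swpF3, swpF4, swpF5, swpF6, swpF7, neg_neg] <;> rfl

theorem ta_add (p : Fin 3 → F) (a b : F) : ta (a • p) * ta (b • p) = ta ((a + b) • p) := by
  apply ext_app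
  intro x
  rw [mul_app, ta_app, ta_app, ta_app, tau_tau]

/-- the short root group of `ε₁` -/
def x1 (s : F) : AutO F := ta ![s, 0, 0]

/-- the short root group of `ε₂` -/
def x2 (s : F) : AutO F := ta ![0, s, 0]

/-- the short root group of `-ε₃` -/
def x3 (s : F) : AutO F := sw * ta ![0, 0, s] * sw

/-- the short root group of `-ε₂` -/
def y2 (s : F) : AutO F := sw * ta ![0, s, 0] * sw

theorem x1_eq (s : F) : x1 s = ta (s • ![1, 0, 0]) := by
  rw [x1]; congr 1; ext i; fin_cases i <;> simp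

theorem x2_eq (s : F) : x2 s = ta (s • ![0, 1, 0]) := by
  rw [x2]; congr 1; ext i; fin_cases i <;> simp

theorem x3_eq (s : F) : x3 s = sw * ta (s • ![0, 0, 1]) * sw := by
  rw [x3]; congr 3; ext i; fin_cases i <;> simp

theorem x1_add (s t : F) : x1 s * x1 t = x1 (s + t) := by
  rw [x1_eq, x1_eq, x1_eq, ta_add]

theorem x2_add (s t : F) : x2 s * x2 t = x2 (s + t) := by
  rw [x2_eq, x2_eq, x2_eq, ta_add]

theorem x3_add (s t : F) : x3 s * x3 t = x3 (s + t) := by
  rw [x3_eq, x3_eq, x3_eq, ← ta_add]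
  generalize ta (s • ![0, 0, 1] : Fin 3 → F) = A
  generalize ta (t • ![0, 0, 1] : Fin 3 → F) = B
  rw [show sw * A * sw * (sw * B * sw) = sw * A * (sw * sw) * B * sw by simp only [mul_assoc], sw_sw, mul_one, mul_assoc sw A]

theorem ta_zero : ta (0 : Fin 3 → F) = 1 := by
  apply ext_app
  intro x
  rw [ta_app, tau_zero]
  rfl

theorem x2_zero : x2 (0 : F) = 1 := by
  rw [x2_eq, zero_smul, ta_zero]

/-- conjugation of `τ_p` by `SL₃` -/
theorem slA_ta (P : Matrix.SpecialLinearGroup (Fin 3) F) (p : Fin 3 → F) :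
    slA P * ta p = ta (P.1 *ᵥ p) * slA P := by
  have hd := det_eq P
  apply ext_app
  intro x
  rw [mul_app, mul_app, slA_app, slA_app, ta_app, ta_app]
  have h0 : (P.1 *ᵥ p) 0 = P.1 0 0 * p 0 + P.1 0 1 * p 1 + P.1 0 2 * p 2 := by
    rw [Matrix.mulVec, dotProduct, Fin.sum_univ_three]
  have h1 : (P.1 *ᵥ p) 1 = P.1 1 0 * p 0 + P.1 1 1 * p 1 + P.1 1 2 * p 2 := by
    rw [Matrix.mulVec, dotProduct, Fin.sum_univ_three]
  have h2 : (P.1 *ᵥ p) 2 = P.1 2 0 * p 0 + P.1 2 1 * p 1 + P.1 2 2 * p 2 := by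
    rw [Matrix.mulVec, dotProduct, Fin.sum_univ_three]
  generalize (P.1 *ᵥ p) = p' at h0 h1 h2
  set m00 := P.1 0 0
  set m01 := P.1 0 1
  set m02 := P.1 0 2
  set m10 := P.1 1 0
  set m11 := P.1 1 1
  set m12 := P.1 1 2
  set m20 := P.1 2 0
  set m21 := P.1 2 1
  set m22 := P.1 2 2
  have hdot : p' 0 * ((m11 * m22 - m12 * m21) * x 4 + (m12 * m20 - m10 * m22) * x 5 + (m10 * m21 - m11 * m20) * x 6) +
      p' 1 * ((m21 * m02 - m22 * m01) * x 4 + (m22 * m00 - m20 * m02) * x 5 + (m20 * m01 - m21 * m00) * x 6) +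
      p' 2 * ((m01 * m12 - m02 * m11) * x 4 + (m02 * m10 - m00 * m12) * x 5 + (m00 * m11 - m01 * m10) * x 6) =
      p 0 * x 4 + p 1 * x 5 + p 2 * x 6 := by
    rw [h0, h1, h2]
    linear_combination (p 0 * x 4 + p 1 * x 5 + p 2 * x 6) * hd
  apply ext8
  · simp only [slF0, slF1, slF2, slF3, slF4, slF5, slF6, slF7, tau0, tau1, tau2, tau3, tau4, tau5, tau6, tau7]
    rw [hdot]
  · simp only [slF0, slF1, slF2, slF3, slF4, slF5, slF6, slF7, tau0, tau1, tau2, tau3, tau4, tau5, tau6, tau7]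
    rw [hdot, h0]
    ring
  · simp only [slF0, slF1, slF2, slF3, slF4, slF5, slF6, slF7, tau0, tau1, tau2, tau3, tau4, tau5, tau6, tau7]
    rw [hdot, h1]
    ring
  · simp only [slF0, slF1, slF2, slF3, slF4, slF5, slF6, slF7, tau0, tau1, tau2, tau3, tau4, tau5, tau6, tau7]
    rw [hdot, h2]
    ring
  · simp only [slF0, slF1, slF2, slF3, slF4, slF5, slF6, slF7, tau0, tau1, tau2, tau3, tau4, tau5, tau6, tau7]
    rw [h1, h2]
    ring
  · simp only [slF0, slF1, slF2, slF3, slF4, slF5, slF6, slF7, tau0, tau1, tau2, tau3, tau4, tau5, tau6, tau7]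
    rw [h0, h2]
    ring
  · simp only [slF0, slF1, slF2, slF3, slF4, slF5, slF6, slF7, tau0, tau1, tau2, tau3, tau4, tau5, tau6, tau7]
    rw [h0, h1]
    ring
  · simp only [slF0, slF1, slF2, slF3, slF4, slF5, slF6, slF7, tau0, tau1, tau2, tau3, tau4, tau5, tau6, tau7]
    rw [hdot]

theorem D_val (p : Fˣ × Fˣ) : (D p).1 = !![(p.1 : F), 0, 0; 0, p.2, 0; 0, 0, ((p.1 * p.2)⁻¹ : Fˣ)] := rfl

theorem u_x1 (a b c s : F) : slA (u a b c) * x1 s = x1 s * slA (u a b c) := by
  rw [x1, slA_ta]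
  congr 2
  ext i
  (revert i; simp only [u, Matrix.mulVec, dotProduct, Fin.sum_univ_succ, _root_.Fin.forall_fin_succ, _root_.Matrix.of_apply, _root_.Matrix.cons_val', _root_.Matrix.cons_val_fin_one, Fin.isValue, _root_.Matrix.cons_val_zero, _root_.Matrix.cons_val_succ, _root_.MulZeroClass.mul_zero, _root_.Finset.univ_unique, _root_.Fin.default_eq_zero, _root_.Finset.sum_const_zero, _root_.add_zero, _root_.one_mul, _root_.MulZeroClass.zero_mul, _root_.implies_true, _root_.and_self])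

theorem u_x2 (b c s : F) : slA (u 0 b c) * x2 s = x2 s * slA (u 0 b c) := by
  rw [x2, slA_ta]
  congr 2
  ext i
  (revert i; simp only [u, Matrix.mulVec, dotProduct, Fin.sum_univ_succ, _root_.Fin.forall_fin_succ, _root_.Matrix.of_apply, _root_.Matrix.cons_val', _root_.Matrix.cons_val_fin_one, Fin.isValue, _root_.Matrix.cons_val_zero, _root_.MulZeroClass.mul_zero, _root_.Matrix.cons_val_succ, _root_.Finset.univ_unique, _root_.Fin.default_eq_zero, _root_.Finset.sum_const_zero, _root_.add_zero, _root_.zero_add, _root_.MulZeroClass.zero_mul, _root_.one_mul, _root_.implies_true, _root_.and_self])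

theorem D_x1 (p : Fˣ × Fˣ) (s : F) : slA (D p) * x1 s = x1 (p.1 * s) * slA (D p) := by
  rw [x1, slA_ta, D_val]
  congr 2
  ext i
  (revert i; simp only [Matrix.mulVec, dotProduct, Fin.sum_univ_succ, _root_.Fin.forall_fin_succ, _root_.mul_inv_rev, _root_.Units.val_mul, _root_.Units.val_inv_eq_inv_val, _root_.Matrix.of_apply, _root_.Matrix.cons_val', _root_.Matrix.cons_val_fin_one, Fin.isValue, _root_.Matrix.cons_val_zero, _root_.Matrix.cons_val_succ, _root_.MulZeroClass.mul_zero, _root_.Finset.univ_unique, _root_.Fin.default_eq_zero, _root_.Finset.sum_const_zero, _root_.add_zero, _root_.MulZeroClass.zero_mul, _root_.implies_true, _root_.and_self])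

theorem n1_x1 (s : F) : slA n1 * x1 s = x2 (-s) * slA n1 := by
  rw [x1, x2, slA_ta]
  congr 2
  ext i
  (revert i; simp only [n1, Matrix.mulVec, dotProduct, Fin.sum_univ_succ, _root_.Fin.forall_fin_succ, _root_.Matrix.of_apply, _root_.Matrix.cons_val', _root_.Matrix.cons_val_fin_one, Fin.isValue, _root_.Matrix.cons_val_zero, _root_.Matrix.cons_val_succ, _root_.MulZeroClass.mul_zero, _root_.Finset.univ_unique, _root_.Fin.default_eq_zero, _root_.Finset.sum_const_zero, _root_.add_zero, _root_.MulZeroClass.zero_mul, _root_.neg_mul, _root_.one_mul, _root_.implies_true, _root_.and_self])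

/-- the inverse transpose of `u a b c` -/
def lt (a b c : F) : Matrix.SpecialLinearGroup (Fin 3) F :=
  ⟨!![1, 0, 0; -a, 1, 0; a * b - c, -b, 1], by rw [det_fin_three]; simp⟩

theorem sw_u (a b c : F) : sw * slA (u a b c) = slA (lt a b c) * sw := by
  apply ext_app
  intro x
  rw [mul_app, mul_app, slA_app, slA_app, sw_app, sw_app]
  apply ext8 <;> simp only [slF0, slF1, slF2, slF3, slF4, slF5, slF6, slF7, swpF0, swpF1, swpF2, swpF3, swpF4, swpF5, swpF6,
    swpF7, u, lt, _root_.Fin.isValue, _root_.Matrix.of_apply, _root_.Matrix.cons_val', _root_.Matrix.cons_val_one, _root_.Matrix.cons_val_zero, _root_.Matrix.cons_val_fin_one, _root_.Matrix.cons_val, _root_.mul_one, _root_.MulZeroClass.mul_zero, _root_.sub_zero, _root_.one_mul, _root_.sub_self, _root_.MulZeroClass.zero_mul, _root_.add_zero, _root_.mul_neg, _root_.neg_zero, _root_.zero_sub, _root_.neg_mul, _root_.neg_add_rev, _root_.neg_neg, _root_.sub_neg_eq_add, _root_.zero_add, _root_.sub_sub_cancel]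 <;> ring

theorem sw_lt (a b c : F) : sw * slA (lt a b c) = slA (u a b c) * sw := by
  apply ext_app
  intro x
  rw [mul_app, mul_app, slA_app, slA_app, sw_app, sw_app]
  apply ext8 <;> simp only [slF0, slF1, slF2, slF3, slF4, slF5, slF6, slF7, swpF0, swpF1, swpF2, swpF3, swpF4, swpF5, swpF6,
    swpF7, u, lt, _root_.Fin.isValue, _root_.Matrix.of_apply, _root_.Matrix.cons_val', _root_.Matrix.cons_val_one, _root_.Matrix.cons_val_zero, _root_.Matrix.cons_val_fin_one, _root_.Matrix.cons_val, _root_.mul_one, _root_.mul_neg, _root_.MulZeroClass.zero_mul, _root_.neg_zero, _root_.sub_zero, _root_.one_mul, _root_.sub_neg_eq_add, _root_.zero_add, _root_.neg_mul, _root_.neg_neg, _root_.sub_sub_cancel, _root_.neg_add_rev, _root_.MulZeroClass.mul_zero, _root_.sub_self, _root_.add_zero, _root_.zero_sub] <;> ring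

theorem sw_D (p : Fˣ × Fˣ) : sw * slA (D p) = slA (D p⁻¹) * sw := by
  obtain ⟨a, b⟩ := p
  have ha := a.ne_zero
  have hb := b.ne_zero
  apply ext_app
  intro x
  rw [mul_app, mul_app, slA_app, slA_app, sw_app, sw_app, D_val, D_val]
  (refine And.elim (fun cj1 => And.elim fun cj2 => And.elim fun cj3 => And.elim fun cj4 => And.elim fun cj5 => And.elim fun cj6 => And.elim fun cj7 cj8 => by apply ext8; exacts [cj1, cj2, cj3, cj4, cj5, cj6, cj7, cj8]) ?_; simp only [slF0, slF1, slF2, slF3, slF4, slF5, slF6, slF7, swpF0, swpF1, swpF2, swpF3, swpF4, swpF5, swpF6, swpF7, _root_.mul_inv_rev, _root_.Units.val_mul, _root_.Units.val_inv_eq_inv_val, _root_.Fin.isValue, _root_.Prod.inv_mk, _root_.inv_inv, _root_.Matrix.of_apply, _root_.Matrix.cons_val', _root_.Matrix.cons_val_one, _root_.Matrix.cons_val_zero, _root_.Matrix.cons_val_fin_one, _root_.Matrix.cons_val, _root_.ne_eq, _root_.Units.ne_zero, _root_.not_false_eq_true, _root_.mul_inv_cancel_left₀,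 _root_.MulZeroClass.mul_zero, _root_.sub_zero, _root_.MulZeroClass.zero_mul, _root_.sub_self, _root_.add_zero, _root_.mul_neg, _root_.neg_zero, _root_.inv_mul_cancel_right₀, _root_.zero_add, _root_.neg_inj, _root_.mul_eq_mul_right_iff, _root_.inv_mul_cancel_left₀, _root_.mul_inv_cancel_right₀, and_self, and_true, true_and] <;> and_intros <;> field_simp <;> simp)

theorem u_x3 (a b c s : F) : slA (u a b c) * x3 s = x3 s * slA (u a b c) := by
  have h1 : slA (lt a b c) * ta ![0, 0, s] = ta ![0, 0, s] * slA (lt a b c) := by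
    rw [slA_ta]
    congr 2
    ext i
    (revert i; simp only [lt, Matrix.mulVec, dotProduct, Fin.sum_univ_succ, _root_.Fin.forall_fin_succ, _root_.Matrix.of_apply, _root_.Matrix.cons_val', _root_.Matrix.cons_val_fin_one, Fin.isValue, _root_.Matrix.cons_val_zero, _root_.MulZeroClass.mul_zero, _root_.Matrix.cons_val_succ, _root_.Finset.univ_unique, _root_.Fin.default_eq_zero, _root_.Finset.sum_const, _root_.Finset.card_singleton, _root_.one_smul, _root_.zero_add, _root_.MulZeroClass.zero_mul, _root_.one_mul, _root_.implies_true, _root_.and_self])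
  simp only [x3, ← mul_assoc (slA (u a b c)) (sw * ta ![0, 0, s]) sw, ← mul_assoc (slA (u a b c)) sw (ta ![0, 0, s]), ← sw_lt a b c, mul_assoc sw (slA (lt a b c)) (ta ![0, 0, s]), h1, mul_assoc (sw * ta ![0, 0, s]) sw (slA (u a b c)), sw_u a b c, ← mul_assoc sw (ta ![0, 0, s]) (slA (lt a b c)), ← mul_assoc (sw * ta ![0, 0, s]) (slA (lt a b c)) sw]

theorem D_x3 (p : Fˣ × Fˣ) (s : F) : slA (D p) * x3 s = x3 (p.1 * p.2 * s) * slA (D p) := by
  have h1 : slA (D p⁻¹) * ta ![0, 0, s] = ta ![0, 0, p.1 * p.2 * s] * slA (D p⁻¹) := by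
    rw [slA_ta, D_val]
    congr 2
    ext i
    (revert i; simp only [Matrix.mulVec, dotProduct, Fin.sum_univ_succ, mul_comm, _root_.Fin.forall_fin_succ, _root_.Prod.fst_inv, _root_.Units.val_inv_eq_inv_val, _root_.Prod.snd_inv, _root_.mul_inv_rev, _root_.inv_inv, _root_.Units.val_mul, _root_.Matrix.of_apply, _root_.Matrix.cons_val', _root_.Matrix.cons_val_fin_one, Fin.isValue, _root_.Matrix.cons_val_zero, _root_.MulZeroClass.zero_mul, _root_.Matrix.cons_val_succ, _root_.Finset.univ_unique, _root_.Fin.default_eq_zero, _root_.Finset.sum_const, _root_.Finset.card_singleton, _root_.one_smul, _root_.zero_add, _root_.MulZeroClass.mul_zero, _root_.implies_true, _root_.and_self])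
  have h2 := sw_D p⁻¹
  rw [inv_inv] at h2
  simp only [x3, x3, ← mul_assoc (slA (D p)) (sw * ta ![0, 0, s]) sw, ← mul_assoc (slA (D p)) sw (ta ![0, 0, s]), ← h2, mul_assoc sw (slA (D p⁻¹)) (ta ![0, 0, s]), h1, mul_assoc (sw * ta ![0, 0, p.1 * p.2 * s]) sw (slA (D p)), sw_D p, ← mul_assoc sw (ta ![0, 0, ↑p.1 * ↑p.2 * s]) (slA (D p⁻¹)),     ← mul_assoc (sw * ta ![0, 0, ↑p.1 * ↑p.2 * s]) (slA (D p⁻¹)) sw]

/-- **The commutator of `x₁₂` and the short root group of `ε₂`.** -/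
theorem u_comm_x2 (t s : F) : slA (u t 0 0) * x2 s =
    x2 s * (slA (u t 0 0) * x1 (s * t) * x3 (-(s ^ 2 * t)) * slA (u 0 (-(s ^ 3 * t)) (-(s ^ 3 * t ^ 2)))) := by
  apply ext_app
  intro x
  rw [x1, x2, x3]
  simp only [mul_app, slA_app, ta_app, sw_app]
  (refine And.elim (fun cj1 => And.elim fun cj2 => And.elim fun cj3 => And.elim fun cj4 => And.elim fun cj5 => And.elim fun cj6 => And.elim fun cj7 cj8 => by apply ext8; exacts [cj1, cj2, cj3, cj4, cj5, cj6, cj7, cj8]) ?_; simp only [slF0, slF1, slF2, slF3, slF4, slF5, slF6, slF7, swpF0, swpF1, swpF2, swpF3, swpF4, swpF5, swpF6, swpF7, tau0, tau1, tau2, tau3, tau4, tau5, tau6, tau7, u, _root_.Fin.isValue, _root_.Matrix.cons_val_zero, _root_.MulZeroClass.zero_mul, _root_.Matrix.cons_val_one, _root_.zero_add, _root_.Matrix.cons_val, _root_.add_zero, _root_.Matrix.of_apply, _root_.Matrix.cons_val', _root_.Matrix.cons_val_fin_one, _root_.one_mul, _root_.neg_mul, _root_.neg_add_rev, _root_.neg_neg,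 _root_.mul_neg, _root_.mul_one, _root_.MulZeroClass.mul_zero, _root_.sub_zero, _root_.sub_self, _root_.neg_zero, _root_.sub_neg_eq_add, _root_.neg_sub, _root_.zero_sub, and_self, and_true, true_and] <;> and_intros <;> ring)

/-! ### The reflection in `ε₂` -/

/-- the long reflection -/
def P0 : Matrix.SpecialLinearGroup (Fin 3) F := ⟨!![0, 0, 1; 0, 1, 0; -1, 0, 0], by rw [det_fin_three]; simp⟩

/-- the reflection in `ε₂` -/
noncomputable def na : AutO F := sw * slA P0

theorem na_app (x : Cfsg.Agent.H161.Oct.V F) : (na : AutO F).1 x = swpF (slF P0.1 x) := rfl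

theorem na_eq : (na : AutO F) = x2 1 * y2 1 * x2 1 := by
  apply ext_app
  intro x
  rw [x2, y2]
  simp only [mul_app, slA_app, ta_app, sw_app, na_app]
  (refine And.elim (fun cj1 => And.elim fun cj2 => And.elim fun cj3 => And.elim fun cj4 => And.elim fun cj5 => And.elim fun cj6 => And.elim fun cj7 cj8 => by apply ext8; exacts [cj1, cj2, cj3, cj4, cj5, cj6, cj7, cj8]) ?_; simp only [slF0, slF1, slF2, slF3, slF4, slF5, slF6, slF7, swpF0, swpF1, swpF2, swpF3, swpF4, swpF5, swpF6, swpF7, tau0, tau1, tau2, tau3, tau4, tau5, tau6, tau7, P0, _root_.Fin.isValue, _root_.Matrix.cons_val_zero, _root_.MulZeroClass.zero_mul, _root_.Matrix.cons_val_one, _root_.one_mul, _root_.zero_add, _root_.Matrix.cons_val, _root_.add_zero, _root_.MulZeroClass.mul_zero, _root_.sub_zero, _root_.mul_neg, _root_.neg_zero, _root_.mul_one, _root_.neg_sub, _root_.sub_self, _root_.zero_sub, _root_.sub_neg_eq_add, _root_.neg_add_rev, _root_.neg_neg, _root_.sub_add_sub_cancel,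 _root_.Matrix.of_apply, _root_.Matrix.cons_val', _root_.Matrix.cons_val_fin_one, _root_.sub_add_cancel_left, _root_.neg_mul, _root_.sub_add_cancel, _root_.sub_sub_cancel_left, _root_.add_sub_cancel_left, and_self, and_true, true_and] <;> and_intros <;> ring)

theorem na_u (a b c : F) : na * slA (u a b c) = slA (u (-b) a (c - a * b)) * na := by
  apply ext_app
  intro x
  simp only [mul_app, slA_app, ta_app, sw_app, na_app]
  (refine And.elim (fun cj1 => And.elim fun cj2 => And.elim fun cj3 => And.elim fun cj4 => And.elim fun cj5 => And.elim fun cj6 => And.elim fun cj7 cj8 => by apply ext8; exacts [cj1, cj2, cj3, cj4, cj5, cj6, cj7, cj8]) ?_; simp only [slF0, slF1, slF2, slF3, slF4, slF5, slF6, slF7, swpF0, swpF1, swpF2, swpF3, swpF4, swpF5, swpF6, swpF7, P0, u, _root_.Fin.isValue, _root_.Matrix.of_apply, _root_.Matrix.cons_val', _root_.Matrix.cons_val_one, _root_.Matrix.cons_val_zero, _root_.Matrix.cons_val_fin_one, _root_.Matrix.cons_val,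 _root_.MulZeroClass.mul_zero, _root_.sub_self, _root_.mul_one, _root_.sub_zero, _root_.one_mul, _root_.MulZeroClass.zero_mul, _root_.add_zero, _root_.mul_neg, _root_.neg_zero, _root_.zero_sub, _root_.neg_mul, _root_.sub_neg_eq_add, _root_.zero_add, _root_.neg_add_rev, _root_.neg_neg, and_self, and_true, true_and] <;> and_intros <;> ring)

theorem na_D (p : Fˣ × Fˣ) : na * slA (D p) = slA (D (p.1 * p.2, p.2⁻¹)) * na := by
  obtain ⟨a, b⟩ := p
  have ha := a.ne_zero
  have hb := b.ne_zero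
  apply ext_app
  intro x
  simp only [mul_app, slA_app, ta_app, sw_app, na_app, D_val]
  (refine And.elim (fun cj1 => And.elim fun cj2 => And.elim fun cj3 => And.elim fun cj4 => And.elim fun cj5 => And.elim fun cj6 => And.elim fun cj7 cj8 => by apply ext8; exacts [cj1, cj2, cj3, cj4, cj5, cj6, cj7, cj8]) ?_; simp only [slF0, slF1, slF2, slF3, slF4, slF5, slF6, slF7, swpF0, swpF1, swpF2, swpF3, swpF4, swpF5, swpF6, swpF7, P0, _root_.mul_inv_rev, _root_.Units.val_mul, _root_.Units.val_inv_eq_inv_val, _root_.Fin.isValue, _root_.mul_inv_cancel_right, _root_.Matrix.of_apply, _root_.Matrix.cons_val', _root_.Matrix.cons_val_one, _root_.Matrix.cons_val_zero, _root_.Matrix.cons_val_fin_one, _root_.Matrix.cons_val, _root_.MulZeroClass.mul_zero, _root_.sub_self, _root_.ne_eq, _root_.Units.ne_zero, _root_.not_false_eq_true, _root_.mul_inv_cancel_left₀, _root_.sub_zero, _root_.MulZeroClass.zero_mul, _root_.add_zero, _root_.mul_neg, _root_.mul_one,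 _root_.neg_zero, _root_.inv_mul_cancel_right₀, _root_.zero_add, _root_.sub_neg_eq_add, _root_.one_mul, _root_.zero_sub, _root_.neg_mul, _root_.neg_neg, _root_.inv_mul_cancel_left₀, _root_.mul_inv_cancel_right₀, and_self, and_true, true_and])

theorem na_n1 : (na : AutO F) * slA n1 = slA n2 * na := by
  apply ext_app
  intro x
  simp only [mul_app, slA_app, ta_app, sw_app, na_app]
  (refine And.elim (fun cj1 => And.elim fun cj2 => And.elim fun cj3 => And.elim fun cj4 => And.elim fun cj5 => And.elim fun cj6 => And.elim fun cj7 cj8 => by apply ext8; exacts [cj1, cj2, cj3, cj4, cj5, cj6, cj7, cj8]) ?_; simp [slF0, slF1, slF2, slF3, slF4, slF5, slF6, slF7, swpF0, swpF1, swpF2, swpF3, swpF4, swpF5, swpF6, swpF7, P0, n1, n2])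

theorem na_x2 (s : F) : na * x2 s = y2 s * na := by
  apply ext_app
  intro x
  rw [x2, y2]
  simp only [mul_app, slA_app, ta_app, sw_app, na_app]
  (refine And.elim (fun cj1 => And.elim fun cj2 => And.elim fun cj3 => And.elim fun cj4 => And.elim fun cj5 => And.elim fun cj6 => And.elim fun cj7 cj8 => by apply ext8; exacts [cj1, cj2, cj3, cj4, cj5, cj6, cj7, cj8]) ?_; simp [slF0, slF1, slF2, slF3, slF4, slF5, slF6, slF7, swpF0, swpF1, swpF2, swpF3, swpF4, swpF5, swpF6, swpF7, tau0, tau1, tau2, tau3, tau4, tau5, tau6, tau7, P0] <;> and_intros <;> ring)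

end Cfsg.Agent.H420.PG.G2
end

private theorem dce_f3a7bb096dfa : _root_.True := by
  try have : _root_.True := by simp only [_root_.Cfsg.Agent.H420.PG.G2.psi.congr_simp]
  try have : _root_.True := by simp only [_root_.Cfsg.Agent.H420.PG.G2.x2.eq_1]
  try have : _root_.True := by simp only [_root_.Cfsg.Agent.H420.PG.G2.lt.eq_1]
  try have : _root_.True := by simp only [_root_.Cfsg.Agent.H420.PG.G2.n1.eq_1]
  try have : _root_.True := by simp only [_root_.Cfsg.Agent.H420.PG.G2.y2.eq_1]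
  try have : _root_.True := by simp only [_root_.Cfsg.Agent.H420.PG.G2.u.eq_1]
  try have : _root_.True := by simp only [_root_.Cfsg.Agent.H420.PG.G2.n2.eq_1]
  try have : _root_.True := by simp only [_root_.Cfsg.Agent.H420.PG.G2.pr.eq_1]
  try have : _root_.True := by simp only [_root_.Cfsg.Agent.H420.PG.G2.x3.eq_1]
  try have : _root_.True := by simp only [_root_.Cfsg.Agent.H420.PG.G2.Tor.eq_1]
  try have : _root_.True := by simp only [_root_.Cfsg.Agent.H420.PG.G2.P0.eq_1]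
  try have : _root_.True := by simp only [_root_.Cfsg.Agent.H420.PG.G2.ER.eq_1]
  try have : _root_.True := by simp only [_root_.Cfsg.Agent.H420.PG.G2.x1.eq_1]
  try have : _root_.True := by simp only [_root_.Cfsg.Agent.H420.PG.G2.fx.eq_1]
  exact _root_.True.intro
end

-- part: H420/PG/G2ExRel
section
set_option linter.all false
open scoped Cfsg.Agent.FastGrp

/-!
# Relations in `SU₃(3) ≤ G₂(3)` (helper420)

`gU a b c`, `a b c : ZMod 3`, the Sylow `3`-subgroup, `gam` an element of order `8`, `nn` the reflection, `tt` an element of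
order `7`. The relations are checked with `8 × 8` matrices over `ZMod 3`.
-/

set_option autoImplicit false
set_option linter.unusedSimpArgs false

namespace Cfsg.Agent.H420.PG.G2

open Matrix Module Cfsg.Agent.H161.Oct

theorem x1_x3 {F : Type*} [Field F] [CharP F 3] (s t : F) : x1 s * x3 t = x3 t * x1 s := by
  have h30 : (3 : F) = 0 := by exact_mod_cast CharP.cast_eq_zero F 3
  apply ext_app
  intro x
  rw [x1, x3]
  simp only [mul_app, slA_app, ta_app, sw_app]
  apply ext8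
  all_goals simp only [slF0, slF1, slF2, slF3, slF4, slF5, slF6, slF7, swpF0, swpF1, swpF2, swpF3, swpF4, swpF5, swpF6,
    swpF7, tau0, tau1, tau2, tau3, tau4, tau5, tau6, tau7, _root_.Fin.isValue, _root_.Matrix.cons_val_zero, _root_.mul_neg, _root_.MulZeroClass.zero_mul, _root_.neg_zero, _root_.Matrix.cons_val_one, _root_.add_zero, _root_.Matrix.cons_val, _root_.zero_add, _root_.sub_neg_eq_add, _root_.MulZeroClass.mul_zero, _root_.sub_zero, _root_.neg_neg, _root_.neg_mul, _root_.neg_add_rev, _root_.neg_sub, _root_.zero_sub, _root_.sub_self]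
  all_goals first
    | ring1
    | linear_combination -(t * x 3 * s) * h30
    | linear_combination (t * s * x 4) * h30

/-- the matrix of an automorphism -/
noncomputable def mt (f : AutO (ZMod 3)) : Matrix (Fin 8) (Fin 8) (ZMod 3) := LinearMap.toMatrix' f.1.toLinearMap

theorem mt_mul (f g : AutO (ZMod 3)) : mt (f * g) = mt f * mt g := LinearMap.toMatrix'_comp _ _

theorem mt_inj {f g : AutO (ZMod 3)} (h : mt f = mt g) : f = g := by
  apply Subtype.ext
  apply LinearEquiv.toLinearMap_injective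
  exact LinearMap.toMatrix'.injective h

theorem mt_one : mt 1 = 1 := LinearMap.toMatrix'_one

theorem mt_apply (f : AutO (ZMod 3)) (i j : Fin 8) : mt f i j = f.1 (Pi.single j 1) i := by
  rw [mt, LinearMap.toMatrix'_apply]
  rfl

/-- the matrix of `τ_p` -/
def mtau (p : Fin 3 → ZMod 3) : Matrix (Fin 8) (Fin 8) (ZMod 3) := Matrix.of fun i j => tauF p (Pi.single j 1) i

/-- the matrix of the exchange automorphism -/
def mswp : Matrix (Fin 8) (Fin 8) (ZMod 3) := Matrix.of fun i j => swpF (Pi.single j 1) i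

/-- the matrix of an element of `SL₃` -/
def msl (P : Matrix (Fin 3) (Fin 3) (ZMod 3)) : Matrix (Fin 8) (Fin 8) (ZMod 3) :=
  Matrix.of fun i j => slF P (Pi.single j 1) i

theorem mt_ta (p : Fin 3 → ZMod 3) : mt (ta p) = mtau p := by
  ext i j
  rw [mt_apply]
  rfl

theorem mt_sw : mt sw = mswp := by
  ext i j
  rw [mt_apply]
  rfl

theorem mt_sl (P : Matrix.SpecialLinearGroup (Fin 3) (ZMod 3)) : mt (slA P) = msl P.1 := by
  ext i j
  rw [mt_apply]
  rfl

/-- a matrix -/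
def MX2 : Matrix (Fin 8) (Fin 8) (ZMod 3) :=
  !![1, 0, 0, 0, 0, 1, 0, 0; 0, 1, 0, 0, 0, 0, 0, 0; 2, 0, 1, 0, 0, 2, 0, 1; 0, 0, 0, 1, 0, 0, 0, 0;
    0, 0, 0, 2, 1, 0, 0, 0; 0, 0, 0, 0, 0, 1, 0, 0; 0, 1, 0, 0, 0, 0, 1, 0; 0, 0, 0, 0, 0, 2, 0, 1]

/-- a matrix -/
def MSW : Matrix (Fin 8) (Fin 8) (ZMod 3) :=
  !![0, 0, 0, 0, 0, 0, 0, 1; 0, 0, 0, 0, 2, 0, 0, 0; 0, 0, 0, 0, 0, 2, 0, 0; 0, 0, 0, 0, 0, 0, 2, 0;
    0, 2, 0, 0, 0, 0, 0, 0; 0, 0, 2, 0, 0, 0, 0, 0; 0, 0, 0, 2, 0, 0, 0, 0; 1, 0, 0, 0, 0, 0, 0, 0]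

/-- a matrix -/
def MY2 : Matrix (Fin 8) (Fin 8) (ZMod 3) :=
  !![1, 0, 2, 0, 0, 0, 0, 0; 0, 1, 0, 0, 0, 0, 1, 0; 0, 0, 1, 0, 0, 0, 0, 0; 0, 0, 0, 1, 2, 0, 0, 0;
    0, 0, 0, 0, 1, 0, 0, 0; 1, 0, 2, 0, 0, 1, 0, 2; 0, 0, 0, 0, 0, 0, 1, 0; 0, 0, 1, 0, 0, 0, 0, 1]

/-- a matrix -/
def MD : Matrix (Fin 8) (Fin 8) (ZMod 3) :=
  !![1, 0, 0, 0, 0, 0, 0, 0; 0, 1, 0, 0, 0, 0, 0, 0; 0, 0, 2, 0, 0, 0, 0, 0; 0, 0, 0, 2, 0, 0, 0, 0;
    0, 0, 0, 0, 1, 0, 0, 0; 0, 0, 0, 0, 0, 2, 0, 0; 0, 0, 0, 0, 0, 0, 2, 0; 0, 0, 0, 0, 0, 0, 0, 1]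

/-- a matrix -/
def MG : Matrix (Fin 8) (Fin 8) (ZMod 3) :=
  !![2, 0, 2, 0, 0, 2, 0, 2; 0, 1, 0, 0, 0, 0, 2, 0; 1, 0, 2, 0, 0, 1, 0, 2; 0, 0, 0, 2, 2, 0, 0, 0;
    0, 0, 0, 1, 2, 0, 0, 0; 1, 0, 1, 0, 0, 2, 0, 2; 0, 1, 0, 0, 0, 0, 1, 0; 2, 0, 1, 0, 0, 1, 0, 2]

/-- a matrix -/
def MN : Matrix (Fin 8) (Fin 8) (ZMod 3) :=
  !![1, 0, 0, 0, 0, 0, 0, 0; 0, 0, 0, 1, 0, 0, 0, 0; 0, 0, 1, 0, 0, 0, 0, 0; 0, 2, 0, 0, 0, 0, 0, 0;
    0, 0, 0, 0, 0, 0, 1, 0; 0, 0, 0, 0, 0, 1, 0, 0; 0, 0, 0, 0, 2, 0, 0, 0; 0, 0, 0, 0, 0, 0, 0, 1]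

/-- a matrix -/
def ML100 : Matrix (Fin 8) (Fin 8) (ZMod 3) :=
  !![1, 0, 0, 1, 0, 0, 0, 0; 0, 1, 1, 0, 2, 1, 0, 0; 0, 0, 1, 0, 2, 0, 0, 0; 0, 0, 0, 1, 0, 0, 0, 0;
    0, 0, 0, 0, 1, 0, 0, 0; 0, 0, 0, 0, 2, 1, 0, 0; 2, 0, 0, 2, 0, 0, 1, 1; 0, 0, 0, 2, 0, 0, 0, 1]

/-- a matrix -/
def ML010 : Matrix (Fin 8) (Fin 8) (ZMod 3) :=
  !![1, 0, 0, 0, 1, 0, 0, 0; 2, 1, 0, 0, 2, 0, 0, 1; 0, 0, 1, 1, 0, 0, 0, 0; 0, 0, 0, 1, 0, 0, 0, 0;
    0, 0, 0, 0, 1, 0, 0, 0; 0, 0, 0, 1, 0, 1, 0, 0; 0, 0, 2, 2, 0, 2, 1, 0; 0, 0, 0, 0, 2, 0, 0, 1]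

/-- a matrix -/
def ML001 : Matrix (Fin 8) (Fin 8) (ZMod 3) :=
  !![1, 0, 0, 0, 0, 0, 0, 0; 0, 1, 0, 1, 0, 0, 0, 0; 0, 0, 1, 0, 0, 0, 0, 0; 0, 0, 0, 1, 0, 0, 0, 0;
    0, 0, 0, 0, 1, 0, 0, 0; 0, 0, 0, 0, 0, 1, 0, 0; 0, 0, 0, 0, 2, 0, 1, 0; 0, 0, 0, 0, 0, 0, 0, 1]

/-- a matrix -/
def ML002 : Matrix (Fin 8) (Fin 8) (ZMod 3) :=
  !![1, 0, 0, 0, 0, 0, 0, 0; 0, 1, 0, 2, 0, 0, 0, 0; 0, 0, 1, 0, 0, 0, 0, 0; 0, 0, 0, 1, 0, 0, 0, 0;
    0, 0, 0, 0, 1, 0, 0, 0; 0, 0, 0, 0, 0, 1, 0, 0; 0, 0, 0, 0, 1, 0, 1, 0; 0, 0, 0, 0, 0, 0, 0, 1]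

/-- a matrix -/
def ML222 : Matrix (Fin 8) (Fin 8) (ZMod 3) :=
  !![1, 0, 0, 2, 2, 0, 0, 0; 1, 1, 2, 0, 1, 2, 0, 2; 0, 0, 1, 2, 1, 0, 0, 0; 0, 0, 0, 1, 0, 0, 0, 0;
    0, 0, 0, 0, 1, 0, 0, 0; 0, 0, 0, 2, 1, 1, 0, 0; 1, 0, 1, 1, 0, 1, 1, 2; 0, 0, 0, 1, 1, 0, 0, 1]

/-- a matrix -/
def ML121 : Matrix (Fin 8) (Fin 8) (ZMod 3) :=
  !![1, 0, 0, 1, 2, 0, 0, 0; 1, 1, 1, 0, 1, 1, 0, 2; 0, 0, 1, 2, 2, 0, 0, 0; 0, 0, 0, 1, 0, 0, 0, 0;
    0, 0, 0, 0, 1, 0, 0, 0; 0, 0, 0, 2, 2, 1, 0, 0; 2, 0, 1, 1, 0, 1, 1, 1; 0, 0, 0, 2, 1, 0, 0, 1]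

/-- a matrix -/
def ML112 : Matrix (Fin 8) (Fin 8) (ZMod 3) :=
  !![1, 0, 0, 1, 1, 0, 0, 0; 2, 1, 1, 0, 1, 1, 0, 1; 0, 0, 1, 1, 2, 0, 0, 0; 0, 0, 0, 1, 0, 0, 0, 0;
    0, 0, 0, 0, 1, 0, 0, 0; 0, 0, 0, 1, 2, 1, 0, 0; 2, 0, 2, 1, 0, 2, 1, 1; 0, 0, 0, 2, 2, 0, 0, 1]

/-- a matrix -/
def ML102 : Matrix (Fin 8) (Fin 8) (ZMod 3) :=
  !![1, 0, 0, 1, 0, 0, 0, 0; 0, 1, 1, 2, 2, 1, 0, 0; 0, 0, 1, 0, 2, 0, 0, 0; 0, 0, 0, 1, 0, 0, 0, 0;
    0, 0, 0, 0, 1, 0, 0, 0; 0, 0, 0, 0, 2, 1, 0, 0; 2, 0, 0, 2, 1, 0, 1, 1; 0, 0, 0, 2, 0, 0, 0, 1]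

/-- a matrix -/
def ML011 : Matrix (Fin 8) (Fin 8) (ZMod 3) :=
  !![1, 0, 0, 0, 1, 0, 0, 0; 2, 1, 0, 1, 2, 0, 0, 1; 0, 0, 1, 1, 0, 0, 0, 0; 0, 0, 0, 1, 0, 0, 0, 0;
    0, 0, 0, 0, 1, 0, 0, 0; 0, 0, 0, 1, 0, 1, 0, 0; 0, 0, 2, 2, 2, 2, 1, 0; 0, 0, 0, 0, 2, 0, 0, 1]

/-- a matrix -/
def MT : Matrix (Fin 8) (Fin 8) (ZMod 3) :=
  !![2, 0, 2, 1, 0, 2, 0, 2; 0, 0, 0, 2, 2, 0, 0, 0; 1, 0, 2, 0, 2, 1, 0, 2; 1, 2, 2, 1, 0, 2, 1, 2;
    2, 1, 2, 0, 1, 2, 1, 1; 1, 0, 1, 0, 2, 2, 0, 2; 0, 0, 0, 2, 1, 0, 0, 0; 2, 0, 1, 2, 0, 1, 0, 2]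

/-- a matrix -/
def MT2 : Matrix (Fin 8) (Fin 8) (ZMod 3) :=
  !![1, 2, 2, 1, 2, 2, 1, 0; 0, 0, 2, 2, 2, 2, 1, 0; 1, 2, 1, 2, 2, 0, 2, 2; 2, 2, 0, 0, 1, 0, 1, 1;
    0, 1, 1, 2, 0, 1, 1, 0; 1, 2, 0, 2, 2, 1, 2, 2; 1, 2, 0, 2, 1, 0, 0, 2; 0, 1, 1, 2, 1, 1, 2, 1]

/-- a matrix -/
def MG2 : Matrix (Fin 8) (Fin 8) (ZMod 3) :=
  !![0, 0, 0, 0, 0, 0, 0, 1; 0, 0, 0, 0, 0, 0, 1, 0; 0, 0, 0, 0, 0, 2, 0, 0; 0, 0, 0, 0, 2, 0, 0, 0;
    0, 0, 0, 1, 0, 0, 0, 0; 0, 0, 2, 0, 0, 0, 0, 0; 0, 2, 0, 0, 0, 0, 0, 0; 1, 0, 0, 0, 0, 0, 0, 0]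

/-- a matrix -/
def MG4 : Matrix (Fin 8) (Fin 8) (ZMod 3) :=
  !![1, 0, 0, 0, 0, 0, 0, 0; 0, 2, 0, 0, 0, 0, 0, 0; 0, 0, 1, 0, 0, 0, 0, 0; 0, 0, 0, 2, 0, 0, 0, 0;
    0, 0, 0, 0, 2, 0, 0, 0; 0, 0, 0, 0, 0, 1, 0, 0; 0, 0, 0, 0, 0, 0, 2, 0; 0, 0, 0, 0, 0, 0, 0, 1]

/-- the unipotent elements -/
noncomputable def gU (a b c : ZMod 3) : AutO (ZMod 3) := slA (u a b c) * x1 b * x3 a

/-- the element of order `8` -/
noncomputable def gam : AutO (ZMod 3) := x2 1 * y2 2 * slA (D (1, -1))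

/-- the reflection -/
noncomputable def nn : AutO (ZMod 3) := slA P0

/-- the element of order `7` -/
noncomputable def tt : AutO (ZMod 3) := nn * gam * gU 0 1 1

theorem msw_eq : mswp = MSW := by decide +kernel

theorem mt_x2 : mt (x2 1) = MX2 := by
  rw [x2, mt_ta]
  decide +kernel

private noncomputable def _root_.Cfsg.Agent.LsF.fba9aca_0 : {f // @Cfsg.Agent.H420.PG.G2.mswp = f} := ⟨_, by first | (delta Cfsg.Agent.H420.PG.G2.mswp Function.update Pi.single Cfsg.Agent.H161.Oct.swpF; rewrite [Cfsg.Agent.LsF.mof_pat, Cfsg.Agent.LsF.zneg_pat, Cfsg.Agent.LsF.vecCons_eq, Cfsg.Agent.LsF.dFinEq_eq, Cfsg.Agent.LsF.dite_eq]; exact rfl) | exact rfl⟩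
private noncomputable def _root_.Cfsg.Agent.LsF.fba9aca_1 : {f // @Cfsg.Agent.H420.PG.G2.mtau = f} := ⟨_, by first | (delta Cfsg.Agent.H420.PG.G2.mtau Function.update Pi.single Cfsg.Agent.H161.Oct.tauF; rewrite [Cfsg.Agent.LsF.mof_pat, Cfsg.Agent.LsF.zadd_pat, Cfsg.Agent.LsF.zmul_pat, Cfsg.Agent.LsF.zsub_pat, Cfsg.Agent.LsF.vecCons_eq, Cfsg.Agent.LsF.dFinEq_eq, Cfsg.Agent.LsF.dite_eq]; exact rfl) | exact rfl⟩
private noncomputable def _root_.Cfsg.Agent.LsF.fba9aca_2 : {f // @Cfsg.Agent.H420.PG.G2.MY2 = f} := ⟨_, by first | (delta Cfsg.Agent.H420.PG.G2.MY2; rewrite [Cfsg.Agent.LsF.mof_pat, Cfsg.Agent.LsF.vecCons_eq]; exact rfl) | exact rfl⟩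
theorem mt_y2 : mt (y2 2) = MY2 := by
  rw [y2, mt_mul, mt_mul, mt_sw, mt_ta]
  (refine of_decide_eq_true ?_; (try (rewrite [Cfsg.Agent.LsF.mmulF_pat, Cfsg.Agent.LsF.fba9aca_0.2, Cfsg.Agent.LsF.fba9aca_1.2, Cfsg.Agent.LsF.fba9aca_2.2, Cfsg.Agent.LsF.zadd_pat, Cfsg.Agent.LsF.zmul_pat, Cfsg.Agent.LsF.vecCons_eq, Cfsg.Agent.LsF.zdecEq_eq, Cfsg.Agent.LsF.finFintype_eq, Cfsg.Agent.LsF.dMat_eq, Cfsg.Agent.LsF.zACM_pat, Cfsg.Agent.LsF.decide_eq])); decide +kernel)

theorem mt_D : mt (slA (D (1, -1))) = MD := by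
  rw [mt_sl]
  decide +kernel

private noncomputable def _root_.Cfsg.Agent.LsF.fba9aca_3 : {f // @Cfsg.Agent.H420.PG.G2.MX2 = f} := ⟨_, by first | (delta Cfsg.Agent.H420.PG.G2.MX2; rewrite [Cfsg.Agent.LsF.mof_pat, Cfsg.Agent.LsF.vecCons_eq]; exact rfl) | exact rfl⟩
private noncomputable def _root_.Cfsg.Agent.LsF.fba9aca_4 : {f // @Cfsg.Agent.H420.PG.G2.MD = f} := ⟨_, by first | (delta Cfsg.Agent.H420.PG.G2.MD; rewrite [Cfsg.Agent.LsF.mof_pat, Cfsg.Agent.LsF.vecCons_eq]; exact rfl) | exact rfl⟩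
private noncomputable def _root_.Cfsg.Agent.LsF.fba9aca_5 : {f // @Cfsg.Agent.H420.PG.G2.MG = f} := ⟨_, by first | (delta Cfsg.Agent.H420.PG.G2.MG; rewrite [Cfsg.Agent.LsF.mof_pat, Cfsg.Agent.LsF.vecCons_eq]; exact rfl) | exact rfl⟩
theorem mt_gam : mt gam = MG := by
  rw [gam, mt_mul, mt_mul, mt_x2, mt_y2, mt_D]
  (refine of_decide_eq_true ?_; (try (rewrite [Cfsg.Agent.LsF.mmulF_pat, Cfsg.Agent.LsF.fba9aca_3.2, Cfsg.Agent.LsF.fba9aca_2.2, Cfsg.Agent.LsF.fba9aca_4.2, Cfsg.Agent.LsF.fba9aca_5.2, Cfsg.Agent.LsF.zadd_pat, Cfsg.Agent.LsF.zmul_pat, Cfsg.Agent.LsF.zdecEq_eq, Cfsg.Agent.LsF.finFintype_eq, Cfsg.Agent.LsF.dMat_eq, Cfsg.Agent.LsF.zACM_pat, Cfsg.Agent.LsF.decide_eq])); decide +kernel)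

theorem mt_nn : mt nn = MN := by
  rw [nn, mt_sl]
  decide +kernel

private noncomputable def _root_.Cfsg.Agent.LsF.fba9aca_6 : {f // @Cfsg.Agent.H420.PG.G2.msl = f} := ⟨_, by first | (delta Cfsg.Agent.H420.PG.G2.msl Cfsg.Agent.H161.Oct.slF Function.update Pi.single; rewrite [Cfsg.Agent.LsF.mof_pat, Cfsg.Agent.LsF.zadd_pat, Cfsg.Agent.LsF.zmul_pat, Cfsg.Agent.LsF.zsub_pat, Cfsg.Agent.LsF.vecCons_eq, Cfsg.Agent.LsF.dFinEq_eq, Cfsg.Agent.LsF.dite_eq]; exact rfl) | exact rfl⟩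
private noncomputable def _root_.Cfsg.Agent.LsF.fba9aca_7 : {f // @Cfsg.Agent.H420.PG.G2.MSW = f} := ⟨_, by first | (delta Cfsg.Agent.H420.PG.G2.MSW; rewrite [Cfsg.Agent.LsF.mof_pat, Cfsg.Agent.LsF.vecCons_eq]; exact rfl) | exact rfl⟩
private noncomputable def _root_.Cfsg.Agent.LsF.fba9aca_8 : {f // @Cfsg.Agent.H420.PG.G2.ML100 = f} := ⟨_, by first | (delta Cfsg.Agent.H420.PG.G2.ML100; rewrite [Cfsg.Agent.LsF.mof_pat, Cfsg.Agent.LsF.vecCons_eq]; exact rfl) | exact rfl⟩
theorem mt_g100 : mt (gU 1 0 0) = ML100 := by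
  rw [gU, x1, x3]
  simp only [mt_mul, mt_sl, mt_ta, mt_sw, msw_eq]
  (refine of_decide_eq_true ?_; (try (delta Cfsg.Agent.H420.PG.G2.u; rewrite [Cfsg.Agent.LsF.mmulF_pat, Cfsg.Agent.LsF.fba9aca_6.2, Cfsg.Agent.LsF.fba9aca_1.2, Cfsg.Agent.LsF.fba9aca_7.2, Cfsg.Agent.LsF.fba9aca_8.2, Cfsg.Agent.LsF.zadd_pat, Cfsg.Agent.LsF.zmul_pat, Cfsg.Agent.LsF.zdecEq_eq, Cfsg.Agent.LsF.dMat_eq, Cfsg.Agent.LsF.zACM_pat, Cfsg.Agent.LsF.decide_eq])); decide +kernel)

private noncomputable def _root_.Cfsg.Agent.LsF.fba9aca_9 : {f // @Cfsg.Agent.H420.PG.G2.ML010 = f} := ⟨_, by first | (delta Cfsg.Agent.H420.PG.G2.ML010; rewrite [Cfsg.Agent.LsF.mof_pat, Cfsg.Agent.LsF.vecCons_eq]; exact rfl) | exact rfl⟩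
theorem mt_g010 : mt (gU 0 1 0) = ML010 := by
  rw [gU, x1, x3]
  simp only [mt_mul, mt_sl, mt_ta, mt_sw, msw_eq]
  (refine of_decide_eq_true ?_; (try (delta Cfsg.Agent.H420.PG.G2.u; rewrite [Cfsg.Agent.LsF.mmulF_pat, Cfsg.Agent.LsF.fba9aca_6.2, Cfsg.Agent.LsF.fba9aca_1.2, Cfsg.Agent.LsF.fba9aca_7.2, Cfsg.Agent.LsF.fba9aca_9.2, Cfsg.Agent.LsF.zadd_pat, Cfsg.Agent.LsF.zmul_pat, Cfsg.Agent.LsF.zdecEq_eq, Cfsg.Agent.LsF.dMat_eq, Cfsg.Agent.LsF.zACM_pat, Cfsg.Agent.LsF.decide_eq])); decide +kernel)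

private noncomputable def _root_.Cfsg.Agent.LsF.fba9aca_10 : {f // @Cfsg.Agent.H420.PG.G2.ML001 = f} := ⟨_, by first | (delta Cfsg.Agent.H420.PG.G2.ML001; rewrite [Cfsg.Agent.LsF.mof_pat, Cfsg.Agent.LsF.vecCons_eq]; exact rfl) | exact rfl⟩
theorem mt_g001 : mt (gU 0 0 1) = ML001 := by
  rw [gU, x1, x3]
  simp only [mt_mul, mt_sl, mt_ta, mt_sw, msw_eq]
  (refine of_decide_eq_true ?_; (try (delta Cfsg.Agent.H420.PG.G2.u; rewrite [Cfsg.Agent.LsF.mmulF_pat, Cfsg.Agent.LsF.fba9aca_6.2, Cfsg.Agent.LsF.fba9aca_1.2, Cfsg.Agent.LsF.fba9aca_7.2, Cfsg.Agent.LsF.fba9aca_10.2, Cfsg.Agent.LsF.zadd_pat, Cfsg.Agent.LsF.zmul_pat, Cfsg.Agent.LsF.zdecEq_eq, Cfsg.Agent.LsF.dMat_eq, Cfsg.Agent.LsF.zACM_pat, Cfsg.Agent.LsF.decide_eq])); decide +kernel)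

private noncomputable def _root_.Cfsg.Agent.LsF.fba9aca_11 : {f // @Cfsg.Agent.H420.PG.G2.ML002 = f} := ⟨_, by first | (delta Cfsg.Agent.H420.PG.G2.ML002; rewrite [Cfsg.Agent.LsF.mof_pat, Cfsg.Agent.LsF.vecCons_eq]; exact rfl) | exact rfl⟩
theorem mt_g002 : mt (gU 0 0 2) = ML002 := by
  rw [gU, x1, x3]
  simp only [mt_mul, mt_sl, mt_ta, mt_sw, msw_eq]
  (refine of_decide_eq_true ?_; (try (delta Cfsg.Agent.H420.PG.G2.u; rewrite [Cfsg.Agent.LsF.mmulF_pat, Cfsg.Agent.LsF.fba9aca_6.2, Cfsg.Agent.LsF.fba9aca_1.2, Cfsg.Agent.LsF.fba9aca_7.2, Cfsg.Agent.LsF.fba9aca_11.2, Cfsg.Agent.LsF.zadd_pat, Cfsg.Agent.LsF.zmul_pat, Cfsg.Agent.LsF.zdecEq_eq, Cfsg.Agent.LsF.dMat_eq, Cfsg.Agent.LsF.zACM_pat, Cfsg.Agent.LsF.decide_eq])); decide +kernel)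

private noncomputable def _root_.Cfsg.Agent.LsF.fba9aca_12 : {f // @Cfsg.Agent.H420.PG.G2.ML222 = f} := ⟨_, by first | (delta Cfsg.Agent.H420.PG.G2.ML222; rewrite [Cfsg.Agent.LsF.mof_pat, Cfsg.Agent.LsF.vecCons_eq]; exact rfl) | exact rfl⟩
theorem mt_g222 : mt (gU 2 2 2) = ML222 := by
  rw [gU, x1, x3]
  simp only [mt_mul, mt_sl, mt_ta, mt_sw, msw_eq]
  (refine of_decide_eq_true ?_; (try (delta Cfsg.Agent.H420.PG.G2.u; rewrite [Cfsg.Agent.LsF.mmulF_pat, Cfsg.Agent.LsF.fba9aca_6.2, Cfsg.Agent.LsF.fba9aca_1.2, Cfsg.Agent.LsF.fba9aca_7.2, Cfsg.Agent.LsF.fba9aca_12.2, Cfsg.Agent.LsF.zadd_pat, Cfsg.Agent.LsF.zmul_pat, Cfsg.Agent.LsF.zdecEq_eq, Cfsg.Agent.LsF.dMat_eq, Cfsg.Agent.LsF.zACM_pat, Cfsg.Agent.LsF.decide_eq])); decide +kernel)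

private noncomputable def _root_.Cfsg.Agent.LsF.fba9aca_13 : {f // @Cfsg.Agent.H420.PG.G2.ML121 = f} := ⟨_, by first | (delta Cfsg.Agent.H420.PG.G2.ML121; rewrite [Cfsg.Agent.LsF.mof_pat, Cfsg.Agent.LsF.vecCons_eq]; exact rfl) | exact rfl⟩
theorem mt_g121 : mt (gU 1 2 1) = ML121 := by
  rw [gU, x1, x3]
  simp only [mt_mul, mt_sl, mt_ta, mt_sw, msw_eq]
  (refine of_decide_eq_true ?_; (try (delta Cfsg.Agent.H420.PG.G2.u; rewrite [Cfsg.Agent.LsF.mmulF_pat, Cfsg.Agent.LsF.fba9aca_6.2, Cfsg.Agent.LsF.fba9aca_1.2, Cfsg.Agent.LsF.fba9aca_7.2, Cfsg.Agent.LsF.fba9aca_13.2, Cfsg.Agent.LsF.zadd_pat, Cfsg.Agent.LsF.zmul_pat, Cfsg.Agent.LsF.zdecEq_eq, Cfsg.Agent.LsF.dMat_eq, Cfsg.Agent.LsF.zACM_pat, Cfsg.Agent.LsF.decide_eq])); decide +kernel)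

private noncomputable def _root_.Cfsg.Agent.LsF.fba9aca_14 : {f // @Cfsg.Agent.H420.PG.G2.ML112 = f} := ⟨_, by first | (delta Cfsg.Agent.H420.PG.G2.ML112; rewrite [Cfsg.Agent.LsF.mof_pat, Cfsg.Agent.LsF.vecCons_eq]; exact rfl) | exact rfl⟩
theorem mt_g112 : mt (gU 1 1 2) = ML112 := by
  rw [gU, x1, x3]
  simp only [mt_mul, mt_sl, mt_ta, mt_sw, msw_eq]
  (refine of_decide_eq_true ?_; (try (delta Cfsg.Agent.H420.PG.G2.u; rewrite [Cfsg.Agent.LsF.mmulF_pat, Cfsg.Agent.LsF.fba9aca_6.2, Cfsg.Agent.LsF.fba9aca_1.2, Cfsg.Agent.LsF.fba9aca_7.2, Cfsg.Agent.LsF.fba9aca_14.2, Cfsg.Agent.LsF.zadd_pat, Cfsg.Agent.LsF.zmul_pat, Cfsg.Agent.LsF.zdecEq_eq, Cfsg.Agent.LsF.dMat_eq, Cfsg.Agent.LsF.zACM_pat, Cfsg.Agent.LsF.decide_eq])); decide +kernel)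

private noncomputable def _root_.Cfsg.Agent.LsF.fba9aca_15 : {f // @Cfsg.Agent.H420.PG.G2.ML102 = f} := ⟨_, by first | (delta Cfsg.Agent.H420.PG.G2.ML102; rewrite [Cfsg.Agent.LsF.mof_pat, Cfsg.Agent.LsF.vecCons_eq]; exact rfl) | exact rfl⟩
theorem mt_g102 : mt (gU 1 0 2) = ML102 := by
  rw [gU, x1, x3]
  simp only [mt_mul, mt_sl, mt_ta, mt_sw, msw_eq]
  (refine of_decide_eq_true ?_; (try (delta Cfsg.Agent.H420.PG.G2.u; rewrite [Cfsg.Agent.LsF.mmulF_pat, Cfsg.Agent.LsF.fba9aca_6.2, Cfsg.Agent.LsF.fba9aca_1.2, Cfsg.Agent.LsF.fba9aca_7.2, Cfsg.Agent.LsF.fba9aca_15.2, Cfsg.Agent.LsF.zadd_pat, Cfsg.Agent.LsF.zmul_pat, Cfsg.Agent.LsF.zdecEq_eq, Cfsg.Agent.LsF.dMat_eq, Cfsg.Agent.LsF.zACM_pat, Cfsg.Agent.LsF.decide_eq])); decide +kernel)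

private noncomputable def _root_.Cfsg.Agent.LsF.fba9aca_16 : {f // @Cfsg.Agent.H420.PG.G2.ML011 = f} := ⟨_, by first | (delta Cfsg.Agent.H420.PG.G2.ML011; rewrite [Cfsg.Agent.LsF.mof_pat, Cfsg.Agent.LsF.vecCons_eq]; exact rfl) | exact rfl⟩
theorem mt_g011 : mt (gU 0 1 1) = ML011 := by
  rw [gU, x1, x3]
  simp only [mt_mul, mt_sl, mt_ta, mt_sw, msw_eq]
  (refine of_decide_eq_true ?_; (try (delta Cfsg.Agent.H420.PG.G2.u; rewrite [Cfsg.Agent.LsF.mmulF_pat, Cfsg.Agent.LsF.fba9aca_6.2, Cfsg.Agent.LsF.fba9aca_1.2, Cfsg.Agent.LsF.fba9aca_7.2, Cfsg.Agent.LsF.fba9aca_16.2, Cfsg.Agent.LsF.zadd_pat, Cfsg.Agent.LsF.zmul_pat, Cfsg.Agent.LsF.zdecEq_eq, Cfsg.Agent.LsF.dMat_eq, Cfsg.Agent.LsF.zACM_pat, Cfsg.Agent.LsF.decide_eq])); decide +kernel)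

private noncomputable def _root_.Cfsg.Agent.LsF.fba9aca_17 : {f // @Cfsg.Agent.H420.PG.G2.MN = f} := ⟨_, by first | (delta Cfsg.Agent.H420.PG.G2.MN; rewrite [Cfsg.Agent.LsF.mof_pat, Cfsg.Agent.LsF.vecCons_eq]; exact rfl) | exact rfl⟩
private noncomputable def _root_.Cfsg.Agent.LsF.fba9aca_18 : {f // @Cfsg.Agent.H420.PG.G2.MT = f} := ⟨_, by first | (delta Cfsg.Agent.H420.PG.G2.MT; rewrite [Cfsg.Agent.LsF.mof_pat, Cfsg.Agent.LsF.vecCons_eq]; exact rfl) | exact rfl⟩
theorem mt_tt : mt tt = MT := by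
  rw [tt, mt_mul, mt_mul, mt_nn, mt_gam, mt_g011]
  (refine of_decide_eq_true ?_; (try (rewrite [Cfsg.Agent.LsF.mmulF_pat, Cfsg.Agent.LsF.fba9aca_17.2, Cfsg.Agent.LsF.fba9aca_5.2, Cfsg.Agent.LsF.fba9aca_16.2, Cfsg.Agent.LsF.fba9aca_18.2, Cfsg.Agent.LsF.zadd_pat, Cfsg.Agent.LsF.zmul_pat, Cfsg.Agent.LsF.zdecEq_eq, Cfsg.Agent.LsF.finFintype_eq, Cfsg.Agent.LsF.dMat_eq, Cfsg.Agent.LsF.zACM_pat, Cfsg.Agent.LsF.decide_eq])); decide +kernel)

/-! ### The relations -/

theorem pow8 {G : Type*} [Group G] (g : G) : g ^ 8 = (g * g) * (g * g) * ((g * g) * (g * g)) := by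
  simp only [pow_succ, pow_zero, one_mul, mul_assoc]

theorem gam_eight : gam ^ 8 = 1 := by
  rw [pow8]
  apply mt_inj
  rw [mt_mul, mt_mul, mt_mul, mt_gam, mt_one,
    show MG * MG = MG2 by decide +kernel, show MG2 * MG2 = MG4 by decide +kernel]
  decide +kernel

theorem gam_a : gam * gU 1 0 0 = gU 2 2 2 * gam := by
  apply mt_inj
  rw [mt_mul, mt_mul, mt_gam, mt_g100, mt_g222]
  (refine of_decide_eq_true ?_; (try (rewrite [Cfsg.Agent.LsF.mmulF_pat, Cfsg.Agent.LsF.fba9aca_5.2, Cfsg.Agent.LsF.fba9aca_8.2, Cfsg.Agent.LsF.fba9aca_12.2, Cfsg.Agent.LsF.zadd_pat, Cfsg.Agent.LsF.zmul_pat, Cfsg.Agent.LsF.zdecEq_eq, Cfsg.Agent.LsF.finFintype_eq, Cfsg.Agent.LsF.dMat_eq, Cfsg.Agent.LsF.zACM_pat, Cfsg.Agent.LsF.decide_eq])); decide +kernel)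

theorem gam_b : gam * gU 0 1 0 = gU 1 2 1 * gam := by
  apply mt_inj
  rw [mt_mul, mt_mul, mt_gam, mt_g010, mt_g121]
  (refine of_decide_eq_true ?_; (try (rewrite [Cfsg.Agent.LsF.mmulF_pat, Cfsg.Agent.LsF.fba9aca_5.2, Cfsg.Agent.LsF.fba9aca_9.2, Cfsg.Agent.LsF.fba9aca_13.2, Cfsg.Agent.LsF.zadd_pat, Cfsg.Agent.LsF.zmul_pat, Cfsg.Agent.LsF.zdecEq_eq, Cfsg.Agent.LsF.finFintype_eq, Cfsg.Agent.LsF.dMat_eq, Cfsg.Agent.LsF.zACM_pat, Cfsg.Agent.LsF.decide_eq])); decide +kernel)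

theorem gam_c : gam * gU 0 0 1 = gU 0 0 2 * gam := by
  apply mt_inj
  rw [mt_mul, mt_mul, mt_gam, mt_g001, mt_g002]
  (refine of_decide_eq_true ?_; (try (rewrite [Cfsg.Agent.LsF.mmulF_pat, Cfsg.Agent.LsF.fba9aca_5.2, Cfsg.Agent.LsF.fba9aca_10.2, Cfsg.Agent.LsF.fba9aca_11.2, Cfsg.Agent.LsF.zadd_pat, Cfsg.Agent.LsF.zmul_pat, Cfsg.Agent.LsF.zdecEq_eq, Cfsg.Agent.LsF.finFintype_eq, Cfsg.Agent.LsF.dMat_eq, Cfsg.Agent.LsF.zACM_pat, Cfsg.Agent.LsF.decide_eq])); decide +kernel)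

theorem gam_a' : gU 1 0 0 * gam = gam * gU 1 2 1 := by
  apply mt_inj
  rw [mt_mul, mt_mul, mt_gam, mt_g100, mt_g121]
  (refine of_decide_eq_true ?_; (try (rewrite [Cfsg.Agent.LsF.mmulF_pat, Cfsg.Agent.LsF.fba9aca_8.2, Cfsg.Agent.LsF.fba9aca_5.2, Cfsg.Agent.LsF.fba9aca_13.2, Cfsg.Agent.LsF.zadd_pat, Cfsg.Agent.LsF.zmul_pat, Cfsg.Agent.LsF.zdecEq_eq, Cfsg.Agent.LsF.finFintype_eq, Cfsg.Agent.LsF.dMat_eq, Cfsg.Agent.LsF.zACM_pat, Cfsg.Agent.LsF.decide_eq])); decide +kernel)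

theorem gam_b' : gU 0 1 0 * gam = gam * gU 1 1 2 := by
  apply mt_inj
  rw [mt_mul, mt_mul, mt_gam, mt_g010, mt_g112]
  (refine of_decide_eq_true ?_; (try (rewrite [Cfsg.Agent.LsF.mmulF_pat, Cfsg.Agent.LsF.fba9aca_9.2, Cfsg.Agent.LsF.fba9aca_5.2, Cfsg.Agent.LsF.fba9aca_14.2, Cfsg.Agent.LsF.zadd_pat, Cfsg.Agent.LsF.zmul_pat, Cfsg.Agent.LsF.zdecEq_eq, Cfsg.Agent.LsF.finFintype_eq, Cfsg.Agent.LsF.dMat_eq, Cfsg.Agent.LsF.zACM_pat, Cfsg.Agent.LsF.decide_eq])); decide +kernel)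

theorem gam_c' : gU 0 0 1 * gam = gam * gU 0 0 2 := by
  apply mt_inj
  rw [mt_mul, mt_mul, mt_gam, mt_g001, mt_g002]
  (refine of_decide_eq_true ?_; (try (rewrite [Cfsg.Agent.LsF.mmulF_pat, Cfsg.Agent.LsF.fba9aca_10.2, Cfsg.Agent.LsF.fba9aca_5.2, Cfsg.Agent.LsF.fba9aca_11.2, Cfsg.Agent.LsF.zadd_pat, Cfsg.Agent.LsF.zmul_pat, Cfsg.Agent.LsF.zdecEq_eq, Cfsg.Agent.LsF.finFintype_eq, Cfsg.Agent.LsF.dMat_eq, Cfsg.Agent.LsF.zACM_pat, Cfsg.Agent.LsF.decide_eq])); decide +kernel)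

theorem nn_gam : nn * gam * nn = gam := by
  apply mt_inj
  rw [mt_mul, mt_mul, mt_gam, mt_nn]
  (refine of_decide_eq_true ?_; (try (rewrite [Cfsg.Agent.LsF.mmulF_pat, Cfsg.Agent.LsF.fba9aca_17.2, Cfsg.Agent.LsF.fba9aca_5.2, Cfsg.Agent.LsF.zadd_pat, Cfsg.Agent.LsF.zmul_pat, Cfsg.Agent.LsF.zdecEq_eq, Cfsg.Agent.LsF.finFintype_eq, Cfsg.Agent.LsF.dMat_eq, Cfsg.Agent.LsF.zACM_pat, Cfsg.Agent.LsF.decide_eq])); decide +kernel)

private noncomputable def _root_.Cfsg.Agent.LsF.fba9aca_19 : {f // @Cfsg.Agent.H420.PG.G2.MT2 = f} := ⟨_, by first | (delta Cfsg.Agent.H420.PG.G2.MT2; rewrite [Cfsg.Agent.LsF.mof_pat, Cfsg.Agent.LsF.vecCons_eq]; exact rfl) | exact rfl⟩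
theorem x_tt : gU 1 0 2 * tt = tt ^ 2 * gU 1 0 2 := by
  apply mt_inj
  rw [pow_two, mt_mul, mt_mul, mt_mul, mt_tt, mt_g102, show MT * MT = MT2 by decide +kernel]
  (refine of_decide_eq_true ?_; (try (rewrite [Cfsg.Agent.LsF.mmulF_pat, Cfsg.Agent.LsF.fba9aca_15.2, Cfsg.Agent.LsF.fba9aca_18.2, Cfsg.Agent.LsF.fba9aca_19.2, Cfsg.Agent.LsF.zadd_pat, Cfsg.Agent.LsF.zmul_pat, Cfsg.Agent.LsF.zdecEq_eq, Cfsg.Agent.LsF.finFintype_eq, Cfsg.Agent.LsF.dMat_eq, Cfsg.Agent.LsF.zACM_pat, Cfsg.Agent.LsF.decide_eq])); decide +kernel)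

theorem tt_ne : tt ≠ 1 := by
  intro h
  have h1 := congrArg mt h
  rw [mt_tt, mt_one] at h1
  revert h1
  decide +kernel

/-- multiplication in the Sylow `3`-subgroup -/
theorem gU_mul (a b c a' b' c' : ZMod 3) : gU a b c * gU a' b' c' = gU (a + a') (b + b') (c + c' + a * b') := by
  rw [gU, gU, gU, ← u_mul, map_mul, ← x1_add, ← x3_add]
  have e1 := u_x1 a' b' c' b
  have e3 := u_x3 a' b' c' a
  have e13 := x1_x3 b' a
  generalize slA (u a' b' c') = M at *
  generalize slA (u a b c) = N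
  generalize x1 b = p at *
  generalize x1 b' = p' at *
  generalize x3 a = r at *
  generalize x3 a' = r' at *
  calc N * p * r * (M * p' * r') = N * p * (r * M) * p' * r' := by simp only [mul_assoc]
    _ = N * (p * M) * (r * p') * r' := by rw [← e3]; simp only [mul_assoc]
    _ = N * M * (p * p') * (r * r') := by rw [← e1, ← e13]; simp only [mul_assoc]

theorem gU_zero : gU 0 0 0 = 1 := by
  rw [gU, u_zero, map_one, one_mul, x1_eq, x3_eq, zero_smul, zero_smul, ta_zero, one_mul, mul_one, sw_sw]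

end Cfsg.Agent.H420.PG.G2

private theorem dce_267f118bbd17 : _root_.True := by
  try have : _root_.True := by simp only [_root_.Cfsg.Agent.H420.PG.G2.gam.eq_1]
  try have : _root_.True := by simp only [_root_.Cfsg.Agent.H420.PG.G2.nn.eq_1]
  try have : _root_.True := by simp only [_root_.Cfsg.Agent.H420.PG.G2.mt.eq_1]
  try have : _root_.True := by simp only [_root_.Cfsg.Agent.H420.PG.G2.gU.eq_1]
  try have : _root_.True := by simp only [_root_.Cfsg.Agent.H420.PG.G2.tt.eq_1]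
  exact _root_.True.intro
end
end

-- part: H420/PG/G2Core
section
set_option linter.all false
open scoped Cfsg.Agent.FastGrp

/-!
# `G₂(q)`, `q` a power of three, in cross characteristic: the contradiction (helper420)
-/

set_option autoImplicit false
set_option linter.unusedSectionVars false

namespace Cfsg.Agent.H420.PG.G2

open Matrix Module Cfsg.Agent.H161.Oct

section Core

variable {F E 𝕜 W : Type*} [Field F] [Fintype F] [CharP F 3] [Field E] [Fintype E] [Algebra F E] [Field 𝕜]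
  [AddCommGroup W] [Module 𝕜 W] (ρ : AutO F →* Module.End 𝕜 W)

theorem ap (g h : AutO F) (v : W) : ρ (g * h) v = ρ g (ρ h v) := by
  rw [map_mul]; rfl

theorem ap_inv (g : AutO F) (v : W) : ρ g⁻¹ (ρ g v) = v := by
  rw [← ap, inv_mul_cancel, map_one]; rfl

theorem ap_inv' (g : AutO F) (v : W) : ρ g (ρ g⁻¹ v) = v := by
  rw [← ap, mul_inv_cancel, map_one]; rfl

/-- the restriction to `SL₃` -/
noncomputable def SS : Matrix.SpecialLinearGroup (Fin 3) F →* Module.End 𝕜 W := ρ.comp slA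

variable [FiniteDimensional 𝕜 W] [IsAlgClosed 𝕜]

/-- **The contradiction.** -/
theorem core [Nontrivial W] (e : Basis (Fin 3) F E) [Fintype (Tor F E)] (h3 : finrank F E = 3)
    (h0 : e 0 = 1) (h1 : phi F E (e 1) = e 0 + e 1) (h2 : phi F E (e 2) = e 1 + e 2)
    (hq : (Fintype.card F : 𝕜) ≠ 0) (hT : ((Fintype.card F ^ 2 + Fintype.card F + 1 : ℕ) : 𝕜) ≠ 0)
    (hsum : ∀ v, ∑ t : Tor F E, SS ρ (psi e t) v = 0)
    (hd : ∃ x : Fˣ, x ≠ 1 ∧ ∃ m : ℕ, x ^ m = 1 ∧ (m : 𝕜) ≠ 0) : False := by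
  classical
  set S := SS ρ with hS
  have hSa : ∀ g v, S g v = ρ (slA g) v := fun g v => rfl
  -- fixed points of `U`
  have hfr := frob S e h3 h0 h1 h2 hT hsum
  have hR : ∃ v : W, v ≠ 0 ∧ ∀ a c, S (u a 0 c) v = v := by
    rcases exists_fix_R S hq hfr with h | ⟨v, hv0, hv⟩
    · exact h
    · refine ⟨ρ na v, fun h => hv0 ?_, fun a c => ?_⟩
      · rw [← ap_inv ρ na v, h, map_zero]
      · have h4 := na_u (F := F) 0 (-a) c
        rw [neg_neg, zero_mul, sub_zero] at h4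
        rw [hSa, ← ap, ← h4, ap, ← hSa, hv]
  obtain ⟨v0, hv00, hv0⟩ := exists_fix_U S e h3 hq hsum hR
  have hv0m : v0 ∈ VU S := hv0
  -- a diagonal element
  obtain ⟨x, hx1, m, hxm, hm⟩ := hd
  have hD : ∀ v ∈ VU S, S (D (x, 1)) v = v := by
    intro v hv
    refine diag_trivial S e h3 hq hsum (m := m) ?_ hm hv
    apply Prod.ext
    · exact hxm
    · exact one_pow m
  have hx0 : (x : F) - 1 ≠ 0 := by
    intro h
    apply hx1
    exact Units.ext (sub_eq_zero.1 h)
  -- `x₁(s)` is trivial on `V^U`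
  have hx1m : ∀ (s : F) (v : W), v ∈ VU S → ρ (x1 s) v ∈ VU S := by
    intro s v hv a b c
    rw [hSa, ← ap, u_x1, ap, ← hSa, hv]
  have hx1t : ∀ (s : F) (v : W), v ∈ VU S → ρ (x1 s) v = v := by
    intro s v hv
    set s' := s / ((x : F) - 1) with hs'
    have e1 : ρ (x1 ((x : F) * s')) v = ρ (x1 s') v := by
      have h5 := hD _ (hx1m s' v hv)
      rw [hSa, ← ap, D_x1, ap, ← hSa, hD v hv] at h5
      exact h5
    have e2 : (x : F) * s' = s' + s := by
      rw [hs']
      field_simp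
      ring
    rw [e2, ← x1_add, ap] at e1
    have e3 := congrArg (ρ (x1 s')⁻¹) e1
    rw [ap_inv, ap_inv] at e3
    exact e3
  have hx3m : ∀ (s : F) (v : W), v ∈ VU S → ρ (x3 s) v ∈ VU S := by
    intro s v hv a b c
    rw [hSa, ← ap, u_x3, ap, ← hSa, hv]
  have hx3t : ∀ (s : F) (v : W), v ∈ VU S → ρ (x3 s) v = v := by
    intro s v hv
    set s' := s / ((x : F) - 1) with hs'
    have e1 : ρ (x3 ((x : F) * s')) v = ρ (x3 s') v := by
      have h5 := hD _ (hx3m s' v hv)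
      rw [hSa, ← ap, D_x3, ap, ← hSa, hD v hv] at h5
      rw [← h5]
      congr 3
      show (x : F) * s' = (x : F) * ((1 : Fˣ) : F) * s'
      rw [Units.val_one, mul_one]
    have e2 : (x : F) * s' = s' + s := by
      rw [hs']
      field_simp
      ring
    rw [e2, ← x3_add, ap] at e1
    have e3 := congrArg (ρ (x3 s')⁻¹) e1
    rw [ap_inv, ap_inv] at e3
    exact e3
  -- `x₂(s)` stabilises `V^U`
  have hu : ∀ a b c : F, u a b c = u a 0 0 * u 0 b (c - a * b) := by
    intro a b c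
    rw [u_mul]
    congr 1 <;> ring
  have hx2m : ∀ (s : F) (v : W), v ∈ VU S → ρ (x2 s) v ∈ VU S := by
    intro s v hv a b c
    have e1 : ρ (slA (u 0 b (c - a * b))) (ρ (x2 s) v) = ρ (x2 s) v := by
      rw [← ap, u_x2, ap, ← hSa, hv]
    rw [hu, S_apply, hSa, hSa, e1, ← ap, u_comm_x2, ap, ap, ← hSa, hv, ap, hx3t _ _ hv, ap, hx1t _ _ hv, ← hSa, hv]
  have hx2i : ∀ s : F, (x2 s)⁻¹ = x2 (-s) := by
    intro s
    rw [inv_eq_iff_mul_eq_one, x2_add, add_neg_cancel, x2_zero]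
  -- the projection commutes with `x₁`, `x₃`, `x₂`
  have hp1 : ∀ (s : F) (v : W), pr S (ρ (x1 s) v) = pr S v := by
    intro s v
    rw [pr_comm S (f := ρ (x1 s)) (g := ρ (x1 s)⁻¹) (fun v => ap_inv ρ _ v) hq (hx1m s) (fun a b c v => by
      rw [hSa, ← ap, ← u_x1, ap, ← hSa, pr_u, ap_inv'])]
    exact hx1t s _ (pr_mem S v)
  have hp3 : ∀ (s : F) (v : W), pr S (ρ (x3 s) v) = pr S v := by
    intro s v
    rw [pr_comm S (f := ρ (x3 s)) (g := ρ (x3 s)⁻¹) (fun v => ap_inv ρ _ v) hq (hx3m s) (fun a b c v => by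
      rw [hSa, ← ap, ← u_x3, ap, ← hSa, pr_u, ap_inv'])]
    exact hx3t s _ (pr_mem S v)
  have hp2 : ∀ (s : F) (v : W), pr S (ρ (x2 s) v) = ρ (x2 s) (pr S v) := by
    intro s v
    refine pr_comm S (f := ρ (x2 s)) (g := ρ (x2 s)⁻¹) (fun v => ap_inv ρ _ v) hq (hx2m s) (fun a b c v => ?_) v
    have e1 : x2 s * slA (u a 0 0) = slA (u a 0 0) * x1 (-s * a) * x3 (-((-s) ^ 2 * a)) *
        slA (u 0 (-((-s) ^ 3 * a)) (-((-s) ^ 3 * a ^ 2))) * x2 s := by
      have h5 := u_comm_x2 a (-s)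
      rw [← mul_inv_eq_iff_eq_mul, hx2i, mul_assoc, h5, ← mul_assoc, x2_add, add_neg_cancel, x2_zero, one_mul]
    rw [hu, S_apply, hSa, hSa, ← ap, e1, ap, ap, ← hSa, ap, ap, hSa, ← hSa, pr_u, hp1, hp3, ← hSa, pr_u, ← ap, ← u_x2, ap,
      ← hSa, pr_u, ap_inv']
  -- `T v`
  have hT1 : ∀ v ∈ VU S, ∀ s, ρ (x2 s) (pr S (S n1 v)) = pr S (S n1 v) := by
    intro v hv s
    rw [← hp2, hSa, ← ap]
    have e1 : x2 s * slA n1 = slA n1 * x1 (-s) := by
      rw [n1_x1, neg_neg]
    rw [e1, ap, hx1t _ _ hv]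
  let T : VU S →ₗ[𝕜] VU S :=
    { toFun := fun v => ⟨pr S (S n1 v), pr_mem S _⟩
      map_add' := fun v w => by
        apply Subtype.ext
        show pr S (S n1 ((v : W) + w)) = _
        rw [map_add, map_add]
        rfl
      map_smul' := fun c v => by
        apply Subtype.ext
        show pr S (S n1 (c • (v : W))) = _
        rw [map_smul, map_smul]
        rfl }
  have hTi : Function.Injective T := by
    rw [← LinearMap.ker_eq_bot, LinearMap.ker_eq_bot']
    intro v hv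
    apply Subtype.ext
    exact T1_inj S hq v.2 (congrArg Subtype.val hv)
  have hTs : Function.Surjective T := LinearMap.surjective_of_injective hTi
  have hTs' : ∀ w ∈ VU S, ∃ v ∈ VU S, pr S (S n1 v) = w := by
    intro w hw
    obtain ⟨v, hv⟩ := hTs ⟨w, hw⟩
    exact ⟨v, v.2, congrArg Subtype.val hv⟩
  have hx2t : ∀ (s : F) (v : W), v ∈ VU S → ρ (x2 s) v = v := by
    intro s v hv
    obtain ⟨w, hw, rfl⟩ := hTs' v hv
    exact hT1 w hw s
  -- `na` is trivial
  have hnam : ∀ v ∈ VU S, ρ na v ∈ VU S := by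
    intro v hv a b c
    have e1 := na_u (F := F) b (-a) (c + b * (-a))
    have e2 : u (-(-a)) b (c + b * -a - b * -a) = u a b c := by
      congr 1 <;> ring
    rw [e2] at e1
    rw [hSa, ← ap, ← e1, ap, ← hSa, hv]
  have hnam' : ∀ v ∈ VU S, ρ na⁻¹ v ∈ VU S := by
    intro v hv a b c
    have e1 := na_u (F := F) a b c
    have e2 : slA (u a b c) * na⁻¹ = na⁻¹ * slA (u (-b) a (c - a * b)) := by
      rw [eq_inv_mul_iff_mul_eq, ← mul_assoc, e1, mul_inv_cancel_right]
    rw [hSa, ← ap, e2, ap, ← hSa, hv]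
  have hy2t : ∀ (s : F) (v : W), v ∈ VU S → ρ (y2 s) v = v := by
    intro s v hv
    have e1 := ap_inv' ρ na v
    have e2 : ρ (y2 s) (ρ na (ρ na⁻¹ v)) = ρ na (ρ na⁻¹ v) := by
      rw [← ap, ← na_x2, ap, hx2t s _ (hnam' v hv)]
    rwa [e1] at e2
  have hna : ∀ v ∈ VU S, ρ na v = v := by
    intro v hv
    rw [na_eq, ap, ap, hx2t _ _ hv, hy2t _ _ hv, hx2t _ _ hv]
  -- the diagonal torus is trivial
  have hDA : ∀ (y : Fˣ) (v : W), v ∈ VU S → S (D (y⁻¹, y ^ 2)) v = v := by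
    intro y v hv
    have e3 := hna _ (D_mem S (1, y) hv)
    rw [hSa, ← ap, na_D, ap, hna v hv, ← hSa] at e3
    simp only [one_mul] at e3
    rw [← hSa (D (1, y))] at e3
    have e4 := congrArg (S (D (y, y⁻¹))⁻¹) e3
    rw [S_inv, ← S_apply, ← map_inv D, ← map_mul D] at e4
    conv_rhs => rw [e4]
    congr 3
    apply Prod.ext
    · show y⁻¹ = y⁻¹ * 1
      rw [mul_one]
    · show y ^ 2 = (y⁻¹)⁻¹ * y
      rw [inv_inv, pow_two]
  have hDB : ∀ (y : Fˣ) (v : W), v ∈ VU S → S (D (y ^ 2, y⁻¹)) v = v := by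
    intro y v hv
    obtain ⟨w, hw, rfl⟩ := hTs' v hv
    rw [← pr_D S hq, ← S_apply, D_n1, S_apply, hDA y w hw]
  have hDC : ∀ (z : Fˣ) (v : W), v ∈ VU S → S (D (z, z⁻¹)) v = v := by
    intro z v hv
    obtain ⟨y, rfl⟩ := exists_cube_unit z
    have e1 : (y ^ 3, (y ^ 3)⁻¹) = (y ^ 2, y⁻¹) * ((y⁻¹)⁻¹, (y⁻¹) ^ 2) := by
      apply Prod.ext
      · show y ^ 3 = y ^ 2 * (y⁻¹)⁻¹
        rw [inv_inv, pow_succ]
      · show (y ^ 3)⁻¹ = y⁻¹ * (y⁻¹) ^ 2
        rw [pow_succ, _root_.mul_inv_rev, inv_pow]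
    rw [e1, map_mul, S_apply, hDA _ _ hv, hDB _ _ hv]
  have hDD : ∀ (p : Fˣ × Fˣ) (v : W), v ∈ VU S → S (D p) v = v := by
    intro p v hv
    obtain ⟨a, b⟩ := p
    have e1 : (a, b) = (a, a⁻¹) * ((a * b, (a * b)⁻¹) * ((a * b)⁻¹, (a * b) ^ 2)) := by
      apply Prod.ext
      · show a = a * (a * b * (a * b)⁻¹)
        rw [mul_inv_cancel, mul_one]
      · show b = a⁻¹ * ((a * b)⁻¹ * (a * b) ^ 2)
        rw [pow_two, inv_mul_cancel_left, inv_mul_cancel_left]
    rw [e1, map_mul D, map_mul D, S_apply, S_apply, hDA _ _ hv, hDC _ _ hv, hDC _ _ hv]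
  -- `T₂ = T₁`
  have hpna : ∀ v, pr S (ρ na v) = ρ na (pr S v) := by
    intro v
    refine pr_comm S (f := ρ na) (g := ρ na⁻¹) (fun v => ap_inv ρ _ v) hq hnam (fun a b c v => ?_) v
    rw [hSa, ← ap, na_u, ap, ← hSa, pr_u, ap_inv']
  have hT2 : ∀ v ∈ VU S, pr S (S n2 v) = pr S (S n1 v) := by
    intro v hv
    have e1 : ρ (slA n2) (ρ na v) = ρ na (ρ (slA n1) v) := by
      rw [← ap, ← ap, na_n1]
    rw [hna v hv] at e1
    rw [hSa, e1, hpna, hna _ (pr_mem S _)]
    rfl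
  -- the relation
  have hrel := sum_cells e h3 h0 (fun t => pr S (S (psi e t) v0)) v0 (pr S (S (n1 * n2) v0)) (pr S (S (n2 * n1) v0))
    (pr S (S (n1 * n2 * n1) v0)) (by
      show pr S (S (psi e 1) v0) = v0
      rw [map_one, S_one, pr_of_mem S hq hv0m]) (fun t ht h20 => by
      have h10 : (psi e t).1 1 0 ≠ 0 := fun h => regular_pt e h3 ht h h20
      obtain ⟨a, b, c, a', b', c', p, hp⟩ := cellA (psi e t) h20 h10 (regular_ln e h3 ht h20)
      show pr S (S (psi e t) v0) = _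
      rw [hp, S_apply, S_apply, S_apply, pr_u, hv0, hDD _ _ hv0m]) (fun t ht hm => by
      have h20 : (psi e t).1 2 0 ≠ 0 := by
        intro h20
        rw [h20, mul_zero, sub_zero] at hm
        rcases mul_eq_zero.1 hm with h | h
        · exact regular_pt e h3 ht h h20
        · exact regular_ln e h3 ht h20 h
      obtain ⟨a, b, c, a', b', c', p, hp⟩ := cellB (psi e t) h20 hm
      show pr S (S (psi e t) v0) = _
      rw [hp, S_apply, S_apply, S_apply, pr_u, hv0, hDD _ _ hv0m]) (fun t ht h20 hm => by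
      obtain ⟨a, b, c, a', b', c', p, hp⟩ := cellC (psi e t) h20 hm
      show pr S (S (psi e t) v0) = _
      rw [hp, S_apply, S_apply, S_apply, pr_u, hv0, hDD _ _ hv0m])
  have hz : ∑ t : Tor F E, pr S (S (psi e t) v0) = 0 := by
    rw [← map_sum, hsum, map_zero]
  have hTm : ∀ v, pr S (S n1 v) ∈ VU S := fun v => pr_mem S _
  rw [show (∑ t : Tor F E, (fun t => pr S (S (psi e t) v0)) t) = ∑ t : Tor F E, pr S (S (psi e t) v0) from rfl, hz,
    ← T1T2 S hq hv0m, ← T2T1 S hq hv0m, ← T1T2T1 S hq hv0m, hT2 _ hv0m, hT2 _ (hTm _)] at hrel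
  set t1 := pr S (S n1 v0) with ht1
  set t2 := pr S (S n1 t1) with ht2
  set t3 := pr S (S n1 t2) with ht3
  have r1 : (Fintype.card F : 𝕜) • t2 = v0 + ((Fintype.card F : 𝕜) - 1) • t1 := T1_sq S hq hv0m (fun p => hDD p _ hv0m)
  have r2 : (Fintype.card F : 𝕜) • t3 = t1 + ((Fintype.card F : 𝕜) - 1) • t2 :=
    T1_sq S hq (hTm _) (fun p => hDD p _ (hTm _))
  have hcast : ((Fintype.card F ^ 2 - Fintype.card F : ℕ) : 𝕜) = (Fintype.card F : 𝕜) ^ 2 - (Fintype.card F : 𝕜) := by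
    rw [Nat.cast_sub, Nat.cast_pow]
    rw [pow_two]
    exact Nat.le_mul_of_pos_left _ Fintype.card_pos
  rw [← Nat.cast_smul_eq_nsmul 𝕜 (Fintype.card F), ← Nat.cast_smul_eq_nsmul 𝕜 (Fintype.card F ^ 2 - Fintype.card F), hcast] at hrel
  set c : 𝕜 := (Fintype.card F : 𝕜) with hc
  have hT' : c ^ 2 + c + 1 ≠ 0 := by
    intro h
    apply hT
    push_cast
    exact h
  -- `(c² + c + 1) c t₂ = 0`
  have r3 : (c ^ 2 + c + 1) • (c • t2) = 0 := by
    have r4 : (c ^ 2 - c) • t3 = (c - 1) • (t1 + (c - 1) • t2) := by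
      rw [← r2, smul_smul]
      congr 1
      ring
    rw [r4] at hrel
    have r5 : (c ^ 2 + c + 1) • (c • t2) = c • (v0 + c • t2 + c • t2 + (c - 1) • (t1 + (c - 1) • t2)) := by
      have r6 : v0 = c • t2 - (c - 1) • t1 := by rw [r1, add_sub_cancel_right]
      rw [r6]
      module
    rw [r5, ← hrel, smul_zero]
  have r7 := (smul_eq_zero.1 ((smul_eq_zero.1 r3).resolve_left hT')).resolve_left hq
  have r8 : t1 = 0 := T1_inj S hq (hTm _) r7
  exact hv00 (T1_inj S hq hv0m r8)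

end Core

end Cfsg.Agent.H420.PG.G2
end
end
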